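import Mathlib
import Cfsg.Agent.Lib.Helper32.D8Stmt
import Cfsg.Agent.Lib.Helper26.GenChar
import Cfsg.Agent.Lib.CT.Ops
import Cfsg.Agent.Lib.CT.Wedderburn

set_option autoImplicit false

/-!
# S3716 piece C2B: `U` in `Θ1, Θ3` with sign `σ`, not in `Θ2, Θ4`
-/

namespace Cfsg.Agent.Lib.Helper72.D8C2B

open Cfsg Cfsg.Agent.Lib.Helper32.D8Stmt
open scoped ComplexConjugate

universe u

theorem classInner_sub_left {G : Type u} [Group G] [Fintype G] (φ₁ φ₂ ψ : G → ℂ) :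
    classInner (φ₁ - φ₂) ψ = classInner φ₁ ψ - classInner φ₂ ψ := by
  simp only [classInner, Pi.sub_apply, sub_mul, Finset.sum_sub_distrib, mul_sub]

theorem bb_sub {G : Type u} [Group G] [Fintype G] (Θ Θ' : G → ℂ) (u v : G) :
    bb (Θ - Θ') u v = bb Θ u v - bb Θ' u v := by
  simp only [bb, Pi.sub_apply, Finset.sum_sub_distrib, mul_sub]

theorem main (hPAIR : PAIR.{u}) (hALGB : ALGB) : C2B.{u} := by
  intro G _ _ Θ1 Θ2 Θ3 Θ4 a w ca cw hB hca hcw hT U σ hU hUt hσ h1 h2 h3 h4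
  have htriv : IsIrrCharacter G (triv G) := Cfsg.Agent.Lib.CT.Ops.isIrrCharacter_one
  obtain ⟨d, hdpos, hd⟩ := Cfsg.Agent.Lib.CT.Wedderburn.irr_exists_apply_one_pos hU
  have hU1 : U 1 ≠ 0 := by rw [hd]; exact Nat.cast_ne_zero.mpr hdpos.ne'
  have hN : (Nat.card G : ℂ) ≠ 0 := Nat.cast_ne_zero.mpr Nat.card_pos.ne'
  obtain ⟨⟨t1aa, t1aw, t1ww⟩, ⟨t2aa, t2aw, t2ww⟩, ⟨t3aa, t3aw, t3ww⟩, ⟨t4aa, t4aw, t4ww⟩⟩ := hT
  have hne : triv G ≠ U := fun h => hUt h.symm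
  have hσ' : -σ = 1 ∨ -σ = -1 := by
    rcases hσ with h | h
    · right; rw [h]
    · left; rw [h]; norm_num
  -- the four functions
  have P1 := hPAIR Θ1 (triv G) U 1 σ a w hB.g1 hB.o1 hB.n11 hB.a1 hB.w1 htriv hU hne
    (Or.inl rfl) hσ hB.t1 h1
  have P3 := hPAIR Θ3 (triv G) U 1 σ a w hB.g3 hB.o3 hB.n33 hB.a3 hB.w3 htriv hU hne
    (Or.inl rfl) hσ hB.t3 h3
  have g14 : IsGeneralizedCharacter G (Θ1 - Θ4) :=
    Cfsg.Agent.Lib.Helper26.GenChar.isGeneralizedCharacter_sub hB.g1 hB.g4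
  have o14 : (Θ1 - Θ4) 1 = 0 := by simp [hB.o1, hB.o4]
  have n14 : classInner (Θ1 - Θ4) (Θ1 - Θ4) = 4 := by
    rw [classInner_sub_left, Cfsg.Agent.Lib.Helper26.GenChar.classInner_sub_right,
      Cfsg.Agent.Lib.Helper26.GenChar.classInner_sub_right, hB.n11, hB.n14, hB.n41, hB.n44]
    norm_num
  have a14 : (Θ1 - Θ4) a = 0 := by simp [hB.a1, hB.a4]
  have w14 : (Θ1 - Θ4) w = 0 := by simp [hB.w1, hB.w4]
  have t14 : classInner (Θ1 - Θ4) (triv G) = 1 := by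
    rw [classInner_sub_left, hB.t1, hB.t4]; norm_num
  have u14 : classInner (Θ1 - Θ4) U = σ := by rw [classInner_sub_left, h1, h4]; ring
  have P14 := hPAIR (Θ1 - Θ4) (triv G) U 1 σ a w g14 o14 n14 a14 w14 htriv hU hne
    (Or.inl rfl) hσ t14 u14
  have g23 : IsGeneralizedCharacter G (Θ2 - Θ3) :=
    Cfsg.Agent.Lib.Helper26.GenChar.isGeneralizedCharacter_sub hB.g2 hB.g3
  have o23 : (Θ2 - Θ3) 1 = 0 := by simp [hB.o2, hB.o3]
  have n23 : classInner (Θ2 - Θ3) (Θ2 - Θ3) = 4 := by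
    rw [classInner_sub_left, Cfsg.Agent.Lib.Helper26.GenChar.classInner_sub_right,
      Cfsg.Agent.Lib.Helper26.GenChar.classInner_sub_right, hB.n22, hB.n23, hB.n32, hB.n33]
    norm_num
  have a23 : (Θ2 - Θ3) a = 0 := by simp [hB.a2, hB.a3]
  have w23 : (Θ2 - Θ3) w = 0 := by simp [hB.w2, hB.w3]
  have t23 : classInner (Θ2 - Θ3) (triv G) = -1 := by
    rw [classInner_sub_left, hB.t2, hB.t3]; norm_num
  have u23 : classInner (Θ2 - Θ3) U = -σ := by rw [classInner_sub_left, h2, h3]; ring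
  have P23 := hPAIR (Θ2 - Θ3) (triv G) U (-1) (-σ) a w g23 o23 n23 a23 w23 htriv hU hne
    (Or.inr rfl) hσ' t23 u23
  -- coordinates
  obtain ⟨ux, hux⟩ : ∃ ux : ℂ, ux = (1 - U a / U 1) / ca := ⟨_, rfl⟩
  obtain ⟨uy, huy⟩ : ∃ uy : ℂ, uy = (1 - U w / U 1) / cw := ⟨_, rfl⟩
  have hA : (1 : ℂ) - U a / U 1 = ca * ux := by rw [hux]; field_simp
  have hBv : (1 : ℂ) - U w / U 1 = cw * uy := by rw [huy]; field_simp
  have ta : triv G a / triv G 1 - U a / U 1 = ca * ux := by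
    rw [← hA]; simp [triv]
  have tw : triv G w / triv G 1 - U w / U 1 = cw * uy := by
    rw [← hBv]; simp [triv]
  have t1 : triv G 1 = 1 := rfl
  rw [ta, tw, t1, t1aa, t1aw, t1ww] at P1
  rw [ta, tw, t1, t3aa, t3aw, t3ww] at P3
  rw [ta, tw, t1, bb_sub, bb_sub, bb_sub, t1aa, t1aw, t1ww, t4aa, t4aw, t4ww] at P14
  rw [ta, tw, t1, bb_sub, bb_sub, bb_sub, t2aa, t2aw, t2ww, t3aa, t3aw, t3ww] at P23
  generalize (Nat.card G : ℂ) = N at hN P1 P3 P14 P23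
  generalize U 1 = d' at hU1 P1 P3 P14 P23 hd
  have e1 : σ * d' * (ux ^ 2 + 8 * uy ^ 2) * N = 8 * (1 + σ * d') := by
    linear_combination (norm := skip) (N ^ 2 / (ca ^ 2 * cw ^ 2)) * P1
    field_simp
    ring
  have e2 : σ * d' * (ux ^ 2 - 6 * ux * uy + 11 * uy ^ 2) * N = 1 + σ * d' := by
    linear_combination (norm := skip) (2 * N ^ 2 / (ca ^ 2 * cw ^ 2)) * P3
    field_simp
    ring
  have e3 : σ * d' * (ux ^ 2 - 6 * ux * uy + 5 * uy ^ 2) * N = -2 * (1 + σ * d') := by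
    linear_combination (norm := skip) (2 * N ^ 2 / (ca ^ 2 * cw ^ 2)) * P14
    field_simp
    ring
  have e4 : σ * d' * (ux ^ 2 + 6 * ux * uy - 7 * uy ^ 2) * N = 8 * (1 + σ * d') := by
    linear_combination (norm := skip) (2 * N ^ 2 / (ca ^ 2 * cw ^ 2)) * P23
    field_simp
    ring
  have hσ0 : σ ≠ 0 := by
    rcases hσ with h | h <;> rw [h] <;> norm_num
  have hμ := hALGB ux uy N (σ * d') hN (mul_ne_zero hσ0 hU1) e1 e2 e3 e4
  rcases hσ with h | h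
  · exfalso
    rw [h, one_mul, hd] at hμ
    have : ((d + 1 : ℕ) : ℂ) = 0 := by push_cast; rw [hμ]; norm_num
    exact absurd (Nat.cast_eq_zero.mp this) (by omega)
  · rw [h] at hμ
    linear_combination (-1 : ℂ) * hμ

end Cfsg.Agent.Lib.Helper72.D8C2B
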