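import Mathlib
import Cfsg.Agent.Lib.Helper20.C320Stmt

/-! S1903 piece ABS: a group of order 320 with a normal subgroup `P ≤ G'` of order 64 whose centre
has order 4 is minimal non-2-nilpotent. -/

set_option autoImplicit false

namespace Cfsg.Agent.Lib.Helper72.C320ABS

open Cfsg.Agent.Lib.Helper4.UniStmt

universe u

/-! ### General lemmas -/

theorem zpowers_normal_of_central {H : Type*} [Group H] (y : H) (h : ∀ g : H, g * y = y * g) :
    (Subgroup.zpowers y).Normal := by
  refine ⟨fun n hn g => ?_⟩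
  obtain ⟨k, rfl⟩ := Subgroup.mem_zpowers_iff.mp hn
  have hc : Commute g (y ^ k) := (show Commute g y from h g).zpow_right k
  have e : g * y ^ k * g⁻¹ = y ^ k := by
    rw [hc.eq, mul_inv_cancel_right]
  rw [e]
  exact Subgroup.zpow_mem_zpowers y k

theorem sup_eq_top_of_card {H : Type*} [Group H] [Finite H] (A B : Subgroup H) (a b : ℕ)
    (ha : Nat.card A = a) (hb : Nat.card B = b) (hab : a.Coprime b)
    (hH : Nat.card H = a * b) : A ⊔ B = ⊤ := by
  apply Subgroup.eq_top_of_card_eq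
  apply Nat.dvd_antisymm (Subgroup.card_subgroup_dvd_card _)
  rw [hH]
  exact Nat.Coprime.mul_dvd_of_dvd_of_dvd hab (ha ▸ Subgroup.card_dvd_of_le le_sup_left)
    (hb ▸ Subgroup.card_dvd_of_le le_sup_right)

theorem central_of_sup {H : Type*} [Group H] (A : Subgroup H) (y : H)
    (hA : ∀ x ∈ A, x * y = y * x) (htop : A ⊔ Subgroup.zpowers y = ⊤) :
    ∀ g : H, g * y = y * g := by
  have hle : A ⊔ Subgroup.zpowers y ≤ Subgroup.centralizer {y} := by
    refine sup_le (fun x hx => ?_) ?_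
    · rw [Subgroup.mem_centralizer_iff]
      intro h hh
      rw [Set.mem_singleton_iff] at hh
      rw [hh]; exact (hA x hx).symm
    · rw [Subgroup.zpowers_le, Subgroup.mem_centralizer_iff]
      intro h hh
      rw [Set.mem_singleton_iff] at hh
      rw [hh]
  intro g
  have hg : g ∈ Subgroup.centralizer {y} := hle (by rw [htop]; trivial)
  exact (Subgroup.mem_centralizer_iff.mp hg y rfl).symm

theorem conj_pow_mem {H : Type*} [Group H] (y : H) (R : Subgroup H)
    (hR : ∀ x ∈ R, y * x * y⁻¹ ∈ R) (n : ℕ) : ∀ x ∈ R, y ^ n * x * (y ^ n)⁻¹ ∈ R := by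
  induction n with
  | zero => intro x hx; simpa using hx
  | succ n ih =>
    intro x hx
    have h1 := ih _ (hR x hx)
    have e : y ^ (n + 1) * x * (y ^ (n + 1))⁻¹ = y ^ n * (y * x * y⁻¹) * (y ^ n)⁻¹ := by
      rw [pow_succ]; group
    rw [e]; exact h1

theorem conj_inv_mem {H : Type*} [Group H] (y : H) (hy : y ^ 5 = 1) (R : Subgroup H)
    (hR : ∀ x ∈ R, y * x * y⁻¹ ∈ R) : ∀ x ∈ R, y⁻¹ * x * y ∈ R := by
  intro x hx
  have h := conj_pow_mem y R hR 4 x hx
  have e : y ^ 4 = y⁻¹ := by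
    rw [eq_inv_iff_mul_eq_one, ← pow_succ]; exact hy
  rw [e, inv_inv] at h
  exact h

/-- Fixed points of an element of order dividing 5 on an invariant subgroup. -/
theorem card_fix_modEq {H : Type*} [Group H] [Finite H] (y : H) (hy : y ^ 5 = 1) (R : Subgroup H)
    (hR : ∀ x ∈ R, y * x * y⁻¹ ∈ R) :
    Nat.card ↥(R ⊓ Subgroup.centralizer {y}) ≡ Nat.card R [MOD 5] := by
  classical
  haveI : Fintype R := Fintype.ofFinite R
  let f : Function.End R := fun x => ⟨y * x * y⁻¹, hR x x.2⟩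
  have hf : ∀ (n : ℕ) (x : R), (((f ^ n) x : R) : H) = y ^ n * x * (y ^ n)⁻¹ := by
    intro n
    induction n with
    | zero =>
      intro x
      rw [pow_zero, pow_zero]
      show (x : H) = 1 * x * 1⁻¹
      simp
    | succ n ih =>
      intro x
      have e : (f ^ (n + 1)) x = (f ^ n) (f x) := by
        rw [pow_succ]; rfl
      rw [e, ih]
      show y ^ n * (y * x * y⁻¹) * (y ^ n)⁻¹ = _
      rw [pow_succ]; group
  have hf5 : f ^ 5 ^ 1 = 1 := by
    funext x
    apply Subtype.ext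
    rw [pow_one, hf, hy]
    show 1 * (x : H) * 1⁻¹ = x
    simp
  haveI : Fact (Nat.Prime 5) := ⟨by norm_num⟩
  have h := Equiv.Perm.card_fixedPoints_modEq (p := 5) (n := 1) hf5
  rw [← Nat.card_eq_fintype_card, ← Nat.card_eq_fintype_card] at h
  have e : Nat.card ↥(Function.fixedPoints f) = Nat.card ↥(R ⊓ Subgroup.centralizer {y}) := by
    refine Nat.card_congr ⟨fun x => ⟨(x.1 : H), Subgroup.mem_inf.mpr ⟨x.1.2, ?_⟩⟩,
      fun z => ⟨⟨z.1, (Subgroup.mem_inf.mp z.2).1⟩, ?_⟩, fun x => rfl, fun z => rfl⟩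
    · have h1 : y * (x.1 : H) * y⁻¹ = (x.1 : H) := congrArg Subtype.val x.2
      rw [Subgroup.mem_centralizer_iff]
      intro h hh
      rw [Set.mem_singleton_iff] at hh
      rw [hh]
      exact mul_inv_eq_iff_eq_mul.mp h1
    · have h1 := Subgroup.mem_centralizer_iff.mp (Subgroup.mem_inf.mp z.2).2 y rfl
      show f ⟨z.1, _⟩ = ⟨z.1, _⟩
      apply Subtype.ext
      show y * (z : H) * y⁻¹ = z
      exact mul_inv_eq_iff_eq_mul.mpr h1
  rw [e] at h
  exact h.symm

/-! ### The centre of `P`, inside `G` -/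

section

variable {G : Type u} [Group G]

/-- `Z(P)` as a subgroup of `G`. -/
def ZP (P : Subgroup G) : Subgroup G := (Subgroup.center ↥P).map P.subtype

theorem mem_ZP (P : Subgroup G) (z : G) : z ∈ ZP P ↔ z ∈ P ∧ ∀ x ∈ P, x * z = z * x := by
  constructor
  · rintro ⟨c, hc, rfl⟩
    refine ⟨c.2, fun x hx => ?_⟩
    have := Subgroup.mem_center_iff.mp hc ⟨x, hx⟩
    exact congrArg Subtype.val this
  · rintro ⟨hz, h⟩
    exact ⟨⟨z, hz⟩, Subgroup.mem_center_iff.mpr (fun g => Subtype.ext (h g g.2)), rfl⟩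

theorem ZP_le (P : Subgroup G) : ZP P ≤ P := fun z hz => ((mem_ZP P z).mp hz).1

theorem card_ZP (P : Subgroup G) : Nat.card (ZP P) = Nat.card (Subgroup.center ↥P) :=
  Subgroup.card_map_of_injective P.subtype_injective

theorem ZP_conj (P : Subgroup G) [hPn : P.Normal] (g : G) : ∀ z ∈ ZP P, g * z * g⁻¹ ∈ ZP P := by
  intro z hz
  obtain ⟨hzP, hz'⟩ := (mem_ZP P z).mp hz
  rw [mem_ZP]
  refine ⟨hPn.conj_mem z hzP g, fun x hx => ?_⟩
  have hx' : g⁻¹ * x * g⁻¹⁻¹ ∈ P := hPn.conj_mem x hx g⁻¹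
  have e1 : x * (g * z * g⁻¹) = g * ((g⁻¹ * x * g⁻¹⁻¹) * z) * g⁻¹ := by group
  have e2 : g * z * g⁻¹ * x = g * (z * (g⁻¹ * x * g⁻¹⁻¹)) * g⁻¹ := by group
  rw [e1, e2, hz' _ hx']

variable [Finite G]

/-- No normal subgroup of order 5. -/
theorem no_normal_five (hG : Nat.card G = 320) (P : Subgroup G) (hP : Nat.card P = 64)
    (hPc : P ≤ commutator G) : ¬ ∃ N : Subgroup G, N.Normal ∧ Nat.card N = 5 := by
  rintro ⟨N, hN, hN5⟩
  haveI := hN
  have hq : Nat.card (G ⧸ N) = 64 := by
    have := Subgroup.card_eq_card_quotient_mul_card_subgroup N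
    rw [hG, hN5] at this; omega
  haveI : Fact (Nat.Prime 2) := ⟨Nat.prime_two⟩
  have hpq : IsPGroup 2 (G ⧸ N) := IsPGroup.of_card (n := 6) (by rw [hq]; norm_num)
  haveI : Nontrivial (G ⧸ N) := by
    rw [← Finite.one_lt_card_iff_nontrivial, hq]; norm_num
  haveI := hpq.isNilpotent
  have hlt : commutator (G ⧸ N) < ⊤ := Group.IsSolvable.commutator_lt_top_of_nontrivial (G ⧸ N)
  have hmap : (commutator G).map (QuotientGroup.mk' N) = commutator (G ⧸ N) := by
    rw [commutator_def, Subgroup.map_commutator, ← MonoidHom.range_eq_map,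
      MonoidHom.range_eq_top.mpr (QuotientGroup.mk'_surjective N), ← commutator_def]
  have htop : N ⊔ P = ⊤ := sup_eq_top_of_card N P 5 64 hN5 hP (by norm_num) (by rw [hG])
  have hP' : P.map (QuotientGroup.mk' N) = ⊤ := by
    have h := congrArg (Subgroup.map (QuotientGroup.mk' N)) htop
    rw [Subgroup.map_sup, QuotientGroup.map_mk'_self, bot_sup_eq, ← MonoidHom.range_eq_map,
      MonoidHom.range_eq_top.mpr (QuotientGroup.mk'_surjective N)] at h
    exact h
  have : (⊤ : Subgroup (G ⧸ N)) ≤ commutator (G ⧸ N) := by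
    rw [← hP', ← hmap]; exact Subgroup.map_mono hPc
  exact absurd (top_le_iff.mp this) hlt.ne

theorem sup_zpowers_eq_top (hG : Nat.card G = 320) (P : Subgroup G) (hP : Nat.card P = 64)
    {y : G} (hy : orderOf y = 5) : P ⊔ Subgroup.zpowers y = ⊤ :=
  sup_eq_top_of_card P (Subgroup.zpowers y) 64 5 hP (by rw [Nat.card_zpowers, hy]) (by norm_num)
    (by rw [hG])

/-- An element of order 5 does not centralize `P`. -/
theorem not_cent (hG : Nat.card G = 320) (P : Subgroup G) (hP : Nat.card P = 64)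
    (hPc : P ≤ commutator G) {y : G} (hy : orderOf y = 5) :
    ¬ P ≤ Subgroup.centralizer {y} := by
  intro h
  have hcen := central_of_sup P y
    (fun x hx => (Subgroup.mem_centralizer_iff.mp (h hx) y rfl).symm)
    (sup_zpowers_eq_top hG P hP hy)
  exact no_normal_five hG P hP hPc
    ⟨Subgroup.zpowers y, zpowers_normal_of_central y hcen, by rw [Nat.card_zpowers, hy]⟩

/-- `C_P(y) = Z(P)` for `y` of order 5. -/
theorem cent_eq (hG : Nat.card G = 320) (P : Subgroup G) [hPn : P.Normal] (hP : Nat.card P = 64)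
    (hZ : Nat.card (Subgroup.center ↥P) = 4) (hPc : P ≤ commutator G) {y : G}
    (hy : orderOf y = 5) : P ⊓ Subgroup.centralizer {y} = ZP P := by
  have hy5 : y ^ 5 = 1 := by rw [← hy]; exact pow_orderOf_eq_one y
  have hZc : Nat.card (ZP P) = 4 := by rw [card_ZP, hZ]
  -- `y` centralizes `Z(P)`
  have hZcent : ZP P ≤ Subgroup.centralizer {y} := by
    have h1 := card_fix_modEq y hy5 (ZP P) (fun x hx => ZP_conj P y x hx)
    have h2 : Nat.card ↥(ZP P ⊓ Subgroup.centralizer {y}) ∣ 4 :=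
      hZc ▸ Subgroup.card_dvd_of_le inf_le_left
    rw [hZc] at h1
    obtain ⟨c, hc⟩ : ∃ c, Nat.card ↥(ZP P ⊓ Subgroup.centralizer {y}) = c := ⟨_, rfl⟩
    rw [hc] at h1 h2
    have hle : c ≤ 4 := Nat.le_of_dvd (by norm_num) h2
    have hc4 : c = 4 := by
      interval_cases c <;> first | rfl | exact absurd h1 (by decide)
    have : ZP P ⊓ Subgroup.centralizer {y} = ZP P :=
      Subgroup.eq_of_le_of_card_ge inf_le_left (by rw [hc, hc4, hZc])
    exact inf_eq_left.mp this
  have h1 := card_fix_modEq y hy5 P (fun x hx => hPn.conj_mem x hx y)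
  have h2 : Nat.card ↥(P ⊓ Subgroup.centralizer {y}) ∣ 2 ^ 6 := by
    have := Subgroup.card_dvd_of_le (inf_le_left : P ⊓ Subgroup.centralizer {y} ≤ P)
    rw [hP] at this
    exact this
  rw [hP] at h1
  obtain ⟨j, hj6, hj⟩ := (Nat.dvd_prime_pow Nat.prime_two).mp h2
  rw [hj] at h1
  have hj' : j = 2 ∨ j = 6 := by
    interval_cases j <;> first | exact Or.inl rfl | exact Or.inr rfl | exact absurd h1 (by decide)
  rcases hj' with rfl | rfl
  · exact (Subgroup.eq_of_le_of_card_ge (le_inf (ZP_le P) hZcent)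
      (by rw [hj, hZc]; norm_num)).symm
  · exfalso
    have : P ⊓ Subgroup.centralizer {y} = P :=
      Subgroup.eq_of_le_of_card_ge inf_le_left (by rw [hj, hP]; norm_num)
    exact not_cent hG P hP hPc hy (inf_eq_left.mp this)

/-- A `y`-invariant subgroup `R` of `P` with `R Z(P) = P` is `P`. -/
theorem le_of_sup_eq (hG : Nat.card G = 320) (P : Subgroup G) [hPn : P.Normal]
    (hP : Nat.card P = 64) (hZ : Nat.card (Subgroup.center ↥P) = 4) (hPc : P ≤ commutator G)
    {y : G} (hy : orderOf y = 5) (R : Subgroup G) (hRP : R ≤ P)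
    (hR : ∀ x ∈ R, y * x * y⁻¹ ∈ R) (hsup : R ⊔ ZP P = P) : P ≤ R := by
  have hy5 : y ^ 5 = 1 := by rw [← hy]; exact pow_orderOf_eq_one y
  have hcent := cent_eq hG P hP hZ hPc hy
  have hZy : ∀ z ∈ ZP P, z * y = y * z := by
    intro z hz
    rw [← hcent] at hz
    exact (Subgroup.mem_centralizer_iff.mp hz.2 y rfl).symm
  have htop : R ⊔ (ZP P ⊔ Subgroup.zpowers y) = ⊤ := by
    rw [← sup_assoc, hsup]
    exact sup_zpowers_eq_top hG P hP hy
  have hRn : R.Normal := by
    rw [← Subgroup.normalizer_eq_top_iff, eq_top_iff, ← htop]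
    refine sup_le Subgroup.le_normalizer (sup_le ?_ ?_)
    · intro z hz
      rw [Subgroup.mem_normalizer_iff]
      intro h
      obtain ⟨hzP, hz'⟩ := (mem_ZP P z).mp hz
      have key : h ∈ P → z * h * z⁻¹ = h := by
        intro hh
        rw [← hz' h hh, mul_inv_cancel_right]
      constructor
      · intro hh
        rw [key (hRP hh)]; exact hh
      · intro hh
        have hhP : h ∈ P := by
          have := P.mul_mem (P.mul_mem (P.inv_mem hzP) (hRP hh)) hzP
          have e : z⁻¹ * (z * h * z⁻¹) * z = h := by group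
          rw [e] at this
          exact this
        rw [key hhP] at hh; exact hh
    · rw [Subgroup.zpowers_le, Subgroup.mem_normalizer_iff]
      intro h
      constructor
      · exact hR h
      · intro hh
        have := conj_inv_mem y hy5 R hR _ hh
        have e : y⁻¹ * (y * h * y⁻¹) * y = h := by group
        rw [e] at this
        exact this
  have hA1 : ZP P ⊔ Subgroup.zpowers y ≤ Subgroup.centralizer ((ZP P : Set G) ∪ {y}) := by
    refine sup_le ?_ ?_
    · intro z hz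
      rw [Subgroup.mem_centralizer_iff]
      rintro h (hh | hh)
      · exact ((mem_ZP P z).mp hz).2 h ((mem_ZP P h).mp hh).1
      · rw [Set.mem_singleton_iff] at hh
        rw [hh]; exact (hZy z hz).symm
    · rw [Subgroup.zpowers_le, Subgroup.mem_centralizer_iff]
      rintro h (hh | hh)
      · exact hZy h hh
      · rw [Set.mem_singleton_iff] at hh
        rw [hh]
  have hAc : ∀ a ∈ ZP P ⊔ Subgroup.zpowers y, ∀ b ∈ ZP P ⊔ Subgroup.zpowers y,
      a * b = b * a := by
    intro a ha b hb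
    have hb' := Subgroup.mem_centralizer_iff.mp (hA1 hb)
    have hle : ZP P ⊔ Subgroup.zpowers y ≤ Subgroup.centralizer {b} := by
      refine sup_le ?_ ?_
      · intro z hz
        rw [Subgroup.mem_centralizer_iff]
        intro h hh
        rw [Set.mem_singleton_iff] at hh
        rw [hh]
        exact (hb' z (Or.inl hz)).symm
      · rw [Subgroup.zpowers_le, Subgroup.mem_centralizer_iff]
        intro h hh
        rw [Set.mem_singleton_iff] at hh
        rw [hh]
        exact (hb' y (Or.inr rfl)).symm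
    exact (Subgroup.mem_centralizer_iff.mp (hle ha) b rfl).symm
  have hcomm : commutator G ≤ R := by
    rw [commutator_def, Subgroup.commutator_le]
    intro g₁ _ g₂ _
    have hg₁ : g₁ ∈ ((R ⊔ (ZP P ⊔ Subgroup.zpowers y) : Subgroup G) : Set G) := by
      rw [htop]; trivial
    have hg₂ : g₂ ∈ ((R ⊔ (ZP P ⊔ Subgroup.zpowers y) : Subgroup G) : Set G) := by
      rw [htop]; trivial
    rw [Subgroup.normal_mul] at hg₁ hg₂
    obtain ⟨r, hr, a, ha, rfl⟩ := Set.mem_mul.mp hg₁
    obtain ⟨r', hr', a', ha', rfl⟩ := Set.mem_mul.mp hg₂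
    have hc := hAc a ha a' ha'
    show r * a * (r' * a') * (r * a)⁻¹ * (r' * a')⁻¹ ∈ R
    have e : r * a * (r' * a') * (r * a)⁻¹ * (r' * a')⁻¹ =
        r * (a * r' * a⁻¹) * (a' * r⁻¹ * a'⁻¹) * r'⁻¹ := by
      have e1 : r * a * (r' * a') * (r * a)⁻¹ * (r' * a')⁻¹ =
          r * (a * r' * a⁻¹) * (a * a' * a⁻¹ * a'⁻¹) * (a' * r⁻¹ * a'⁻¹) * r'⁻¹ := by group
      rw [e1, hc]; group
    rw [e]
    exact R.mul_mem (R.mul_mem (R.mul_mem hr (hRn.conj_mem _ hr' a))
      (hRn.conj_mem _ (R.inv_mem hr) a')) (R.inv_mem hr')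
  exact hPc.trans hcomm

/-- A proper `y`-invariant subgroup of `P` lies in `Z(P)`. -/
theorem le_ZP_of_invariant (hG : Nat.card G = 320) (P : Subgroup G) [hPn : P.Normal]
    (hP : Nat.card P = 64) (hZ : Nat.card (Subgroup.center ↥P) = 4) (hPc : P ≤ commutator G)
    {y : G} (hy : orderOf y = 5) (R : Subgroup G) (hRP : R ≤ P) (hne : R ≠ P)
    (hR : ∀ x ∈ R, y * x * y⁻¹ ∈ R) : R ≤ ZP P := by
  have hy5 : y ^ 5 = 1 := by rw [← hy]; exact pow_orderOf_eq_one y
  have hcent := cent_eq hG P hP hZ hPc hy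
  have hZc : Nat.card (ZP P) = 4 := by rw [card_ZP, hZ]
  have hle : R ⊔ ZP P ≤ P := sup_le hRP (ZP_le P)
  have hinv : ∀ x ∈ R ⊔ ZP P, y * x * y⁻¹ ∈ R ⊔ ZP P := by
    have hmap : (R ⊔ ZP P).map (MulAut.conj y).toMonoidHom ≤ R ⊔ ZP P := by
      rw [Subgroup.map_sup]
      refine sup_le_sup ?_ ?_
      · rintro _ ⟨x, hx, rfl⟩
        exact hR x hx
      · rintro _ ⟨x, hx, rfl⟩
        exact ZP_conj P y x hx
    intro x hx
    exact hmap ⟨x, hx, rfl⟩
  have h1 := card_fix_modEq y hy5 (R ⊔ ZP P) hinv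
  have e1 : (R ⊔ ZP P) ⊓ Subgroup.centralizer {y} = ZP P := by
    rw [← inf_eq_left.mpr hle, inf_assoc, hcent]
    exact inf_eq_right.mpr le_sup_right
  rw [e1, hZc] at h1
  have h2 : Nat.card ↥(R ⊔ ZP P) ∣ 2 ^ 6 := by
    have := Subgroup.card_dvd_of_le hle
    rw [hP] at this
    exact this
  obtain ⟨j, hj6, hj⟩ := (Nat.dvd_prime_pow Nat.prime_two).mp h2
  rw [hj] at h1
  have hj' : j = 2 ∨ j = 6 := by
    interval_cases j <;> first | exact Or.inl rfl | exact Or.inr rfl | exact absurd h1 (by decide)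
  rcases hj' with rfl | rfl
  · have : ZP P = R ⊔ ZP P :=
      Subgroup.eq_of_le_of_card_ge le_sup_right (by rw [hj, hZc]; norm_num)
    rw [this]; exact le_sup_left
  · exfalso
    have hsup : R ⊔ ZP P = P := Subgroup.eq_of_le_of_card_ge hle (by rw [hj, hP]; norm_num)
    exact hne (le_antisymm hRP (le_of_sup_eq hG P hP hZ hPc hy R hRP hR hsup))

omit [Finite G] in
/-- The 2-elements of `G` lie in `P`. -/
theorem two_elt_mem (hG : Nat.card G = 320) (P : Subgroup G) [P.Normal] (hP : Nat.card P = 64)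
    (x : G) (m : ℕ) (hx : x ^ 2 ^ m = 1) : x ∈ P := by
  have hq : Nat.card (G ⧸ P) = 5 := by
    have := Subgroup.card_eq_card_quotient_mul_card_subgroup P
    rw [hG, hP] at this; omega
  rw [← QuotientGroup.eq_one_iff]
  have h1 : ((x : G ⧸ P)) ^ 5 = 1 := by rw [← hq]; exact pow_card_eq_one'
  have h2 : ((x : G ⧸ P)) ^ 2 ^ m = 1 := by rw [← QuotientGroup.mk_pow, hx]; rfl
  have d1 := orderOf_dvd_of_pow_eq_one h1
  have d2 := orderOf_dvd_of_pow_eq_one h2
  have hcop : Nat.Coprime 5 (2 ^ m) := Nat.Coprime.pow_right m (by norm_num)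
  have h3 := Nat.dvd_gcd d1 d2
  rw [hcop.gcd_eq_one, Nat.dvd_one] at h3
  exact orderOf_eq_one_iff.mp h3

end

theorem main : Cfsg.Agent.Lib.Helper20.C320Stmt.Abs.{u} := by
  intro G _ _ hG P hPn hP hZ hPc
  haveI := hPn
  haveI : Fact (Nat.Prime 2) := ⟨Nat.prime_two⟩
  refine ⟨?_, ?_⟩
  · rintro ⟨S, N, hN, hc⟩
    have h1 := hc.card_mul_card
    have hS : Nat.card S = 64 := by
      rw [S.card_eq_multiplicity, hG]
      have e : (320 : ℕ).factorization 2 = 6 := by
        have : (320 : ℕ) = 2 ^ 6 * 5 := by norm_num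
        rw [this, Nat.factorization_mul (by norm_num) (by norm_num), Nat.factorization_pow]
        simp [Nat.prime_two.factorization_self, Nat.factorization_eq_zero_of_not_dvd]
      rw [e]; norm_num
    have hN5 : Nat.card N = 5 := by
      rw [hS, hG] at h1; omega
    exact no_normal_five hG P hP hPc ⟨N, hN, hN5⟩
  · intro K hK
    have hKd : Nat.card K ∣ 320 := hG ▸ Subgroup.card_subgroup_dvd_card K
    by_cases h5 : 5 ∣ Nat.card K
    · haveI : Fact (Nat.Prime 5) := ⟨by norm_num⟩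
      obtain ⟨y', hy'⟩ := exists_prime_orderOf_dvd_card' 5 h5
      have hy : orderOf (y' : G) = 5 := by rw [Subgroup.orderOf_coe]; exact hy'
      have hyK : (y' : G) ∈ K := y'.2
      have hRinv : ∀ x ∈ K ⊓ P, (y' : G) * x * (y' : G)⁻¹ ∈ K ⊓ P := fun x hx =>
        ⟨K.mul_mem (K.mul_mem hyK hx.1) (K.inv_mem hyK), hPn.conj_mem x hx.2 _⟩
      have hRne : K ⊓ P ≠ P := by
        intro h
        apply hK
        rw [eq_top_iff, ← sup_zpowers_eq_top hG P hP hy]
        exact sup_le (inf_eq_right.mp h) (Subgroup.zpowers_le.mpr hyK)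
      have hRZ := le_ZP_of_invariant hG P hP hZ hPc hy (K ⊓ P) inf_le_right hRne hRinv
      have hcent := cent_eq hG P hP hZ hPc hy
      have h2elt : ∀ x : K, (∃ m : ℕ, x ^ 2 ^ m = 1) → x * y' = y' * x := by
        rintro x ⟨m, hm⟩
        have hxP : (x : G) ∈ P := two_elt_mem hG P hP (x : G) m (by
          rw [← Subgroup.coe_pow, hm]; rfl)
        have hxZ : (x : G) ∈ ZP P := hRZ ⟨x.2, hxP⟩
        rw [← hcent] at hxZ
        have := Subgroup.mem_centralizer_iff.mp hxZ.2 (y' : G) rfl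
        exact Subtype.ext this.symm
      obtain ⟨S⟩ : Nonempty (Sylow 2 K) := inferInstance
      obtain ⟨c, hc⟩ := h5
      have hc64 : c ∣ 2 ^ 6 := by
        rw [hc] at hKd
        exact Nat.dvd_of_mul_dvd_mul_left (by norm_num : 0 < 5) hKd
      obtain ⟨a, ha6, rfl⟩ := (Nat.dvd_prime_pow Nat.prime_two).mp hc64
      have hScard : Nat.card S = 2 ^ a := by
        rw [S.card_eq_multiplicity, hc]
        have e : (5 * 2 ^ a).factorization 2 = a := by
          rw [Nat.factorization_mul (by norm_num) (by positivity), Nat.factorization_pow]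
          simp [Nat.prime_two.factorization_self, Nat.factorization_eq_zero_of_not_dvd]
        rw [e]
      have htop : (S : Subgroup K) ⊔ Subgroup.zpowers y' = ⊤ :=
        sup_eq_top_of_card _ _ (2 ^ a) 5 hScard (by rw [Nat.card_zpowers, hy'])
          (Nat.Coprime.pow_left a (by norm_num)) (by rw [hc, mul_comm])
      have hcen : ∀ g : K, g * y' = y' * g := by
        refine central_of_sup (S : Subgroup K) y' (fun s hs => ?_) htop
        obtain ⟨m, hm⟩ := S.isPGroup' ⟨s, hs⟩
        exact h2elt s ⟨m, by simpa using congrArg Subtype.val hm⟩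
      refine ⟨S, Subgroup.zpowers y', zpowers_normal_of_central y' hcen,
        Subgroup.isComplement'_of_coprime ?_ ?_⟩
      · rw [Nat.card_zpowers, hy', hScard, hc]
      · rw [Nat.card_zpowers, hy', hScard]
        exact Nat.Coprime.pow_right a (by norm_num)
    · have hcop : Nat.Coprime (Nat.card K) 5 :=
        (Nat.Coprime.symm ((Nat.Prime.coprime_iff_not_dvd (by norm_num)).mpr h5))
      have hK64 : Nat.card K ∣ 2 ^ 6 :=
        hcop.dvd_of_dvd_mul_right (by norm_num at hKd ⊢; exact hKd)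
      obtain ⟨a, ha6, ha⟩ := (Nat.dvd_prime_pow Nat.prime_two).mp hK64
      have hKp : IsPGroup 2 K := IsPGroup.of_card ha
      obtain ⟨S⟩ : Nonempty (Sylow 2 K) := inferInstance
      have hS : (⊤ : Subgroup K) = S := S.is_maximal' (hKp.to_subgroup ⊤) le_top
      refine ⟨S, ⊥, inferInstance, ?_⟩
      rw [← hS]
      exact Subgroup.isComplement'_bot_top

end Cfsg.Agent.Lib.Helper72.C320ABS
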