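import Mathlib
import Cfsg.Agent.Lib.Helper88.CEStmt

set_option autoImplicit false

namespace Cfsg.Agent.Lib.Helper72.CEJTRANS

open Cfsg Cfsg.FusionSystem Cfsg.Agent.Lib.Helper88.FCStmt Cfsg.Agent.Lib.Helper88.CEStmt
open Cfsg.Agent.H85

universe u

variable {Ω : Type u} [Group Ω]

/-- The range of a homomorphism on `P ⊔ X` is the join of the images of `P` and `X`. -/
theorem range_sup (P X : Subgroup Ω) (ψ : ↥(P ⊔ X) →* Ω) (A B : Subgroup Ω)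
    (hA : ∀ a : Ω, a ∈ A ↔ ∃ x : P, ψ (Subgroup.inclusion le_sup_left x) = a)
    (hB : ∀ b : Ω, b ∈ B ↔ ∃ x : X, ψ (Subgroup.inclusion le_sup_right x) = b) :
    ψ.range = A ⊔ B := by
  have h1 : (⊤ : Subgroup ↥(P ⊔ X)) = P.subgroupOf (P ⊔ X) ⊔ X.subgroupOf (P ⊔ X) := by
    exact (codisjoint_iff.mp (Subgroup.codisjoint_subgroupOf_sup P X)).symm
  rw [MonoidHom.range_eq_map, h1, Subgroup.map_sup]
  congr 1
  · ext a
    rw [hA a]
    constructor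
    · rintro ⟨u, hu, rfl⟩
      exact ⟨⟨u, Subgroup.mem_subgroupOf.mp hu⟩, by congr 1⟩
    · rintro ⟨x, rfl⟩
      exact ⟨_, Subgroup.mem_subgroupOf.mpr x.2, rfl⟩
  · ext b
    rw [hB b]
    constructor
    · rintro ⟨u, hu, rfl⟩
      exact ⟨⟨u, Subgroup.mem_subgroupOf.mp hu⟩, by congr 1⟩
    · rintro ⟨x, rfl⟩
      exact ⟨_, Subgroup.mem_subgroupOf.mpr x.2, rfl⟩

theorem main (hK : KMem.{u}) : JTrans.{u} := by
  intro Ω _ S _ p _ hS F hF T E hE P hPc X hX hXE φ hφ P' hP' κ hκ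
  subst hP'
  have hTS : T ≤ S := hE.1.2.2.2.1.1
  have hPT : P ≤ T := hPc.1
  have hCP : centralizerIn T P ≤ P := hPc.2 P (isConj_refl E hPT)
  have hφT : ∀ x : P, φ x ∈ T := (E.le_of_mem hφ).2
  obtain ⟨hφF, hPX, hφX, ψ, hψ, hψP, hψX⟩ := hXE P hφ
  have hPXS : P ⊔ X ≤ S := (F.le_of_mem hψ).1
  have hXS : X ≤ S := le_sup_right.trans hPXS
  have hrS : φ.range ⊔ X ≤ S := by
    refine sup_le ?_ hXS
    rintro _ ⟨x, rfl⟩
    exact hTS (hφT x)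
  have hrange : ψ.range = φ.range ⊔ X := by
    refine range_sup P X ψ φ.range X ?_ ?_
    · intro a
      constructor
      · rintro ⟨x, rfl⟩; exact ⟨x, hψP x⟩
      · rintro ⟨x, rfl⟩; exact ⟨x, (hψP x).symm⟩
    · intro b
      constructor
      · intro hb; exact ⟨⟨b, hb⟩, hψX ⟨b, hb⟩⟩
      · rintro ⟨x, rfl⟩; rw [hψX x]; exact x.2
  have hmem : ∀ u : ↥(P ⊔ X), ψ u ∈ φ.range ⊔ X := fun u => by
    rw [← hrange]; exact ⟨u, rfl⟩
  have hinj : Function.Injective (ψ.codRestrict (φ.range ⊔ X) hmem) := by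
    intro a b hab
    apply F.injective_of_mem hψ
    exact congrArg Subtype.val hab
  have hsurj : Function.Surjective (ψ.codRestrict (φ.range ⊔ X) hmem) := by
    intro y
    have hy : (y : Ω) ∈ ψ.range := by rw [hrange]; exact y.2
    obtain ⟨u, hu⟩ := hy
    exact ⟨u, Subtype.ext hu⟩
  let e : ↥(P ⊔ X) ≃* ↥(φ.range ⊔ X) :=
    MulEquiv.ofBijective (ψ.codRestrict (φ.range ⊔ X) hmem) ⟨hinj, hsurj⟩
  have he : ∀ u : ↥(P ⊔ X), ((e u : ↥(φ.range ⊔ X)) : Ω) = ψ u := fun u => rfl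
  have hesymm : ∀ (y : ↥(φ.range ⊔ X)) (u : ↥(P ⊔ X)), ψ u = (y : Ω) → e.symm y = u := by
    intro y u hu
    rw [MulEquiv.symm_apply_eq]
    exact Subtype.ext hu.symm
  let κ' : MulAut ↥(φ.range ⊔ X) := (e.symm.trans κ).trans e
  have hκ' : ∀ y : ↥(φ.range ⊔ X), κ' y = e (κ (e.symm y)) := fun y => rfl
  -- displacement formula
  have hdisp : ∀ (x : Ω) (hx : x ∈ X) (z : P),
      (z : Ω) = x⁻¹ * ((κ ⟨x, Subgroup.mem_sup_right hx⟩ : ↥(P ⊔ X)) : Ω) →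
      x⁻¹ * ((κ' ⟨x, Subgroup.mem_sup_right hx⟩ : ↥(φ.range ⊔ X)) : Ω) = φ z := by
    intro x hx z hz
    have h1 : e.symm ⟨x, Subgroup.mem_sup_right hx⟩ = ⟨x, Subgroup.mem_sup_right hx⟩ :=
      hesymm _ _ (hψX ⟨x, hx⟩)
    have h2 : κ ⟨x, Subgroup.mem_sup_right hx⟩ =
        (⟨x, Subgroup.mem_sup_right hx⟩ : ↥(P ⊔ X)) * Subgroup.inclusion le_sup_left z := by
      apply Subtype.ext
      show ((κ ⟨x, Subgroup.mem_sup_right hx⟩ : ↥(P ⊔ X)) : Ω) = x * (z : Ω)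
      rw [hz, mul_inv_cancel_left]
    rw [hκ', h1, he, h2, map_mul]
    have h3 : ψ ⟨x, Subgroup.mem_sup_right hx⟩ = x := hψX ⟨x, hx⟩
    rw [h3, hψP z, inv_mul_cancel_left]
  refine ⟨κ', ⟨?_, ?_, ?_⟩, hdisp⟩
  · -- membership in Aut_F
    rw [mem_autGroup_iff F hrS]
    have hκF : (P ⊔ X).subtype.comp κ.toMonoidHom ∈ F.Hom (P ⊔ X) :=
      (mem_autGroup_iff F hPXS κ).mp hκ.1
    obtain ⟨ψi, hψi, hψix⟩ := inv_mem' F hψ (le_of_eq hrange.symm)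
    have hψi' : ∀ y : ↥(φ.range ⊔ X), ψi y = ((e.symm y : ↥(P ⊔ X)) : Ω) := by
      intro y
      have h1 := hψix (e.symm y) (hmem _)
      have h2 : (⟨ψ (e.symm y), hmem _⟩ : ↥(φ.range ⊔ X)) = y := e.apply_symm_apply y
      rw [h2] at h1
      exact h1
    have hχ1 : ((P ⊔ X).subtype.comp κ.toMonoidHom).comp e.symm.toMonoidHom ∈
        F.Hom (φ.range ⊔ X) := by
      refine comp_mem' F hψi hκF (fun y => by rw [hψi' y]; exact (e.symm y).2) (fun y => ?_)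
      show ((κ (e.symm y) : ↥(P ⊔ X)) : Ω) = ((κ ⟨ψi y, _⟩ : ↥(P ⊔ X)) : Ω)
      congr 2
      exact Subtype.ext (hψi' y).symm
    refine comp_mem' F hχ1 hψ (fun y => (κ (e.symm y)).2) (fun y => ?_)
    show ((κ' y : ↥(φ.range ⊔ X)) : Ω) = ψ ⟨((κ (e.symm y) : ↥(P ⊔ X)) : Ω), _⟩
    rw [hκ', he]
  · -- identity on φ.range
    intro u hu
    obtain ⟨a, ha⟩ := hu
    have h1 : e.symm u = Subgroup.inclusion le_sup_left a := by
      refine hesymm _ _ ?_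
      rw [hψP a, ha]
    have h2 : κ (Subgroup.inclusion le_sup_left a) = Subgroup.inclusion le_sup_left a :=
      hκ.2.1 _ a.2
    rw [hκ', h1, h2, ← h1, MulEquiv.apply_symm_apply]
  · -- displacement in T
    intro x hx
    have hk := hK F T hTS P hPT hCP X hX κ hκ ⟨(x : Ω), Subgroup.mem_sup_right hx⟩ hx
    have h1 := hdisp (x : Ω) hx ⟨_, hk.1⟩ rfl
    have h2 : (⟨(x : Ω), Subgroup.mem_sup_right hx⟩ : ↥(φ.range ⊔ X)) = x := Subtype.ext rfl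
    rw [h2] at h1
    rw [h1]
    exact hφT _

end Cfsg.Agent.Lib.Helper72.CEJTRANS
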