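import Mathlib
import Cfsg.Agent.Lib.Helper88.CESStmt

set_option autoImplicit false

namespace Cfsg.Agent.Lib.Helper72.CELGFAR

open Cfsg Cfsg.FusionSystem Cfsg.Agent.Lib.Helper88.FCStmt Cfsg.Agent.Lib.Helper88.CESStmt
open Cfsg.Agent.H85

universe u

/-- An element conjugating a finite subgroup into itself normalizes it. -/
theorem mem_normalizer_of_finite {G : Type u} [Group G] (Q : Subgroup G) [Finite Q] (t : G)
    (h : ∀ q ∈ Q, t * q * t⁻¹ ∈ Q) : t ∈ Subgroup.normalizer (Q : Set G) := by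
  have hinj : Function.Injective (fun q : Q => (⟨t * q * t⁻¹, h q q.2⟩ : Q)) := by
    intro a b hab
    have h1 : t * (a : G) * t⁻¹ = t * (b : G) * t⁻¹ := congrArg Subtype.val hab
    apply Subtype.ext
    simpa using h1
  have hsurj := Finite.surjective_of_injective hinj
  rw [Subgroup.mem_normalizer_iff]
  intro n
  constructor
  · exact h n
  · intro hn
    obtain ⟨q, hq⟩ := hsurj ⟨t * n * t⁻¹, hn⟩
    have h1 : t * (q : G) * t⁻¹ = t * n * t⁻¹ := congrArg Subtype.val hq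
    have h2 : (q : G) = n := by simpa using h1
    rw [← h2]; exact q.2

theorem main (hMu : MuExists.{u}) (hNu : LemGNu.{u}) (hNG : NormGrow.{u}) (hYC : YCap.{u}) :
    LemGFar.{u} := by
  intro Ω _ S _ p _ hS F hF T E hE X hX hXE φ hφ hfa hrec
  have hTsc : F.StronglyClosed T := hE.1.2.2.2.1
  have hTS : T ≤ S := hTsc.1
  have hR'S : φ.range ≤ S := by
    rintro _ ⟨x, rfl⟩
    exact (F.le_of_mem hφ).2 x
  have hcap := hYC F T hTsc X hX φ hφ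
  have hYS : φ.range ⊔ centralizerIn T φ.range ≤ S := sup_le hR'S (inf_le_left.trans hTS)
  have hnormT : ∀ s ∈ S, ∀ t ∈ T, s * t * s⁻¹ ∈ T := by
    intro s hs t ht
    have h1 : conjHom T s ∈ F.Hom T := F.conj_mem hTS hs
    exact hTsc.2 T le_rfl _ h1 ⟨t, ht⟩
  have hkey : normalizerIn T (φ.range ⊔ centralizerIn T φ.range) ≤
      φ.range ⊔ centralizerIn T φ.range := by
    intro t ht
    obtain ⟨μ, hμ, hμc, hμr⟩ :=
      hMu p hS F hF E hE X hX hXE φ hφ (centralizerIn T φ.range) le_rfl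
    obtain ⟨g, hg, hgy⟩ := hNu p hS F hF T hTsc φ.range hR'S hcap hfa t ht μ hμ hμc hμr
    have htT : t ∈ T := ht.1
    obtain ⟨θ, hθ, hθx⟩ := F.inv_mem hμ
    have hθrange : θ.range = φ.range ⊔ centralizerIn T φ.range := by
      ext y; constructor
      · rintro ⟨⟨_, y0, rfl⟩, rfl⟩
        rw [hθx]; exact y0.2
      · intro hy
        exact ⟨⟨μ ⟨y, hy⟩, ⟨_, rfl⟩⟩, hθx ⟨y, hy⟩⟩
    obtain ⟨ψ, hψ, hψx⟩ := hrec.2 μ.range θ hθ hθrange
    have hQS : μ.range ≤ S := (F.le_of_mem hθ).1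
    have hθS : ∀ x, θ x ∈ S := (F.le_of_mem hθ).2
    have hQle : μ.range ≤ extender S μ.range θ := le_extender S μ.range θ hQS hθS
    have htN : t ∈ extender S μ.range θ := by
      refine Subgroup.subset_closure ⟨hTS htT, ?_, g, hg, ?_⟩
      · haveI : Finite ↥μ.range :=
          Finite.of_injective (fun q : μ.range => (⟨q.1, hQS q.2⟩ : S))
            (fun a b h => Subtype.ext (congrArg (fun z : S => (z : Ω)) h))
        refine mem_normalizer_of_finite μ.range t ?_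
        rintro _ ⟨y, rfl⟩
        obtain ⟨y', -, hy'⟩ := hgy y
        exact ⟨y', hy'⟩
      · rintro ⟨_, y, rfl⟩ hx
        obtain ⟨y', hy'1, hy'2⟩ := hgy y
        have e1 : (⟨t * μ y * t⁻¹, hx⟩ : μ.range) = ⟨μ y', ⟨y', rfl⟩⟩ := Subtype.ext hy'2.symm
        show θ ⟨t * μ y * t⁻¹, hx⟩ = g * θ ⟨μ y, ⟨y, rfl⟩⟩ * g⁻¹
        rw [e1, hθx, hθx, hy'1]
    have hg₀T : ψ ⟨t, htN⟩ ∈ T := by
      have hle : Subgroup.zpowers t ≤ extender S μ.range θ := by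
        rw [Subgroup.zpowers_le]; exact htN
      have hleT : Subgroup.zpowers t ≤ T := by rw [Subgroup.zpowers_le]; exact htT
      have h1 := restrict_mem F hψ hle
      exact hTsc.2 _ hleT _ h1 ⟨t, Subgroup.mem_zpowers t⟩
    have hconj : ∀ y : ↥(φ.range ⊔ centralizerIn T φ.range),
        ψ ⟨t, htN⟩ * (y : Ω) * (ψ ⟨t, htN⟩)⁻¹ = g * (y : Ω) * g⁻¹ := by
      intro y
      obtain ⟨y', hy'1, hy'2⟩ := hgy y
      have hq : μ y ∈ μ.range := ⟨y, rfl⟩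
      have hqN : μ y ∈ extender S μ.range θ := hQle hq
      have h1 : ψ ⟨μ y, hqN⟩ = (y : Ω) := by rw [hψx (μ y) hq hqN, hθx]
      have hq' : μ y' ∈ μ.range := ⟨y', rfl⟩
      have hq'N : μ y' ∈ extender S μ.range θ := hQle hq'
      have h2 : ψ ⟨μ y', hq'N⟩ = (y' : Ω) := by rw [hψx (μ y') hq' hq'N, hθx]
      have h3 : (⟨μ y', hq'N⟩ : ↥(extender S μ.range θ)) =
          (⟨t, htN⟩ : ↥(extender S μ.range θ)) * ⟨μ y, hqN⟩ * (⟨t, htN⟩)⁻¹ := by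
        apply Subtype.ext
        show μ y' = t * μ y * t⁻¹
        exact hy'2
      rw [h3, map_mul, map_mul, map_inv, h1] at h2
      rw [h2, hy'1]
    have hgR : ∀ r ∈ φ.range, g * r * g⁻¹ = r := by
      intro r hr
      obtain ⟨y', hy'1, hy'2⟩ := hgy ⟨r, Subgroup.mem_sup_left hr⟩
      have h1 : μ ⟨r, Subgroup.mem_sup_left hr⟩ ∈ centralizerIn S T := hμr ⟨r, hr⟩
      have h2 : t * μ ⟨r, Subgroup.mem_sup_left hr⟩ * t⁻¹ = μ ⟨r, Subgroup.mem_sup_left hr⟩ := by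
        have := h1.2 t htT
        rw [this, mul_inv_cancel_right]
      rw [h2] at hy'2
      have h3 := F.injective_of_mem hμ hy'2
      rw [← hy'1, h3]
    have hg₀C : ψ ⟨t, htN⟩ ∈ centralizerIn T φ.range := by
      refine ⟨hg₀T, ?_⟩
      intro r hr
      have h1 : ψ ⟨t, htN⟩ * r * (ψ ⟨t, htN⟩)⁻¹ = g * r * g⁻¹ :=
        hconj ⟨r, Subgroup.mem_sup_left hr⟩
      rw [hgR r hr] at h1
      calc r * ψ ⟨t, htN⟩ = (ψ ⟨t, htN⟩ * r * (ψ ⟨t, htN⟩)⁻¹) * ψ ⟨t, htN⟩ := by rw [h1]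
        _ = ψ ⟨t, htN⟩ * r := by group
    have hg₀Y : ψ ⟨t, htN⟩ ∈ φ.range ⊔ centralizerIn T φ.range := Subgroup.mem_sup_right hg₀C
    have hμg₀ : μ ⟨ψ ⟨t, htN⟩, hg₀Y⟩ = ψ ⟨t, htN⟩ := hμc ⟨ψ ⟨t, htN⟩, hg₀C⟩
    have hg₀Q : ψ ⟨t, htN⟩ ∈ μ.range := ⟨⟨ψ ⟨t, htN⟩, hg₀Y⟩, hμg₀⟩
    have hg₀N : ψ ⟨t, htN⟩ ∈ extender S μ.range θ := hQle hg₀Q
    have h4 : ψ ⟨ψ ⟨t, htN⟩, hg₀N⟩ = ψ ⟨t, htN⟩ := by
      rw [hψx _ hg₀Q hg₀N]
      have e1 : (⟨ψ ⟨t, htN⟩, hg₀Q⟩ : μ.range) = ⟨μ ⟨ψ ⟨t, htN⟩, hg₀Y⟩, ⟨_, rfl⟩⟩ :=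
        Subtype.ext hμg₀.symm
      rw [e1, hθx]
    have h5 : (⟨ψ ⟨t, htN⟩, hg₀N⟩ : ↥(extender S μ.range θ)) = ⟨t, htN⟩ :=
      F.injective_of_mem hψ h4
    have h6 : ψ ⟨t, htN⟩ = t := congrArg Subtype.val h5
    rw [← h6]; exact hg₀Y
  have hTY : T ≤ φ.range ⊔ centralizerIn T φ.range := hNG p hS T _ hTS hYS hnormT hkey
  intro r hr
  refine ⟨hR'S hr, ?_⟩
  intro t ht
  have h1 := hcap t (hTY ht) ht
  exact (h1.2 r hr).symm

end Cfsg.Agent.Lib.Helper72.CELGFAR
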