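import Mathlib
import Cfsg.Agent.Lib.Helper88.CEStmt

set_option autoImplicit false

namespace Cfsg.Agent.Lib.Helper72.CESUP

open Cfsg Cfsg.FusionSystem Cfsg.Agent.Lib.Helper88.FCStmt Cfsg.Agent.Lib.Helper88.CEStmt

universe u

/-- The trivial subgroup centralizes `E` as soon as `E` is a subsystem of `F`. -/
theorem eCentral_bot {Ω : Type u} [Group Ω] {S : Subgroup Ω} (F : FusionSystem S) {T : Subgroup Ω}
    (E : FusionSystem T) (hEF : E.IsSubsystemOf F) : ECentral F E ⊥ := by
  intro P φ hφ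
  have hφF : φ ∈ F.Hom P := hEF P hφ
  have hPS : P ≤ S := (F.le_of_mem hφF).1
  have hbot : Subgroup.centralizer (((⊥ : Subgroup Ω) : Subgroup Ω) : Set Ω) = ⊤ := by
    ext g
    simp only [Subgroup.mem_top, iff_true]
    intro y hy
    have hy' : y = 1 := by simpa using hy
    subst hy'
    simp
  have hc : centralizerIn S (⊥ : Subgroup Ω) = S := by
    unfold centralizerIn
    rw [hbot]; simp
  have hle : P ⊔ (⊥ : Subgroup Ω) ≤ P := by simp
  refine ⟨hφF, ?_, ?_, φ.comp (Subgroup.inclusion hle), Cfsg.Agent.H85.restrict_mem F hφF hle,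
    ?_, ?_⟩
  · rw [hc]; exact hPS
  · intro x; rw [hc]; exact (F.le_of_mem hφF).2 x
  · intro x
    show φ (Subgroup.inclusion hle (Subgroup.inclusion le_sup_left x)) = φ x
    congr 1
  · intro x
    have hx : (x : Ω) = 1 := Subgroup.mem_bot.mp x.2
    have hx' : Subgroup.inclusion (le_sup_right : (⊥ : Subgroup Ω) ≤ P ⊔ ⊥) x = 1 := by
      apply Subtype.ext
      exact hx
    rw [hx', map_one, hx]

theorem finite_le {Ω : Type u} [Group Ω] (S : Subgroup Ω) [Finite S] :
    {X : Subgroup Ω | X ≤ S}.Finite := by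
  have : Finite (Subgroup ↥S) := inferInstance
  refine Set.Finite.of_injOn (f := fun X : Subgroup Ω => X.subgroupOf S)
    (t := (Set.univ : Set (Subgroup ↥S))) (fun _ _ => Set.mem_univ _) ?_ (Set.toFinite _)
  intro X hX Y hY hXY
  have h1 : X ⊓ S = Y ⊓ S := Subgroup.subgroupOf_inj.mp hXY
  rwa [inf_eq_left.mpr hX, inf_eq_left.mpr hY] at h1

theorem main (hJ : JoinCentral.{u}) : SupCentral.{u} := by
  intro Ω _ S _ p _ hS F hF T E hE
  have hEF : E.IsSubsystemOf F := hE.1.2.2.1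
  set XX : Set (Subgroup Ω) := {X : Subgroup Ω | X ≤ centralizerIn S T ∧ ECentral F E X} with hXX
  have hfin : XX.Finite := by
    refine (finite_le S).subset ?_
    intro X hX
    exact hX.1.trans inf_le_left
  have key : (hfin.toFinset.sup id) ∈ XX := by
    refine Finset.sup_induction (p := fun X => X ∈ XX) ?_ ?_ ?_
    · exact ⟨bot_le, eCentral_bot F E hEF⟩
    · intro X₁ h₁ X₂ h₂
      exact ⟨sup_le h₁.1 h₂.1, hJ p hS F hF E hE X₁ X₂ h₁.1 h₁.2 h₂.1 h₂.2⟩
    · intro X hX
      exact (Set.Finite.mem_toFinset hfin).mp hX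
  rw [Finset.sup_id_eq_sSup, Set.Finite.coe_toFinset] at key
  exact key.2

end Cfsg.Agent.Lib.Helper72.CESUP
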