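import Mathlib
import Cfsg.Agent.Lib.Helper30.CTIStmt

/-!
# S4064 / HMD (helper30's call)
-/

set_option autoImplicit false
universe u

namespace Cfsg.Agent.Lib.Helper72.CTIHMD

open Cfsg.Agent.Lib.Helper30.CTIStmt

theorem main : Cfsg.Agent.Lib.Helper30.CTIStmt.HMD.{u} := by
  intro G _ _ H M D hM hD hDM hcard h hh
  let f : ↥M × ↥D → ↥H := fun p => ⟨(p.1 : G) * (p.2 : G), mul_mem (hM p.1.2) (hD p.2.2)⟩
  have hinj : Function.Injective f := by
    rintro ⟨m, d⟩ ⟨m', d'⟩ hEq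
    have h1 : (m : G) * (d : G) = (m' : G) * (d' : G) := congrArg Subtype.val hEq
    have h2 : (m' : G)⁻¹ * (m : G) = (d' : G) * (d : G)⁻¹ := by
      rw [inv_mul_eq_iff_eq_mul, ← mul_assoc, ← h1, mul_assoc, mul_inv_cancel, mul_one]
    have h3a : (d' : G) * (d : G)⁻¹ ∈ D := D.mul_mem d'.2 (D.inv_mem d.2)
    have h3b : (d' : G) * (d : G)⁻¹ ∈ M := by
      rw [← h2]; exact M.mul_mem (M.inv_mem m'.2) m.2
    have h3 : (d' : G) * (d : G)⁻¹ ∈ D ⊓ M := ⟨h3a, h3b⟩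
    rw [hDM, Subgroup.mem_bot] at h3
    have h4 : (d' : G) = (d : G) := by
      rw [mul_inv_eq_one] at h3; exact h3
    have h5 : (m' : G) = (m : G) := by
      rw [h3, inv_mul_eq_one] at h2; exact h2
    exact Prod.ext (Subtype.ext h5.symm) (Subtype.ext h4.symm)
  have hbij : Function.Bijective f := by
    apply hinj.bijective_of_nat_card_le
    rw [Nat.card_prod, hcard]
  obtain ⟨⟨m, d⟩, hmd⟩ := hbij.2 ⟨h, hh⟩
  exact ⟨m, m.2, d, d.2, (congrArg Subtype.val hmd).symm⟩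

end Cfsg.Agent.Lib.Helper72.CTIHMD
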