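import Mathlib
import Cfsg.Agent.Lib.Helper30.CTIStmt
import Cfsg.Agent.S1225

/-!
# S4064 / N6 (helper30's call)
-/

set_option autoImplicit false
universe u

namespace Cfsg.Agent.Lib.Helper72.CTIN6

open Cfsg.Agent.Lib.Helper30.CTIStmt

theorem main : Cfsg.Agent.Lib.Helper30.CTIStmt.N6.{u} := by
  intro G _ _ M hSE hu hz v hvM hv m hm
  obtain ⟨u, hu2, huH⟩ := hu
  obtain ⟨z, hzM, hz2, hzc⟩ := hz
  have hMN : M ≤ NM M := Subgroup.le_normalizer
  obtain ⟨d, hd, hdz⟩ := (Cfsg.Agent.S1225.result (NM M) hSE u hu2 huH z v hz2 (hMN hzM) hv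
    (hMN hvM)).1
  have hdN : d ∈ NM M := hd.1
  have hm' : d⁻¹ * m * d ∈ M := by
    have h := (Subgroup.mem_normalizer_iff.mp hdN (d⁻¹ * m * d))
    apply h.mpr
    have e : d * (d⁻¹ * m * d) * d⁻¹ = m := by group
    rw [e]; exact hm
  have h1 := hzc _ hm'
  rw [← hdz]
  calc d * z * d⁻¹ * m = d * (z * (d⁻¹ * m * d)) * d⁻¹ := by group
    _ = d * ((d⁻¹ * m * d) * z) * d⁻¹ := by rw [h1]
    _ = m * (d * z * d⁻¹) := by group

end Cfsg.Agent.Lib.Helper72.CTIN6
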