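import Mathlib
import Cfsg.Agent.Lib.Helper30.CTIStmt

/-!
# S4064 / VCARD (helper30's call)
-/

set_option autoImplicit false
universe u

namespace Cfsg.Agent.Lib.Helper72.CTIVCARD

open Cfsg.Agent.Lib.Helper30.CTIStmt

theorem main : Cfsg.Agent.Lib.Helper30.CTIStmt.VCARD.{u} := by
  intro G _ _ M V hV hinv
  have h1 : nInv (NM M) = Set.ncard {t : G | orderOf t = 2 ∧ t ∈ NM M} :=
    Nat.card_coe_set_eq {t : G | orderOf t = 2 ∧ t ∈ NM M}
  have h2 : Nat.card V = Set.ncard (V : Set G) := Nat.card_coe_set_eq (V : Set G)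
  have h3 : (V : Set G) = insert 1 {t : G | orderOf t = 2 ∧ t ∈ NM M} := by
    ext y
    rw [SetLike.mem_coe, hV, Set.mem_insert_iff, Set.mem_ofPred_eq]
    constructor
    · rintro ⟨hyM, hy2⟩
      by_cases hy1 : y = 1
      · exact Or.inl hy1
      · exact Or.inr ⟨orderOf_eq_prime hy2 hy1, Subgroup.le_normalizer hyM⟩
    · rintro (rfl | ⟨ho, hyN⟩)
      · exact ⟨one_mem M, one_pow 2⟩
      · exact ⟨hinv y hyN ho, by rw [← ho]; exact pow_orderOf_eq_one y⟩
  have h4 : (1 : G) ∉ {t : G | orderOf t = 2 ∧ t ∈ NM M} := by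
    rintro ⟨h, -⟩
    rw [orderOf_one] at h
    omega
  rw [h2, h3, Set.ncard_insert_of_notMem h4 (Set.toFinite _), h1]

end Cfsg.Agent.Lib.Helper72.CTIVCARD
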