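import Mathlib
import Cfsg.Prelude.Def_Transfer
import Cfsg.Prelude.Def_KGroupFacts
import Cfsg.Agent.Lib.Helper54.UniqueSubgroup

/-!
A relative version of Thompson's critical subgroup, of small exponent, inside a `G`-invariant
subgroup `Q` of a `p`-group `P` (`Inn P ≤ G ≤ Aut P`).
-/

set_option autoImplicit false

namespace Cfsg.Agent.Lib.Helper72.Crit

open Subgroup
open scoped commutatorElement

variable {P : Type*} [Group P]

/-- If `α x = x * n` with `n` fixed by the `p'`-automorphism `α` of a `p`-group, then `n = 1`. -/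
theorem fix_of_stab {p : ℕ} (hP : IsPGroup p P) (α : MulAut P) (hα : (orderOf α).Coprime p)
    {x n : P} (hx : α x = x * n) (hn : α n = n) : n = 1 := by
  have key : ∀ k : ℕ, (α ^ k) x = x * n ^ k := by
    intro k
    induction k with
    | zero => simp
    | succ k ih =>
      calc (α ^ (k + 1)) x = α ((α ^ k) x) := by rw [pow_succ', MulAut.mul_apply]
        _ = α x * (α n) ^ k := by rw [ih, map_mul, map_pow]
        _ = x * n ^ (k + 1) := by rw [hx, hn, pow_succ', mul_assoc]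
  have h1 := key (orderOf α)
  rw [pow_orderOf_eq_one, MulAut.one_apply] at h1
  have h2 : n ^ orderOf α = 1 := left_eq_mul.mp h1
  obtain ⟨j, hj⟩ := hP n
  have h3 : orderOf n ∣ orderOf α := orderOf_dvd_of_pow_eq_one h2
  have h4 : orderOf n ∣ p ^ j := orderOf_dvd_of_pow_eq_one hj
  have h5 : Nat.Coprime (orderOf n) (orderOf α) :=
    Nat.Coprime.coprime_dvd_left h4 (hα.pow_right j).symm
  exact orderOf_eq_one_iff.mp (Nat.Coprime.eq_one_of_dvd h5 h3)

/-- A `p'`-automorphism of an abelian `p`-subgroup that fixes its elements of order `p` is trivial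
on it. -/
theorem fix_abelian {p : ℕ} (hP : IsPGroup p P) (α : MulAut P)
    (hα : (orderOf α).Coprime p) (A : Subgroup P) (hAc : ∀ a ∈ A, ∀ b ∈ A, a * b = b * a)
    (hAα : ∀ a ∈ A, α a ∈ A) (hfix : ∀ z ∈ A, z ^ p = 1 → α z = z) : ∀ a ∈ A, α a = a := by
  have key : ∀ k : ℕ, ∀ a ∈ A, a ^ (p ^ k) = 1 → α a = a := by
    intro k
    induction k with
    | zero =>
      intro a _ h
      rw [pow_zero, pow_one] at h
      rw [h, map_one]
    | succ k ih =>
      intro a ha h
      have hap : α (a ^ p) = a ^ p :=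
        ih (a ^ p) (pow_mem ha p) (by rw [← pow_mul, ← pow_succ']; exact h)
      have hwA : a⁻¹ * α a ∈ A := mul_mem (inv_mem ha) (hAα a ha)
      have hwp : (a⁻¹ * α a) ^ p = 1 := by
        have hc : Commute a⁻¹ (α a) := hAc _ (inv_mem ha) _ (hAα a ha)
        rw [hc.mul_pow, inv_pow, ← map_pow, hap, inv_mul_cancel]
      have hαw : α (a⁻¹ * α a) = a⁻¹ * α a := hfix _ hwA hwp
      have hx : α a = a * (a⁻¹ * α a) := by group
      have h1 := fix_of_stab hP α hα hx hαw
      rw [hx, h1, mul_one]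
  intro a ha
  obtain ⟨k, hk⟩ := hP a
  exact key k a ha hk

/-- `O^p` is normal. -/
theorem pRes_conj {H : Type*} [Group H] (p : ℕ) (g : H) {x : H} (hx : x ∈ Cfsg.pResidual p H) :
    g * x * g⁻¹ ∈ Cfsg.pResidual p H := by
  unfold Cfsg.pResidual at hx ⊢
  induction hx using Subgroup.closure_induction with
  | mem y hy =>
    apply Subgroup.subset_closure
    have h1 : orderOf (g * y * g⁻¹) = orderOf y := by
      have := MulEquiv.orderOf_eq (MulAut.conj g) y
      simpa [MulAut.conj_apply] using this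
    show Nat.Coprime (orderOf (g * y * g⁻¹)) p
    rw [h1]; exact hy
  | one => simp
  | mul a b _ _ ha hb =>
    have : g * (a * b) * g⁻¹ = (g * a * g⁻¹) * (g * b * g⁻¹) := by group
    rw [this]; exact mul_mem ha hb
  | inv a _ ha =>
    have : g * a⁻¹ * g⁻¹ = (g * a * g⁻¹)⁻¹ := by group
    rw [this]; exact inv_mem ha

/-- `b ^ m * y = y * b ^ m * d ^ m` when `b * y = y * b * d` and `d` commutes with `b`. -/
theorem pow_comm_central {G : Type*} [Group G] {b y d : G} (h : b * y = y * b * d)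
    (hdb : Commute d b) (m : ℕ) : b ^ m * y = y * b ^ m * d ^ m := by
  induction m with
  | zero => simp
  | succ m ih =>
    calc b ^ (m + 1) * y = b ^ m * (b * y) := by rw [pow_succ]; group
      _ = b ^ m * (y * b * d) := by rw [h]
      _ = (b ^ m * y) * b * d := by group
      _ = y * b ^ m * d ^ m * b * d := by rw [ih]
      _ = y * b ^ m * (d ^ m * b) * d := by group
      _ = y * b ^ m * (b * d ^ m) * d := by rw [(hdb.pow_left m).eq]
      _ = y * b ^ (m + 1) * d ^ (m + 1) := by rw [pow_succ, pow_succ]; group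

/-- In a finite `p`-group, a normal subgroup `K` not contained in `D₀` has an element outside
`D₀` that is central of order `p` modulo `D₀`. -/
theorem exists_rel_central {p : ℕ} [Fact p.Prime] [Finite P] (hP : IsPGroup p P)
    (D₀ K : Subgroup P) (hKn : ∀ g : P, ∀ x ∈ K, g * x * g⁻¹ ∈ K)
    {x : P} (hxK : x ∈ K) (hxD : x ∉ D₀) :
    ∃ x' ∈ K, x' ∉ D₀ ∧ x' ^ p ∈ D₀ ∧ ∀ y : P, x'⁻¹ * y⁻¹ * x' * y ∈ D₀ := by
  classical
  have hKN : K.Normal := ⟨fun x hx g => hKn g x hx⟩
  obtain ⟨L, -, hLmin⟩ := Finite.exists_le_minimal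
    (p := fun L : Subgroup P => L.Normal ∧ L ≤ K ∧ ¬ L ≤ D₀) (a := K)
    ⟨hKN, le_rfl, fun h => hxD (h hxK)⟩
  obtain ⟨⟨hLn, hLK, hLD⟩, hLm⟩ := hLmin
  haveI := hLn
  have hM : ⁅L, (⊤ : Subgroup P)⁆ ≤ D₀ := by
    by_contra hM
    have hML : ⁅L, (⊤ : Subgroup P)⁆ ≤ L := Subgroup.commutator_le_left L ⊤
    have hLM : L ≤ ⁅L, (⊤ : Subgroup P)⁆ := hLm ⟨inferInstance, hML.trans hLK, hM⟩ hML
    have hLeq : ⁅L, (⊤ : Subgroup P)⁆ = L := le_antisymm hML hLM
    haveI : Group.IsNilpotent P := hP.isNilpotent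
    obtain ⟨n, hn⟩ := Subgroup.nilpotent_iff_lowerCentralSeries.mp (inferInstance : Group.IsNilpotent P)
    have hL : ∀ k, L ≤ (⊤ : Subgroup P).lowerCentralSeries k := by
      intro k
      induction k with
      | zero => simp
      | succ k ih =>
        calc L = ⁅L, (⊤ : Subgroup P)⁆ := hLeq.symm
          _ ≤ ⁅(⊤ : Subgroup P).lowerCentralSeries k, (⊤ : Subgroup P)⁆ := Subgroup.commutator_mono ih le_rfl
    have h1 := hL n
    rw [hn] at h1
    exact hLD (h1.trans bot_le)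
  obtain ⟨y₀, hy₀L, hy₀D⟩ := SetLike.not_le_iff_exists.mp hLD
  have hex : ∃ j, y₀ ^ (p ^ j) ∈ D₀ := by
    obtain ⟨k, hk⟩ := hP y₀
    exact ⟨k, hk ▸ one_mem _⟩
  have hj0 : Nat.find hex ≠ 0 := by
    intro h0
    have := Nat.find_spec hex
    rw [h0, pow_zero, pow_one] at this
    exact hy₀D this
  have hx'L : y₀ ^ (p ^ (Nat.find hex - 1)) ∈ L := pow_mem hy₀L _
  refine ⟨y₀ ^ (p ^ (Nat.find hex - 1)), hLK hx'L,
    Nat.find_min hex (Nat.pred_lt hj0), ?_, ?_⟩
  · have := Nat.find_spec hex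
    rw [← pow_mul, ← pow_succ, Nat.sub_add_cancel (Nat.pos_of_ne_zero hj0)]
    exact this
  · intro y
    have h1 := Subgroup.commutator_mem_commutator (inv_mem hx'L) (Subgroup.mem_top y⁻¹)
    have h2 : ⁅(y₀ ^ (p ^ (Nat.find hex - 1)))⁻¹, y⁻¹⁆ =
        (y₀ ^ (p ^ (Nat.find hex - 1)))⁻¹ * y⁻¹ * y₀ ^ (p ^ (Nat.find hex - 1)) * y := by
      rw [commutatorElement_def, inv_inv, inv_inv]
    rw [h2] at h1
    exact hM h1

end Cfsg.Agent.Lib.Helper72.Crit
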