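import Mathlib
import Cfsg.Agent.Lib.Helper72.Crit

/-!
Relative critical subgroup `C` inside a `G`-invariant subgroup `Q` of a `p`-group `P`.
-/

set_option autoImplicit false

namespace Cfsg.Agent.Lib.Helper72.Crit

open Subgroup
open scoped commutatorElement

variable {P : Type*} [Group P]

/-- Relative critical subgroup: `C ≤ Q`, `G`-invariant, with `[C, P] ≤ D₀ ≤ Z(C)`, `C^p ≤ D₀` and
`C_Q(C) ≤ C`. -/
theorem exists_crit {p : ℕ} [Fact p.Prime] [Finite P] (hP : IsPGroup p P)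
    (G : Subgroup (MulAut P)) (hG : Cfsg.Inn P ≤ G) (Q : Subgroup P)
    (hQ : ∀ α ∈ G, ∀ x ∈ Q, α x ∈ Q) :
    ∃ C D₀ : Subgroup P, D₀ ≤ C ∧ C ≤ Q ∧ (∀ α ∈ G, ∀ x ∈ C, α x ∈ C) ∧
      (∀ α ∈ G, ∀ x ∈ D₀, α x ∈ D₀) ∧
      (∀ a ∈ D₀, ∀ c ∈ C, a * c = c * a) ∧ (∀ x ∈ C, ∀ y : P, x⁻¹ * y⁻¹ * x * y ∈ D₀) ∧
      (∀ x ∈ C, x ^ p ∈ D₀) ∧ (∀ x ∈ Q, (∀ c ∈ C, x * c = c * x) → x ∈ C) := by
  classical
  have hconj : ∀ g : P, MulAut.conj g ∈ G := fun g => hG ⟨g, rfl⟩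
  have hnorm : ∀ H : Subgroup P, (∀ α ∈ G, ∀ x ∈ H, α x ∈ H) →
      ∀ g : P, ∀ x ∈ H, g * x * g⁻¹ ∈ H := by
    intro H hH g x hx
    have := hH _ (hconj g) x hx
    simpa [MulAut.conj_apply] using this
  obtain ⟨D₀, -, hD₀max⟩ := Finite.exists_le_maximal
    (p := fun H : Subgroup P => H ≤ Q ∧ (∀ α ∈ G, ∀ x ∈ H, α x ∈ H) ∧
      (∀ a ∈ H, ∀ b ∈ H, a * b = b * a))
    (a := ⊥) ⟨bot_le, by
      intro α _ x hx
      rw [Subgroup.mem_bot] at hx ⊢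
      rw [hx, map_one], by
      intro a ha b hb
      rw [Subgroup.mem_bot] at ha hb
      rw [ha, hb]⟩
  obtain ⟨⟨hD₀Q, hD₀G, hD₀c⟩, hD₀m⟩ := hD₀max
  have hD₀n := hnorm D₀ hD₀G
  let C : Subgroup P :=
    { carrier := {x | x ∈ Q ∧ (∀ d ∈ D₀, x * d = d * x) ∧
        (∀ y : P, x⁻¹ * y⁻¹ * x * y ∈ D₀) ∧ x ^ p ∈ D₀}
      one_mem' := ⟨one_mem _, by intro d _; simp, by intro y; simp, by simp⟩
      mul_mem' := by
        rintro a b ⟨ha1, ha2, ha3, ha4⟩ ⟨hb1, hb2, hb3, hb4⟩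
        refine ⟨mul_mem ha1 hb1, ?_, ?_, ?_⟩
        · intro d hd
          rw [mul_assoc, hb2 d hd, ← mul_assoc, ha2 d hd, mul_assoc]
        · intro y
          have h1 : (a * b)⁻¹ * y⁻¹ * (a * b) * y =
              (b⁻¹ * (a⁻¹ * y⁻¹ * a * y) * b⁻¹⁻¹) * (b⁻¹ * y⁻¹ * b * y) := by group
          rw [h1]
          exact mul_mem (hD₀n _ _ (ha3 y)) (hb3 y)
        · have hdD : a⁻¹ * b⁻¹ * a * b ∈ D₀ := ha3 b
          have h1 : a * b = b * a * (a⁻¹ * b⁻¹ * a * b) := by group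
          have hda : Commute (a⁻¹ * b⁻¹ * a * b) a := (ha2 _ hdD).symm
          have hdb : Commute (a⁻¹ * b⁻¹ * a * b) b := (hb2 _ hdD).symm
          have h2 := Cfsg.Agent.Lib.Helper54.UniqueSubgroup.mul_pow_of_central h1 hda hdb p
          have h3 : (a * b) ^ p = a ^ p * b ^ p * ((a⁻¹ * b⁻¹ * a * b) ^ (p.choose 2))⁻¹ := by
            rw [← h2]; group
          show (a * b) ^ p ∈ D₀
          rw [h3]
          exact mul_mem (mul_mem ha4 hb4) (inv_mem (pow_mem hdD _))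
      inv_mem' := by
        rintro a ⟨ha1, ha2, ha3, ha4⟩
        refine ⟨inv_mem ha1, ?_, ?_, ?_⟩
        · intro d hd
          have := ha2 d hd
          calc a⁻¹ * d = a⁻¹ * (d * a) * a⁻¹ := by group
            _ = a⁻¹ * (a * d) * a⁻¹ := by rw [this]
            _ = d * a⁻¹ := by group
        · intro y
          have h1 : a⁻¹⁻¹ * y⁻¹ * a⁻¹ * y = a * (a⁻¹ * y⁻¹ * a * y)⁻¹ * a⁻¹ := by group
          rw [h1]
          exact hD₀n _ _ (inv_mem (ha3 y))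
        · show a⁻¹ ^ p ∈ D₀
          rw [inv_pow]; exact inv_mem ha4 }
  have hCmem : ∀ x, x ∈ C ↔ (x ∈ Q ∧ (∀ d ∈ D₀, x * d = d * x) ∧
        (∀ y : P, x⁻¹ * y⁻¹ * x * y ∈ D₀) ∧ x ^ p ∈ D₀) := fun x => Iff.rfl
  have hD₀C : D₀ ≤ C := by
    intro x hx
    rw [hCmem]
    refine ⟨hD₀Q hx, fun d hd => hD₀c x hx d hd, fun y => ?_, pow_mem hx p⟩
    have h1 : x⁻¹ * y⁻¹ * x * y = x⁻¹ * (y⁻¹ * x * y⁻¹⁻¹) := by group
    rw [h1]
    exact mul_mem (inv_mem hx) (hD₀n _ _ hx)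
  have hCG : ∀ α ∈ G, ∀ x ∈ C, α x ∈ C := by
    intro α hα x hx
    rw [hCmem] at hx ⊢
    obtain ⟨h1, h2, h3, h4⟩ := hx
    refine ⟨hQ α hα x h1, ?_, ?_, ?_⟩
    · intro d hd
      have hd' : α (α⁻¹ d) = d := MulAut.apply_inv_self P α d
      have hd'' : α⁻¹ d ∈ D₀ := hD₀G α⁻¹ (inv_mem hα) d hd
      rw [← hd', ← map_mul, h2 _ hd'', map_mul]
    · intro y
      have hy : α (α⁻¹ y) = y := MulAut.apply_inv_self P α y
      have h5 : (α x)⁻¹ * y⁻¹ * α x * y = α (x⁻¹ * (α⁻¹ y)⁻¹ * x * α⁻¹ y) := by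
        rw [map_mul, map_mul, map_mul, map_inv, map_inv, hy]
      rw [h5]
      exact hD₀G α hα _ (h3 _)
    · rw [← map_pow]
      exact hD₀G α hα _ h4
  have hCn := hnorm C hCG
  -- the centre of `C` is `D₀`
  have hZ : ∀ z ∈ C, (∀ c ∈ C, c * z = z * c) → z ∈ D₀ := by
    intro z hz hzc
    have hZp : (C ⊓ Subgroup.centralizer (C : Set P)) ≤ D₀ := by
      apply hD₀m
      · refine ⟨fun x hx => ((hCmem x).mp (Subgroup.mem_inf.mp hx).1).1, ?_, ?_⟩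
        · intro α hα x hx
          have hx := Subgroup.mem_inf.mp hx
          refine Subgroup.mem_inf.mpr ⟨hCG α hα x hx.1, ?_⟩
          rw [Subgroup.mem_centralizer_iff]
          intro c hc
          have hc' : α (α⁻¹ c) = c := MulAut.apply_inv_self P α c
          have hc'' : α⁻¹ c ∈ C := hCG α⁻¹ (inv_mem hα) c hc
          have := (Subgroup.mem_centralizer_iff.mp hx.2) _ hc''
          rw [← hc', ← map_mul, this, map_mul]
        · intro a ha b hb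
          have ha := Subgroup.mem_inf.mp ha
          have hb := Subgroup.mem_inf.mp hb
          exact ((Subgroup.mem_centralizer_iff.mp hb.2) a ha.1)
      · intro x hx
        refine Subgroup.mem_inf.mpr ⟨hD₀C hx, ?_⟩
        rw [Subgroup.mem_centralizer_iff]
        intro c hc
        exact ((hCmem c).mp hc).2.1 x hx
    exact hZp (Subgroup.mem_inf.mpr ⟨hz, Subgroup.mem_centralizer_iff.mpr hzc⟩)
  refine ⟨C, D₀, hD₀C, fun x hx => ((hCmem x).mp hx).1, hCG, hD₀G,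
    fun a ha c hc => (((hCmem c).mp hc).2.1 a ha).symm,
    fun x hx => ((hCmem x).mp hx).2.2.1, fun x hx => ((hCmem x).mp hx).2.2.2, ?_⟩
  intro x hxQ hxc
  by_contra hxC
  have hxD : x ∉ D₀ := fun h => hxC (hD₀C h)
  -- `K = C_Q(C)` is normal
  have hKG : ∀ α ∈ G, ∀ k ∈ Q ⊓ Subgroup.centralizer (C : Set P),
      α k ∈ Q ⊓ Subgroup.centralizer (C : Set P) := by
    intro α hα k hk
    have hk := Subgroup.mem_inf.mp hk
    refine Subgroup.mem_inf.mpr ⟨hQ α hα k hk.1, ?_⟩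
    rw [Subgroup.mem_centralizer_iff]
    intro c hc
    have hc' : α (α⁻¹ c) = c := MulAut.apply_inv_self P α c
    have hc'' : α⁻¹ c ∈ C := hCG α⁻¹ (inv_mem hα) c hc
    have := (Subgroup.mem_centralizer_iff.mp hk.2) _ hc''
    rw [← hc', ← map_mul, this, map_mul]
  have hKn := hnorm _ hKG
  have hxK : x ∈ Q ⊓ Subgroup.centralizer (C : Set P) :=
    Subgroup.mem_inf.mpr ⟨hxQ, Subgroup.mem_centralizer_iff.mpr (fun c hc => (hxc c hc).symm)⟩
  obtain ⟨x', hx'K, hx'D, hx'p, hx'c⟩ := exists_rel_central hP D₀ _ hKn hxK hxD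
  have hx'K := Subgroup.mem_inf.mp hx'K
  have hx'cent := Subgroup.mem_centralizer_iff.mp hx'K.2
  have hx'C : x' ∈ C := by
    rw [hCmem]
    exact ⟨hx'K.1, fun d hd => (hx'cent d (hD₀C hd)).symm, hx'c, hx'p⟩
  exact hx'D (hZ x' hx'C hx'cent)

/-- The `e`-th power map is a homomorphism on `C` with values in `D₀` (`e = p` or `4`). -/
theorem exists_omega {p : ℕ} [hp : Fact p.Prime] (C D₀ : Subgroup P)
    (hcent : ∀ a ∈ D₀, ∀ c ∈ C, a * c = c * a)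
    (hcomm : ∀ x ∈ C, ∀ y : P, x⁻¹ * y⁻¹ * x * y ∈ D₀)
    (hpow : ∀ x ∈ C, x ^ p ∈ D₀) (e : ℕ) (he : e = p ∧ p ≠ 2 ∨ e = 4 ∧ p = 2) :
    (∀ x ∈ C, ∀ y ∈ C, (x * y) ^ e = x ^ e * y ^ e) ∧ (∀ x ∈ C, x ^ e ∈ D₀) := by
  constructor
  · intro x hx y hy
    have hdD : x⁻¹ * y⁻¹ * x * y ∈ D₀ := hcomm x hx y
    have h1 : x * y = y * x * (x⁻¹ * y⁻¹ * x * y) := by group
    have hdx : Commute (x⁻¹ * y⁻¹ * x * y) x := hcent _ hdD x hx
    have hdy : Commute (x⁻¹ * y⁻¹ * x * y) y := hcent _ hdD y hy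
    have hdp : (x⁻¹ * y⁻¹ * x * y) ^ p = 1 := by
      have h2 := pow_comm_central h1 hdx p
      have h3 : x ^ p * y = y * x ^ p := hcent _ (hpow x hx) y hy
      rw [h3] at h2
      exact left_eq_mul.mp h2
    have h4 := Cfsg.Agent.Lib.Helper54.UniqueSubgroup.mul_pow_of_central h1 hdx hdy e
    have h5 : (x⁻¹ * y⁻¹ * x * y) ^ (e.choose 2) = 1 := by
      rcases he with ⟨he1, he2⟩ | ⟨he1, he2⟩
      · have h2lt : 2 < p := lt_of_le_of_ne hp.out.two_le (Ne.symm he2)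
        obtain ⟨c, hc⟩ := Nat.Prime.dvd_choose_self hp.out (by norm_num : (2 : ℕ) ≠ 0) h2lt
        rw [he1, hc, pow_mul, hdp, one_pow]
      · rw [he1]
        have h6 : Nat.choose 4 2 = 2 * 3 := by decide
        rw [h6, pow_mul, ← he2, hdp, one_pow]
    rw [h5, mul_one] at h4
    exact h4
  · intro x hx
    rcases he with ⟨he1, _⟩ | ⟨he1, he2⟩
    · rw [he1]; exact hpow x hx
    · rw [he1]
      have h6 : (4 : ℕ) = 2 * 2 := by norm_num
      rw [h6, pow_mul]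
      have := hpow x hx
      rw [he2] at this
      exact pow_mem this 2

end Cfsg.Agent.Lib.Helper72.Crit
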