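import Mathlib
import Cfsg.Agent.Lib.Helper72.Crit2

/-!
The small-exponent subgroup `D = Ω(C)` of the relative critical subgroup, detecting
`p'`-automorphisms.
-/

set_option autoImplicit false

namespace Cfsg.Agent.Lib.Helper72.Crit

open Subgroup
open scoped commutatorElement

variable {P : Type*} [Group P]

theorem pow_fix (α : MulAut P) {a : P} (ha : α a = a) (j : ℕ) : (α ^ j) a = a := by
  induction j with
  | zero => simp
  | succ j ih => rw [pow_succ', MulAut.mul_apply, ih, ha]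

theorem main {p : ℕ} [hp : Fact p.Prime] [Finite P] (hP : IsPGroup p P) (G : Subgroup (MulAut P))
    (hG : Cfsg.Inn P ≤ G) (Q : Subgroup P) (hQ : ∀ α ∈ G, ∀ x ∈ Q, α x ∈ Q)
    (hfaith : ∀ α ∈ G, (orderOf α).Coprime p → (∀ x ∈ Q, α x = x) → α = 1) :
    ∃ D : Subgroup P, (∀ α ∈ G, D.map α.toMonoidHom = D) ∧ D ≤ Q ∧
      (∀ d ∈ D, d ^ p = 1 ∨ (p = 2 ∧ d ^ 4 = 1)) ∧
      ⁅D, (⊤ : Subgroup P)⁆ ≤ D ⊓ Subgroup.centralizer (D : Set P) ∧
      (∀ α ∈ G, (orderOf α).Coprime p → (∀ d ∈ D, α d = d) → α = 1) ∧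
      ∀ A : Subgroup P, A ≤ D → IsMulCommutative ↥A →
        (∀ B : Subgroup P, A ≤ B → B ≤ D → IsMulCommutative ↥B → B = A) →
        A.Normal ∧ ∀ α ∈ G, (∀ a ∈ A, α a = a) → ∃ k : ℕ, orderOf α = p ^ k := by
  classical
  have hconj : ∀ g : P, MulAut.conj g ∈ G := fun g => hG ⟨g, rfl⟩
  have hnorm : ∀ H : Subgroup P, (∀ α ∈ G, ∀ x ∈ H, α x ∈ H) →
      ∀ g : P, ∀ x ∈ H, g * x * g⁻¹ ∈ H := by
    intro H hH g x hx
    have := hH _ (hconj g) x hx
    simpa [MulAut.conj_apply] using this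
  obtain ⟨C, D₀, hDC, hCQ, hCG, hDG, hcent, hcomm, hpow, hself⟩ := exists_crit hP G hG Q hQ
  have hCn := hnorm C hCG
  obtain ⟨e, he⟩ : ∃ e : ℕ, e = p ∧ p ≠ 2 ∨ e = 4 ∧ p = 2 := by
    by_cases h2 : p = 2
    · exact ⟨4, Or.inr ⟨rfl, h2⟩⟩
    · exact ⟨p, Or.inl ⟨rfl, h2⟩⟩
  obtain ⟨hmulpow, hpowD⟩ := exists_omega C D₀ hcent hcomm hpow e he
  have hze : ∀ z : P, z ^ p = 1 → z ^ e = 1 := by
    intro z hz
    rcases he with ⟨he1, _⟩ | ⟨he1, he2⟩
    · rw [he1]; exact hz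
    · rw [he1]
      have h6 : (4 : ℕ) = 2 * 2 := by norm_num
      rw [h6, pow_mul, ← he2, hz, one_pow]
  let D : Subgroup P :=
    { carrier := {x | x ∈ C ∧ x ^ e = 1}
      one_mem' := ⟨one_mem _, one_pow _⟩
      mul_mem' := by
        rintro a b ⟨ha, ha'⟩ ⟨hb, hb'⟩
        exact ⟨mul_mem ha hb, by rw [hmulpow a ha b hb, ha', hb', one_mul]⟩
      inv_mem' := by
        rintro a ⟨ha, ha'⟩
        exact ⟨inv_mem ha, by rw [inv_pow, ha', inv_one]⟩ }
  have hDmem : ∀ x, x ∈ D ↔ x ∈ C ∧ x ^ e = 1 := fun x => Iff.rfl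
  have hDG' : ∀ α ∈ G, ∀ x ∈ D, α x ∈ D := by
    intro α hα x hx
    rw [hDmem] at hx ⊢
    exact ⟨hCG α hα x hx.1, by rw [← map_pow, hx.2, map_one]⟩
  have hDn := hnorm D hDG'
  -- (5) faithfulness
  have h5 : ∀ α ∈ G, (orderOf α).Coprime p → (∀ d ∈ D, α d = d) → α = 1 := by
    intro α hα hcop hfix
    have hfixD₀ : ∀ a ∈ D₀, α a = a :=
      fix_abelian hP α hcop D₀ (fun a ha b hb => hcent a ha b (hDC hb)) (hDG α hα)
        (fun z hz hzp => hfix z ((hDmem z).mpr ⟨hDC hz, hze z hzp⟩))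
    have hfixC : ∀ x ∈ C, α x = x := by
      intro x hx
      have hwC : x⁻¹ * α x ∈ C := mul_mem (inv_mem hx) (hCG α hα x hx)
      have hwe : (x⁻¹ * α x) ^ e = 1 := by
        rw [hmulpow _ (inv_mem hx) _ (hCG α hα x hx), ← map_pow, hfixD₀ _ (hpowD x hx), inv_pow,
          inv_mul_cancel]
      have hαw : α (x⁻¹ * α x) = x⁻¹ * α x := hfix _ ((hDmem _).mpr ⟨hwC, hwe⟩)
      have hx' : α x = x * (x⁻¹ * α x) := by group
      have h1 := fix_of_stab hP α hcop hx' hαw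
      rw [hx', h1, mul_one]
    apply hfaith α hα hcop
    intro x hx
    have hnQ : x⁻¹ * α x ∈ Q := mul_mem (inv_mem hx) (hQ α hα x hx)
    have hnc : ∀ c ∈ C, x⁻¹ * α x * c = c * (x⁻¹ * α x) := by
      intro c hc
      have hc' : x * c * x⁻¹ ∈ C := hCn x c hc
      have h1 : α x * c * (α x)⁻¹ = x * c * x⁻¹ := by
        have := hfixC (x * c * x⁻¹) hc'
        rw [map_mul, map_mul, map_inv, hfixC c hc] at this
        exact this
      calc x⁻¹ * α x * c = x⁻¹ * (α x * c * (α x)⁻¹) * α x := by group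
        _ = x⁻¹ * (x * c * x⁻¹) * α x := by rw [h1]
        _ = c * (x⁻¹ * α x) := by group
    have hnC : x⁻¹ * α x ∈ C := hself _ hnQ hnc
    have hx' : α x = x * (x⁻¹ * α x) := by group
    have h1 := fix_of_stab hP α hcop hx' (hfixC _ hnC)
    rw [hx', h1, mul_one]
  refine ⟨D, ?_, fun x hx => hCQ ((hDmem x).mp hx).1, ?_, ?_, h5, ?_⟩
  · intro α hα
    ext y
    constructor
    · rintro ⟨x, hx, rfl⟩
      exact hDG' α hα x hx
    · intro hy
      exact ⟨α⁻¹ y, hDG' α⁻¹ (inv_mem hα) y hy, MulAut.apply_inv_self P α y⟩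
  · intro d hd
    have hd' := ((hDmem d).mp hd).2
    rcases he with ⟨he1, _⟩ | ⟨he1, he2⟩
    · left; rw [← he1]; exact hd'
    · right; exact ⟨he2, by rw [← he1]; exact hd'⟩
  · rw [Subgroup.commutator_le]
    intro x hx y _
    have hxC := ((hDmem x).mp hx).1
    refine Subgroup.mem_inf.mpr ⟨?_, ?_⟩
    · have h1 : ⁅x, y⁆ = x * (y * x⁻¹ * y⁻¹) := by rw [commutatorElement_def]; group
      rw [h1]
      exact mul_mem hx (hDn y x⁻¹ (inv_mem hx))
    · rw [Subgroup.mem_centralizer_iff]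
      intro h hh
      have hc : ⁅x, y⁆ ∈ D₀ := by
        have := hcomm x⁻¹ (inv_mem hxC) y⁻¹
        rw [inv_inv, inv_inv] at this
        rw [commutatorElement_def]
        exact this
      exact (hcent _ hc h ((hDmem h).mp hh).1).symm
  · intro A hAD hAc hAmax
    have hAcomm : ∀ a ∈ A, ∀ b ∈ A, a * b = b * a := by
      intro a ha b hb
      have := hAc.is_comm.comm (⟨a, ha⟩ : A) ⟨b, hb⟩
      exact congrArg Subtype.val this
    have key : ∀ z ∈ D, (∀ a ∈ A, z * a = a * z) → z ∈ A := by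
      intro z hz hza
      have hcommS : ∀ x ∈ ((A : Set P) ∪ {z}), ∀ y ∈ ((A : Set P) ∪ {z}), x * y = y * x := by
        intro x hx y hy
        rcases hx with hx | hx <;> rcases hy with hy | hy
        · exact hAcomm x hx y hy
        · rw [Set.mem_singleton_iff] at hy; rw [hy]; exact (hza x hx).symm
        · rw [Set.mem_singleton_iff] at hx; rw [hx]; exact hza y hy
        · rw [Set.mem_singleton_iff] at hx hy; rw [hx, hy]
      have hBc : IsMulCommutative ↥(Subgroup.closure ((A : Set P) ∪ {z})) :=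
        Subgroup.isMulCommutative_closure hcommS
      have hAB : A ≤ Subgroup.closure ((A : Set P) ∪ {z}) :=
        fun a ha => Subgroup.subset_closure (Or.inl ha)
      have hBD : Subgroup.closure ((A : Set P) ∪ {z}) ≤ D := by
        rw [Subgroup.closure_le]
        rintro x (hx | hx)
        · exact hAD hx
        · rw [Set.mem_singleton_iff] at hx; rw [hx]; exact hz
      have hBA := hAmax _ hAB hBD hBc
      rw [← hBA]
      exact Subgroup.subset_closure (Or.inr rfl)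
    have hAn : ∀ g : P, ∀ a ∈ A, g * a * g⁻¹ ∈ A := by
      intro g a ha
      have haD := hAD ha
      have haC := ((hDmem a).mp haD).1
      have hzD : a⁻¹ * (g * a * g⁻¹) ∈ D := mul_mem (inv_mem haD) (hDn g a haD)
      have hzD₀ : a⁻¹ * (g * a * g⁻¹) ∈ D₀ := by
        have := hcomm a haC g⁻¹
        rw [inv_inv] at this
        have h1 : a⁻¹ * (g * a * g⁻¹) = a⁻¹ * g * a * g⁻¹ := by group
        rw [h1]; exact this
      have hzA : a⁻¹ * (g * a * g⁻¹) ∈ A :=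
        key _ hzD (fun b hb => hcent _ hzD₀ b ((hDmem b).mp (hAD hb)).1)
      have h2 : g * a * g⁻¹ = a * (a⁻¹ * (g * a * g⁻¹)) := by group
      rw [h2]
      exact mul_mem ha hzA
    refine ⟨⟨fun a ha g => hAn g a ha⟩, ?_⟩
    intro α hα hfixA
    have hm : 0 < orderOf α := orderOf_pos α
    obtain ⟨k, m', hm'p, hmeq⟩ := Nat.exists_eq_pow_mul_and_not_dvd hm.ne' p hp.out.ne_one
    have hβG : α ^ (p ^ k) ∈ G := pow_mem hα _
    have hβord : orderOf (α ^ (p ^ k)) = m' := by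
      rw [orderOf_pow' α (pow_ne_zero k hp.out.ne_zero), hmeq,
        Nat.gcd_eq_right (Dvd.intro _ rfl), Nat.mul_div_cancel_left _ (pow_pos hp.out.pos k)]
    have hβcop : (orderOf (α ^ (p ^ k))).Coprime p := by
      rw [hβord]
      exact ((Nat.Prime.coprime_iff_not_dvd hp.out).mpr hm'p).symm
    have hβA : ∀ a ∈ A, (α ^ (p ^ k)) a = a := fun a ha => pow_fix α (hfixA a ha) _
    have hβD : ∀ x ∈ D, (α ^ (p ^ k)) x = x := by
      intro x hx
      have hnD : x⁻¹ * (α ^ (p ^ k)) x ∈ D := mul_mem (inv_mem hx) (hDG' _ hβG x hx)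
      have hna : ∀ a ∈ A, x⁻¹ * (α ^ (p ^ k)) x * a = a * (x⁻¹ * (α ^ (p ^ k)) x) := by
        intro a ha
        have ha' : x * a * x⁻¹ ∈ A := hAn x a ha
        have h1 : (α ^ (p ^ k)) x * a * ((α ^ (p ^ k)) x)⁻¹ = x * a * x⁻¹ := by
          have := hβA (x * a * x⁻¹) ha'
          rw [map_mul, map_mul, map_inv, hβA a ha] at this
          exact this
        calc x⁻¹ * (α ^ (p ^ k)) x * a
            = x⁻¹ * ((α ^ (p ^ k)) x * a * ((α ^ (p ^ k)) x)⁻¹) * (α ^ (p ^ k)) x := by group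
          _ = x⁻¹ * (x * a * x⁻¹) * (α ^ (p ^ k)) x := by rw [h1]
          _ = a * (x⁻¹ * (α ^ (p ^ k)) x) := by group
      have hnA : x⁻¹ * (α ^ (p ^ k)) x ∈ A := key _ hnD hna
      have hx' : (α ^ (p ^ k)) x = x * (x⁻¹ * (α ^ (p ^ k)) x) := by group
      have h1 := fix_of_stab hP _ hβcop hx' (hβA _ hnA)
      rw [hx', h1, mul_one]
    have hβ1 : α ^ (p ^ k) = 1 := h5 _ hβG hβcop hβD
    rw [hβ1, orderOf_one] at hβord
    exact ⟨k, by rw [hmeq, ← hβord, mul_one]⟩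

/-- `[P, O^p(G)]` is `G`-invariant. -/
theorem resid_inv (p : ℕ) (G : Subgroup (MulAut P)) :
    ∀ β ∈ G, ∀ x ∈ Subgroup.closure
        {y : P | ∃ α ∈ Cfsg.pResidual p ↥G, ∃ x : P, y = x⁻¹ * (α : MulAut P) x},
      β x ∈ Subgroup.closure
        {y : P | ∃ α ∈ Cfsg.pResidual p ↥G, ∃ x : P, y = x⁻¹ * (α : MulAut P) x} := by
  intro β hβ x hx
  induction hx using Subgroup.closure_induction with
  | mem y hy =>
    obtain ⟨α, hα, x, rfl⟩ := hy
    apply Subgroup.subset_closure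
    have h0 : (⟨β, hβ⟩ : ↥G) * α * (⟨β, hβ⟩ : ↥G)⁻¹ ∈ Cfsg.pResidual p ↥G :=
      pRes_conj p (⟨β, hβ⟩ : ↥G) hα
    have h1 : (((⟨β, hβ⟩ : ↥G) * α * (⟨β, hβ⟩ : ↥G)⁻¹ : ↥G) : MulAut P) =
        β * (α : MulAut P) * β⁻¹ := rfl
    refine ⟨(⟨β, hβ⟩ : ↥G) * α * (⟨β, hβ⟩ : ↥G)⁻¹, h0, β x, ?_⟩
    rw [h1, MulAut.mul_apply, MulAut.mul_apply, MulAut.inv_apply_self, map_mul, map_inv]
  | one => rw [map_one]; exact one_mem _
  | mul a b _ _ ha hb => rw [map_mul]; exact mul_mem ha hb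
  | inv a _ ha => rw [map_inv]; exact inv_mem ha

/-- `p'`-elements of `G` act faithfully on `[P, O^p(G)]`. -/
theorem resid_faith {p : ℕ} (hP : IsPGroup p P) (G : Subgroup (MulAut P)) :
    ∀ α ∈ G, (orderOf α).Coprime p → (∀ x ∈ Subgroup.closure
        {y : P | ∃ α ∈ Cfsg.pResidual p ↥G, ∃ x : P, y = x⁻¹ * (α : MulAut P) x}, α x = x) →
      α = 1 := by
  intro α hα hcop hfix
  have hαres : (⟨α, hα⟩ : ↥G) ∈ Cfsg.pResidual p ↥G := by
    apply Subgroup.subset_closure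
    show Nat.Coprime (orderOf (⟨α, hα⟩ : ↥G)) p
    rw [Subgroup.orderOf_mk]; exact hcop
  ext x
  have hn : x⁻¹ * α x ∈ Subgroup.closure
      {y : P | ∃ α ∈ Cfsg.pResidual p ↥G, ∃ x : P, y = x⁻¹ * (α : MulAut P) x} :=
    Subgroup.subset_closure ⟨⟨α, hα⟩, hαres, x, rfl⟩
  have h1 : α x = x * (x⁻¹ * α x) := by group
  have h2 := fix_of_stab hP α hcop h1 (hfix _ hn)
  rw [MulAut.one_apply]
  exact (inv_mul_eq_one.mp h2).symm

end Cfsg.Agent.Lib.Helper72.Crit
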