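import Mathlib
import Cfsg.Agent.Lib.Helper2.Frob
import Cfsg.Agent.Lib.Helper2.Nilp
import Cfsg.Agent.Lib.Helper72.CoprimeHall
import Cfsg.Agent.Lib.Helper72.N3a

/-!
Tools for P. Hall's theorem D5 (helper72): a Hall `π`-subgroup `H = Hs × Ht` with `Hs` a
nilpotent `σ`-group and `Ht` a `τ`-group (`π = σ ∪ τ`, `σ ∩ τ = ∅`).
-/

set_option autoImplicit false
set_option linter.style.haveILetI false
set_option linter.unusedSectionVars false
set_option linter.unusedVariables false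

namespace Cfsg.Agent.Lib.Helper72.HallD5
open Subgroup MulAction Cfsg.Agent.Lib.Helper2 Cfsg.Agent.Lib.Helper72.CoprimeHall
open scoped Pointwise

universe u

variable {G : Type u} [Group G] [Finite G]

/-- the hypotheses on the Hall subgroup -/
structure Dec (σ τ : Set ℕ) (H Hs Ht : Subgroup G) : Prop where
  disj : Disjoint σ τ
  hall_card : ∀ p : ℕ, p.Prime → p ∣ Nat.card H → p ∈ σ ∪ τ
  hall_index : ∀ p : ℕ, p.Prime → p ∈ σ ∪ τ → ¬ p ∣ H.index
  hs : ∀ p : ℕ, p.Prime → p ∣ Nat.card Hs → p ∈ σ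
  ht : ∀ p : ℕ, p.Prime → p ∣ Nat.card Ht → p ∈ τ
  nil : Group.IsNilpotent Hs
  join : Hs ⊔ Ht = H
  comm : ∀ a ∈ Hs, ∀ b ∈ Ht, a * b = b * a

variable {σ τ : Set ℕ} {H Hs Ht : Subgroup G}

/-- elements of `H` are products -/
lemma Dec.decomp (D : Dec σ τ H Hs Ht) {y : G} (hy : y ∈ H) :
    ∃ a ∈ Hs, ∃ b ∈ Ht, y = a * b := by
  rw [← D.join, sup_eq_closure] at hy
  induction hy using Subgroup.closure_induction with
  | mem x hx =>
    rcases hx with hx | hx
    · exact ⟨x, hx, 1, one_mem _, (mul_one x).symm⟩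
    · exact ⟨1, one_mem _, x, hx, (one_mul x).symm⟩
  | one => exact ⟨1, one_mem _, 1, one_mem _, (mul_one 1).symm⟩
  | mul x y _ _ hx hy =>
    obtain ⟨a, ha, b, hb, rfl⟩ := hx
    obtain ⟨a', ha', b', hb', rfl⟩ := hy
    refine ⟨a * a', mul_mem ha ha', b * b', mul_mem hb hb', ?_⟩
    have h1 : a' * b = b * a' := D.comm a' ha' b hb
    calc a * b * (a' * b') = a * (b * a') * b' := by group
      _ = a * (a' * b) * b' := by rw [h1]
      _ = a * a' * (b * b') := by group
  | inv x _ hx =>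
    obtain ⟨a, ha, b, hb, rfl⟩ := hx
    refine ⟨a⁻¹, inv_mem ha, b⁻¹, inv_mem hb, ?_⟩
    have h1 : a⁻¹ * b⁻¹ = b⁻¹ * a⁻¹ := D.comm a⁻¹ (inv_mem ha) b⁻¹ (inv_mem hb)
    rw [mul_inv_rev, h1]

/-- order of a product in `H` -/
lemma Dec.orderOf_mul (D : Dec σ τ H Hs Ht) {a b : G} (ha : a ∈ Hs) (hb : b ∈ Ht) :
    orderOf (a * b) = orderOf a * orderOf b := by
  apply Commute.orderOf_mul_eq_mul_orderOf_of_coprime (D.comm a ha b hb)
  apply Nat.coprime_of_dvd
  intro r hr h1 h2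
  have h3 : r ∈ σ := D.hs r hr (h1.trans (Subgroup.orderOf_dvd_natCard Hs ha))
  have h4 : r ∈ τ := D.ht r hr (h2.trans (Subgroup.orderOf_dvd_natCard Ht hb))
  exact Set.disjoint_left.mp D.disj h3 h4

/-- a `σ`-element of `H` commutes with every element of `H` of coprime order -/
lemma Dec.commute (D : Dec σ τ H Hs Ht) {x y : G} (hx : x ∈ H) (hy : y ∈ H)
    (hxσ : ∀ p : ℕ, p.Prime → p ∣ orderOf x → p ∈ σ)
    (hcop : Nat.Coprime (orderOf x) (orderOf y)) : x * y = y * x := by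
  obtain ⟨a, ha, b, hb, rfl⟩ := D.decomp hx
  obtain ⟨a', ha', b', hb', rfl⟩ := D.decomp hy
  rw [D.orderOf_mul ha hb] at hxσ hcop
  rw [D.orderOf_mul ha' hb'] at hcop
  have hb1 : b = 1 := by
    by_contra hne
    have hob : orderOf b ≠ 1 := fun h => hne (orderOf_eq_one_iff.mp h)
    obtain ⟨r, hr, hrb⟩ := Nat.exists_prime_and_dvd hob
    have h3 : r ∈ σ := hxσ r hr (Dvd.dvd.mul_left hrb _)
    have h4 : r ∈ τ := D.ht r hr (hrb.trans (Subgroup.orderOf_dvd_natCard Ht hb))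
    exact Set.disjoint_left.mp D.disj h3 h4
  subst hb1
  rw [orderOf_one, mul_one] at hcop
  rw [mul_one]
  have hcop' : Nat.Coprime (orderOf a) (orderOf a') :=
    Nat.Coprime.coprime_dvd_right (Dvd.intro _ rfl) hcop
  haveI := D.nil
  have h1 : (⟨a, ha⟩ : Hs) * ⟨a', ha'⟩ = ⟨a', ha'⟩ * ⟨a, ha⟩ :=
    Nilp.commute_of_coprime Hs inferInstance ⟨a, ha⟩ ⟨a', ha'⟩
      (by rw [Subgroup.orderOf_mk, Subgroup.orderOf_mk]; exact hcop')
  have h2 : a * a' = a' * a := congrArg Subtype.val h1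
  have h3 : a * b' = b' * a := D.comm a ha b' hb'
  calc a * (a' * b') = (a * a') * b' := by group
    _ = (a' * a) * b' := by rw [h2]
    _ = a' * (a * b') := by group
    _ = a' * (b' * a) := by rw [h3]
    _ = a' * b' * a := by group

/-- the same in a conjugate of `H` -/
lemma Dec.commute_conj (D : Dec σ τ H Hs Ht) (g : G) {x y : G} (hx : x ∈ MulAut.conj g • H)
    (hy : y ∈ MulAut.conj g • H) (hxσ : ∀ p : ℕ, p.Prime → p ∣ orderOf x → p ∈ σ)
    (hcop : Nat.Coprime (orderOf x) (orderOf y)) : x * y = y * x := by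
  rw [Subgroup.mem_pointwise_smul_iff_inv_smul_mem] at hx hy
  have hx' : g⁻¹ * x * g ∈ H := by simpa [MulAut.smul_def] using hx
  have hy' : g⁻¹ * y * g ∈ H := by simpa [MulAut.smul_def] using hy
  have ho : ∀ z : G, orderOf (g⁻¹ * z * g) = orderOf z := by
    intro z
    have := orderOf_injective (MulAut.conj g⁻¹).toMonoidHom (MulAut.conj g⁻¹).injective z
    simpa using this
  have h := D.commute hx' hy' (by rw [ho]; exact hxσ) (by rw [ho, ho]; exact hcop)
  calc x * y = g * ((g⁻¹ * x * g) * (g⁻¹ * y * g)) * g⁻¹ := by group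
    _ = g * ((g⁻¹ * y * g) * (g⁻¹ * x * g)) * g⁻¹ := by rw [h]
    _ = y * x := by group

/-- `H` contains a Sylow `r`-subgroup of `G` for every prime `r ∈ π` -/
lemma Dec.exists_sylow (D : Dec σ τ H Hs Ht) (r : ℕ) [Fact r.Prime] (hr : r ∈ σ ∪ τ) :
    ∃ S : Sylow r G, (S : Subgroup G) ≤ H := by
  have hrp : r.Prime := Fact.out
  obtain ⟨S₀⟩ : Nonempty (Sylow r H) := inferInstance
  have hcard : Nat.card ((S₀ : Subgroup H).map H.subtype) =
      r ^ (Nat.card G).factorization r := by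
    rw [Nat.card_congr ((S₀ : Subgroup H).equivMapOfInjective H.subtype
      H.subtype_injective).toEquiv.symm, S₀.card_eq_multiplicity]
    congr 1
    have h1 := Subgroup.card_mul_index H
    have hidx : H.index ≠ 0 := Subgroup.index_ne_zero_of_finite
    rw [← h1, Nat.factorization_mul Nat.card_pos.ne' hidx]
    simp only [Finsupp.coe_add, Pi.add_apply]
    rw [Nat.factorization_eq_zero_of_not_dvd (D.hall_index r hrp hr), add_zero]
  refine ⟨Sylow.ofCard _ hcard, ?_⟩
  rw [Sylow.coe_ofCard]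
  exact Subgroup.map_subtype_le _

/-- the key step: `K = M R₁` with `M` normal in `K`, `M` inside a conjugate of `H` and
centralized by a Sylow `r`-subgroup of that conjugate, `R₁` an `r`-group -/
lemma key (r : ℕ) [Fact r.Prime] (S : Sylow r G) (hS : (S : Subgroup G) ≤ H)
    (K M R₁ : Subgroup G) (hKM : K ≤ normalizer (M : Set G)) (hR : IsPGroup r R₁)
    (hR₁K : R₁ ≤ K) (hsup : K ≤ M ⊔ R₁) (g : G) (hM : M ≤ MulAut.conj g • H)
    (hcent : ∀ x ∈ MulAut.conj g • (S : Subgroup G), ∀ y ∈ M, y * x = x * y) :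
    ∃ n : G, K ≤ MulAut.conj n • H := by
  have hS'coe : ((g • S : Sylow r G) : Subgroup G) = MulAut.conj g • (S : Subgroup G) :=
    Sylow.coe_subgroup_smul
  have hS'N : ((g • S : Sylow r G) : Subgroup G) ≤ normalizer (M : Set G) := by
    rw [hS'coe]
    intro x hx
    apply centralizer_le_normalizer
    rw [Subgroup.mem_centralizer_iff]
    exact fun y hy => hcent x hx y hy
  obtain ⟨T, hT⟩ := (hR.comap_subtype (K := normalizer (M : Set G))).exists_le_sylow
  obtain ⟨m, hm⟩ := MulAction.exists_smul_eq (normalizer (M : Set G))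
    ((g • S : Sylow r G).subtype hS'N) T
  refine ⟨(m : G) * g, ?_⟩
  have hconj : MulAut.conj ((m : G) * g) • H = MulAut.conj (m : G) • MulAut.conj g • H := by
    rw [map_mul, mul_smul]
  rw [hconj]
  refine hsup.trans (sup_le ?_ ?_)
  · have h1 : MulAut.conj (m : G) • M = M := conj_smul_eq_of_mem_normalizer m.2
    exact h1.symm.le.trans (Subgroup.pointwise_smul_le_pointwise_smul_iff.mpr hM)
  · intro x hx
    have hxN : x ∈ normalizer (M : Set G) := hKM (hR₁K hx)
    have h1 : (⟨x, hxN⟩ : normalizer (M : Set G)) ∈ (T : Subgroup (normalizer (M : Set G))) :=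
      hT (mem_subgroupOf.mpr hx)
    rw [← hm] at h1
    have h1' := (Cfsg.Agent.Lib.Helper72.N3.mem_smul_sylow _ m ⟨x, hxN⟩).mp h1
    rw [Sylow.coe_subtype, mem_subgroupOf] at h1'
    have h1'' : (m : G)⁻¹ * x * (m : G) ∈ ((g • S : Sylow r G) : Subgroup G) := h1'
    rw [hS'coe] at h1''
    have h2 : (m : G)⁻¹ * x * (m : G) ∈ MulAut.conj g • H :=
      Subgroup.pointwise_smul_le_pointwise_smul_iff.mpr hS h1''
    rw [Subgroup.mem_pointwise_smul_iff_inv_smul_mem]
    simpa [MulAut.smul_def] using h2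

/-- subgroups of conjugates of `H` have normal `p`-complements for `p ∈ σ` -/
lemma Dec.exists_normal_complement (D : Dec σ τ H Hs Ht) {X : Type*} [Group X] [Finite X]
    (φ : X →* G) (hφ : Function.Injective φ) (g : G) (hr : ∀ x : X, φ x ∈ MulAut.conj g • H)
    (p : ℕ) [Fact p.Prime] (hp : p ∈ σ) :
    ∃ (P : Sylow p X) (N : Subgroup X), N.Normal ∧ N.IsComplement' (P : Subgroup X) := by
  have hpp : p.Prime := Fact.out
  obtain ⟨P⟩ : Nonempty (Sylow p X) := inferInstance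
  obtain ⟨N, hN, hc⟩ := Frob.exists_normal_complement_of_cond P (by
    intro Q hQ y hy hcop
    rw [Subgroup.mem_centralizer_iff]
    intro x hx
    obtain ⟨k, hk⟩ := (IsPGroup.iff_orderOf.mp P.isPGroup') ⟨x, hQ hx⟩
    rw [Subgroup.orderOf_mk] at hk
    have ho : ∀ z : X, orderOf (φ z) = orderOf z := fun z => orderOf_injective φ hφ z
    have h := D.commute_conj g (hr x) (hr y)
      (by
        intro q hq hqx
        rw [ho, hk] at hqx
        have := (Nat.prime_dvd_prime_iff_eq hq hpp).mp (hq.dvd_of_dvd_pow hqx)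
        rw [this]; exact hp)
      (by rw [ho, ho, hk]; exact Nat.Coprime.pow_left k hcop.symm)
    apply hφ
    rw [map_mul, map_mul, h])
  exact ⟨P, N, hN, hc⟩

/-- the induction step: `K` has a proper normal subgroup `M'` complemented by an `r`-group -/
lemma Dec.step (D : Dec σ τ H Hs Ht) (K : Subgroup G) (M' R' : Subgroup K) [M'.Normal]
    (r : ℕ) [Fact r.Prime] (hr : r ∈ σ ∪ τ) (hR : IsPGroup r R') (hsup : M' ⊔ R' = ⊤)
    (hcase : (r ∈ σ ∧ ¬ r ∣ Nat.card M') ∨
      (r ∈ τ ∧ ∀ p : ℕ, p.Prime → p ∣ Nat.card M' → p ∈ σ))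
    (hM : ∃ g : G, M'.map K.subtype ≤ MulAut.conj g • H) :
    ∃ n : G, K ≤ MulAut.conj n • H := by
  have hrp : r.Prime := Fact.out
  obtain ⟨g, hg⟩ := hM
  obtain ⟨S, hS⟩ := D.exists_sylow r hr
  have hcardM : Nat.card (M'.map K.subtype) = Nat.card M' :=
    Nat.card_congr (M'.equivMapOfInjective K.subtype K.subtype_injective).toEquiv.symm
  have hKM : K ≤ normalizer ((M'.map K.subtype : Subgroup G) : Set G) := by
    have hfwd : ∀ x ∈ K, ∀ m ∈ M'.map K.subtype, x * m * x⁻¹ ∈ M'.map K.subtype := by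
      rintro x hx _ ⟨m', hm', rfl⟩
      exact ⟨⟨x, hx⟩ * m' * ⟨x, hx⟩⁻¹, ‹M'.Normal›.conj_mem m' hm' ⟨x, hx⟩, rfl⟩
    intro x hx
    rw [mem_normalizer_iff]
    intro m
    constructor
    · exact hfwd x hx m
    · intro h
      have := hfwd x⁻¹ (inv_mem hx) _ h
      have e : x⁻¹ * (x * m * x⁻¹) * x⁻¹⁻¹ = m := by group
      rwa [e] at this
  have hsup' : K ≤ M'.map K.subtype ⊔ R'.map K.subtype := by
    rw [← Subgroup.map_sup, hsup, ← MonoidHom.range_eq_map, Subgroup.range_subtype]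
  refine key r S hS K (M'.map K.subtype) (R'.map K.subtype) hKM (hR.map K.subtype)
    (Subgroup.map_subtype_le _) hsup' g hg ?_
  intro x hx y hy
  have hxH : x ∈ MulAut.conj g • H := Subgroup.pointwise_smul_le_pointwise_smul_iff.mpr hS hx
  have hyH : y ∈ MulAut.conj g • H := hg hy
  obtain ⟨k, hk⟩ : ∃ k : ℕ, orderOf x = r ^ k := by
    have hx' : x ∈ ((g • S : Sylow r G) : Subgroup G) := by
      rw [Sylow.coe_subgroup_smul]; exact hx
    obtain ⟨k, hk⟩ := (IsPGroup.iff_orderOf.mp (g • S : Sylow r G).isPGroup') ⟨x, hx'⟩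
    rw [Subgroup.orderOf_mk] at hk
    exact ⟨k, hk⟩
  have hoy : orderOf y ∣ Nat.card M' := by
    rw [← hcardM]
    exact Subgroup.orderOf_dvd_natCard _ hy
  rcases hcase with ⟨hrσ, hrM⟩ | ⟨hrτ, hMσ⟩
  · symm
    apply D.commute_conj g hxH hyH
    · intro q hq hqx
      rw [hk] at hqx
      have := (Nat.prime_dvd_prime_iff_eq hq hrp).mp (hq.dvd_of_dvd_pow hqx)
      rw [this]; exact hrσ
    · rw [hk]
      apply Nat.Coprime.pow_left
      rw [Nat.Prime.coprime_iff_not_dvd hrp]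
      exact fun h => hrM (h.trans hoy)
  · apply D.commute_conj g hyH hxH
    · intro q hq hqy
      exact hMσ q hq (hqy.trans hoy)
    · rw [hk]
      apply Nat.Coprime.pow_right
      apply Nat.Coprime.symm
      rw [Nat.Prime.coprime_iff_not_dvd hrp]
      intro h
      exact Set.disjoint_left.mp D.disj (hMσ r hrp (h.trans hoy)) hrτ

end Cfsg.Agent.Lib.Helper72.HallD5
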