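import Mathlib
import Cfsg.Agent.Lib.Helper99.SylAct
import Cfsg.Agent.Lib.Helper99.SylAct2
import Cfsg.Agent.Lib.Helper72.N3a

/-!
Towards "no finite group has exactly 22 Sylow 3-subgroups" (helper72).
Part b: counting neighbours; the three patterns; Sylow 3-subgroups have order 3.
-/

set_option autoImplicit false
set_option linter.style.haveILetI false
set_option linter.unusedSectionVars false
set_option linter.unusedVariables false

namespace Cfsg.Agent.Lib.Helper72.N3
open Subgroup MulAction Cfsg.Agent.Lib.Helper99.SylAct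

universe u

/-- an invariant set all of whose orbits have `k` elements has cardinality divisible by `k` -/
lemma dvd_ncard_of_orbits {H : Type*} [Group H] {X : Type*} [MulAction H X] [Finite X] (k : ℕ) :
    ∀ (n : ℕ) (T : Set X), T.ncard = n → (∀ x ∈ T, ∀ h : H, h • x ∈ T) →
      (∀ x ∈ T, (orbit H x).ncard = k) → k ∣ n := by
  intro n
  induction n using Nat.strong_induction_on with
  | _ n ih =>
    intro T hn hinv hk
    rcases T.eq_empty_or_nonempty with rfl | ⟨x, hx⟩
    · rw [Set.ncard_empty] at hn; subst hn; exact dvd_zero k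
    · have hsub : orbit H x ⊆ T := by rintro _ ⟨h, rfl⟩; exact hinv x hx h
      have hkpos : 0 < k := by
        rw [← hk x hx]; exact (Set.ncard_pos (Set.toFinite _)).mpr ⟨x, mem_orbit_self x⟩
      have hdiff : (T \ orbit H x).ncard = T.ncard - k := by
        rw [Set.ncard_sdiff hsub (Set.toFinite _), hk x hx]
      have hle : k ≤ T.ncard := by
        rw [← hk x hx]; exact Set.ncard_le_ncard hsub (Set.toFinite _)
      have h1 : k ∣ n - k := by
        apply ih (n - k) (by omega) (T \ orbit H x) (by rw [hdiff, hn])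
        · rintro y ⟨hy, hy'⟩ h
          refine ⟨hinv y hy h, ?_⟩
          intro hmem
          apply hy'
          rw [← MulAction.orbit_eq_iff] at hmem ⊢
          rw [← hmem, MulAction.orbit_smul]
        · rintro y ⟨hy, _⟩
          exact hk y hy
      have h2 : n = (n - k) + k := by omega
      rw [h2]
      exact Dvd.dvd.add h1 (dvd_refl k)

/-- the union of the orbits of points in pairwise different orbits -/
lemma ncard_orbit_union {H : Type*} [Group H] {X : Type*} [MulAction H X] [Finite X] (k : ℕ) :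
    ∀ (n : ℕ) (I : Set X), I.ncard = n → (∀ x ∈ I, (orbit H x).ncard = k) →
      (∀ x ∈ I, ∀ y ∈ I, y ∈ orbit H x → y = x) →
      {z | ∃ x ∈ I, z ∈ orbit H x}.ncard = k * n := by
  intro n
  induction n with
  | zero =>
    intro I hn hk hd
    have hI : I = ∅ := (Set.ncard_eq_zero (Set.toFinite _)).mp hn
    subst hI
    simp
  | succ n ih =>
    intro I hn hk hd
    have hne : I.Nonempty := by
      rw [← Set.ncard_pos (Set.toFinite _)]; omega
    obtain ⟨x, hx⟩ := hne
    have hI' : (I \ {x}).ncard = n := by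
      rw [Set.ncard_sdiff_singleton_of_mem hx, hn]; rfl
    have ih' := ih (I \ {x}) hI' (fun y hy => hk y hy.1)
      (fun y hy z hz hzy => hd y hy.1 z hz.1 hzy)
    have hU : {z | ∃ y ∈ I, z ∈ orbit H y} =
        orbit H x ∪ {z | ∃ y ∈ I \ {x}, z ∈ orbit H y} := by
      ext z
      constructor
      · rintro ⟨y, hy, hz⟩
        by_cases hyx : y = x
        · left; rw [← hyx]; exact hz
        · right; exact ⟨y, ⟨hy, hyx⟩, hz⟩
      · rintro (hz | ⟨y, hy, hz⟩)
        · exact ⟨x, hx, hz⟩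
        · exact ⟨y, hy.1, hz⟩
    have hdisj : Disjoint (orbit H x) {z | ∃ y ∈ I \ {x}, z ∈ orbit H y} := by
      rw [Set.disjoint_left]
      rintro z hz ⟨y, hy, hz'⟩
      apply hy.2
      apply hd x hx y hy.1
      rw [← MulAction.orbit_eq_iff] at hz hz' ⊢
      rw [← hz', hz]
    rw [hU, Set.ncard_union_eq hdisj (Set.toFinite _) (Set.toFinite _), ih', hk x hx]
    ring

variable {G : Type u} [Group G] [Finite G]

/-- neighbours -/
def Nb (P : Sylow 3 G) : Set (Sylow 3 G) := {Q | Adj P Q}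

/-- points at distance 9 -/
def Far (P : Sylow 3 G) : Set (Sylow 3 G) := {Q | ci P Q * 9 = Nat.card P}

lemma self_not_mem_nb (P : Sylow 3 G) : P ∉ Nb P := fun h => adj_ne h rfl

lemma self_not_mem_far (P : Sylow 3 G) : P ∉ Far P := by
  intro h
  have h' : ci P P * 9 = Nat.card P := h
  rw [ci_self] at h'
  have := card_pos' P
  omega

lemma nb_far_disjoint (P : Sylow 3 G) : Disjoint (Nb P) (Far P) := by
  rw [Set.disjoint_left]
  intro Q hQ hQ'
  exact not_adj_of_far hQ' hQ

lemma nb_union_far (h22 : Nat.card (Sylow 3 G) = 22) (P : Sylow 3 G) :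
    Nb P ∪ Far P = {P}ᶜ := by
  ext Q
  constructor
  · rintro (h | h)
    · intro hQ
      rw [Set.mem_singleton_iff] at hQ
      subst hQ
      exact self_not_mem_nb _ h
    · intro hQ
      rw [Set.mem_singleton_iff] at hQ
      subst hQ
      exact self_not_mem_far _ h
  · intro hQ
    have hQ' : Q ≠ P := hQ
    exact adj_or h22 P Q hQ'.symm

lemma ncard_compl_singleton (h22 : Nat.card (Sylow 3 G) = 22) (P : Sylow 3 G) :
    ({P}ᶜ : Set (Sylow 3 G)).ncard = 21 := by
  rw [Set.ncard_compl ({P} : Set (Sylow 3 G)), Set.ncard_singleton, h22]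

lemma ncard_nb_add_far (h22 : Nat.card (Sylow 3 G) = 22) (P : Sylow 3 G) :
    (Nb P).ncard + (Far P).ncard = 21 := by
  rw [← Set.ncard_union_eq (nb_far_disjoint P) (Set.toFinite _) (Set.toFinite _),
    nb_union_far h22, ncard_compl_singleton h22]

lemma nb_smul_mem {P Q : Sylow 3 G} (hQ : Q ∈ Nb P) {x : G} (hx : x ∈ (P : Subgroup G)) :
    x • Q ∈ Nb P := by
  have := (adj_smul x (P := P) (Q := Q)).mpr hQ
  rwa [smul_self P hx] at this

lemma far_smul_mem {P Q : Sylow 3 G} (hQ : Q ∈ Far P) {x : G} (hx : x ∈ (P : Subgroup G)) :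
    x • Q ∈ Far P := by
  have h : ci P Q * 9 = Nat.card P := hQ
  have h2 := ci_smul x P Q
  rw [smul_self P hx] at h2
  show ci P (x • Q) * 9 = Nat.card P
  rw [h2, h]

lemma orbit_of_nb {P Q : Sylow 3 G} (hQ : Q ∈ Nb P) : (orbit (P : Subgroup G) Q).ncard = 3 := by
  have h1 := ci_mul_orbit P Q
  have h2 : ci P Q * 3 = Nat.card P := hQ
  have hpos := ci_pos P Q
  have : ci P Q * (orbit (P : Subgroup G) Q).ncard = ci P Q * 3 := by rw [h1, h2]
  exact Nat.eq_of_mul_eq_mul_left hpos this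

lemma orbit_of_far {P Q : Sylow 3 G} (hQ : Q ∈ Far P) : (orbit (P : Subgroup G) Q).ncard = 9 := by
  have h1 := ci_mul_orbit P Q
  have h2 : ci P Q * 9 = Nat.card P := hQ
  have hpos := ci_pos P Q
  have : ci P Q * (orbit (P : Subgroup G) Q).ncard = ci P Q * 9 := by rw [h1, h2]
  exact Nat.eq_of_mul_eq_mul_left hpos this

lemma three_dvd_nb (P : Sylow 3 G) : 3 ∣ (Nb P).ncard :=
  dvd_ncard_of_orbits (H := (P : Subgroup G)) 3 _ (Nb P) rfl
    (fun Q hQ h => nb_smul_mem hQ h.2) (fun Q hQ => orbit_of_nb hQ)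

lemma nine_dvd_far (P : Sylow 3 G) : 9 ∣ (Far P).ncard :=
  dvd_ncard_of_orbits (H := (P : Subgroup G)) 9 _ (Far P) rfl
    (fun Q hQ h => far_smul_mem hQ h.2) (fun Q hQ => orbit_of_far hQ)

lemma nb_cases (h22 : Nat.card (Sylow 3 G) = 22) (P : Sylow 3 G) :
    (Nb P).ncard = 3 ∨ (Nb P).ncard = 12 ∨ (Nb P).ncard = 21 := by
  have h1 := ncard_nb_add_far h22 P
  have h2 := three_dvd_nb P
  have h3 := nine_dvd_far P
  omega

lemma ncard_nb_smul (g : G) (P : Sylow 3 G) : (Nb (g • P)).ncard = (Nb P).ncard := by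
  have h : Nb (g • P) = (fun Q : Sylow 3 G => g • Q) '' Nb P := by
    ext Q
    constructor
    · intro hQ
      refine ⟨g⁻¹ • Q, ?_, smul_inv_smul g Q⟩
      have hQ' : Adj (g • P) Q := hQ
      rw [← smul_inv_smul g Q, adj_smul] at hQ'
      exact hQ'
    · rintro ⟨Q', hQ', rfl⟩
      exact (adj_smul g).mpr hQ'
  rw [h]
  exact Set.ncard_image_of_injective _ (MulAction.injective g)

lemma ncard_nb_eq (P Q : Sylow 3 G) : (Nb P).ncard = (Nb Q).ncard := by
  obtain ⟨g, rfl⟩ := MulAction.exists_smul_eq G Q P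
  exact ncard_nb_smul g Q

/-- faithfulness of the action on Sylow 3-subgroups -/
def Faithful (G : Type u) [Group G] : Prop :=
  ∀ g : G, (∀ R : Sylow 3 G, g ∈ normalizer (R : Set G)) → g = 1

lemma exists_ne (h22 : Nat.card (Sylow 3 G) = 22) (P : Sylow 3 G) : ∃ Q : Sylow 3 G, Q ≠ P := by
  by_contra hcon
  push Not at hcon
  haveI : Subsingleton (Sylow 3 G) := ⟨fun a b => (hcon a).trans (hcon b).symm⟩
  have := Finite.card_le_one_iff_subsingleton.mpr this
  omega

/-- an element of `P` moving `Q ≠ P` -/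
lemma exists_moving (P Q : Sylow 3 G) (hPQ : Q ≠ P) :
    ∃ x ∈ (P : Subgroup G), x • Q ≠ Q := by
  by_contra hcon
  push Not at hcon
  have h1 : (P : Subgroup G) ≤ normalizer ((Q : Subgroup G) : Set G) := fun x hx =>
    Sylow.smul_eq_iff_mem_normalizer.mp (hcon x hx)
  exact hPQ (Sylow.ext (P.3 Q.2 (le_sylow_of_le_normalizer P.2 Q h1)))

/-- pattern (a): all pairs adjacent -/
lemma card_three_of_all_adj (h22 : Nat.card (Sylow 3 G) = 22) (hf : Faithful G)
    (hall : ∀ P Q : Sylow 3 G, P ≠ Q → Adj P Q) (P : Sylow 3 G) : Nat.card P = 3 := by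
  obtain ⟨Q, hQ⟩ := exists_ne h22 P
  have hA := hall P Q hQ.symm
  have hD : ∀ δ : Sylow 3 G, (P : Subgroup G) ⊓ Q ≤ δ := by
    intro δ
    by_cases h1 : δ = P
    · rw [h1]; exact inf_le_left
    by_cases h2 : δ = Q
    · rw [h2]; exact inf_le_right
    exact triangle h22 hA (hall P δ (Ne.symm h1)) (hall Q δ (Ne.symm h2))
  have hbot : (P : Subgroup G) ⊓ Q = ⊥ := by
    rw [eq_bot_iff]
    intro g hg
    rw [mem_bot]
    exact hf g (fun R => le_normalizer (hD R hg))
  have h1 : ci P Q = 1 := by unfold ci; rw [hbot, Subgroup.card_bot]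
  have h2 : ci P Q * 3 = Nat.card P := hA
  omega

/-- pattern (c): three neighbours -/
lemma not_pattern_c (h22 : Nat.card (Sylow 3 G) = 22)
    (h3 : ∀ P : Sylow 3 G, (Nb P).ncard = 3) : False := by
  classical
  letI : Fintype (Sylow 3 G) := Fintype.ofFinite _
  have key : ∀ P Q : Sylow 3 G, Q ∈ Nb P → insert Q (Nb Q) = insert P (Nb P) := by
    intro P Q hQ
    have hA : Adj P Q := hQ
    have horb : orbit (P : Subgroup G) Q = Nb P := by
      apply Set.eq_of_subset_of_ncard_le _ _ (Set.toFinite _)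
      · rintro _ ⟨h, rfl⟩
        exact nb_smul_mem hQ h.2
      · rw [h3 P, orbit_of_nb hQ]
    have hsub : insert P (Nb P \ {Q}) ⊆ Nb Q := by
      intro R hR
      rcases hR with rfl | ⟨hR, hRQ⟩
      · exact adj_comm.mp hA
      · rw [← horb] at hR
        obtain ⟨h, rfl⟩ := hR
        have hne : (h : G) • Q ≠ Q := fun e => hRQ e
        exact (adj_smul_of_mem h22 hA h.2 hne).1
    have hcard : (insert P (Nb P \ {Q})).ncard = 3 := by
      rw [Set.ncard_insert_of_notMem (fun h => self_not_mem_nb P h.1) (Set.toFinite _),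
        Set.ncard_sdiff_singleton_of_mem hQ, h3 P]
    have heq : insert P (Nb P \ {Q}) = Nb Q :=
      Set.eq_of_subset_of_ncard_le hsub (by rw [hcard, h3 Q]) (Set.toFinite _)
    rw [← heq]
    ext R
    simp only [Set.mem_insert_iff, Set.mem_sdiff, Set.mem_singleton_iff]
    constructor
    · rintro (h | h | ⟨h, _⟩)
      · right; rw [h]; exact hQ
      · left; exact h
      · right; exact h
    · rintro (h | h)
      · right; left; exact h
      · by_cases hRQ : R = Q
        · left; exact hRQ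
        · right; right; exact ⟨h, hRQ⟩
  let cl : Sylow 3 G → Set (Sylow 3 G) := fun R => insert R (Nb R)
  have hcl : ∀ P R : Sylow 3 G, cl R = cl P ↔ R ∈ cl P := by
    intro P R
    constructor
    · intro h
      rw [← h]
      exact Set.mem_insert _ _
    · rintro (rfl | h)
      · rfl
      · exact key P R h
  have hcard : ∀ P : Sylow 3 G, (cl P).ncard = 4 := by
    intro P
    show (insert P (Nb P)).ncard = 4
    rw [Set.ncard_insert_of_notMem (self_not_mem_nb P) (Set.toFinite _), h3 P]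
  have hsum := Finset.card_eq_sum_card_image cl (Finset.univ : Finset (Sylow 3 G))
  have hterm : ∀ b ∈ (Finset.univ : Finset (Sylow 3 G)).image cl,
      (Finset.univ.filter (fun a => cl a = b)).card = 4 := by
    intro b hb
    rw [Finset.mem_image] at hb
    obtain ⟨P, _, rfl⟩ := hb
    rw [← hcard P, Set.ncard_eq_toFinset_card' (cl P)]
    congr 1
    ext R
    simp only [Finset.mem_filter, Finset.mem_univ, true_and, Set.mem_toFinset]
    exact hcl P R
  rw [Finset.sum_congr rfl hterm, Finset.sum_const, Finset.card_univ, ← Nat.card_eq_fintype_card,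
    h22] at hsum
  simp only [smul_eq_mul] at hsum
  omega

/-- pattern (b): twelve neighbours -/
lemma not_pattern_b (h22 : Nat.card (Sylow 3 G) = 22)
    (h12 : ∀ P : Sylow 3 G, (Nb P).ncard = 12) : False := by
  obtain ⟨P⟩ : Nonempty (Sylow 3 G) := inferInstance
  have hfar : (Far P).ncard = 9 := by
    have := ncard_nb_add_far h22 P
    rw [h12 P] at this
    omega
  obtain ⟨γ, hγ⟩ : (Far P).Nonempty := by
    rw [← Set.ncard_pos (Set.toFinite _)]; omega
  have hγ' : ci P γ * 9 = Nat.card P := hγ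
  have hS1 : ∀ β ∈ Nb γ ∩ Nb P, ∀ β' ∈ Nb γ ∩ Nb P, ¬ Adj β β' := by
    intro β hβ β' hβ' hA
    have t1 : (β : Subgroup G) ⊓ β' ≤ P :=
      triangle h22 hA (adj_comm.mp hβ.2) (adj_comm.mp hβ'.2)
    have t2 : (β : Subgroup G) ⊓ β' ≤ γ :=
      triangle h22 hA (adj_comm.mp hβ.1) (adj_comm.mp hβ'.1)
    have hle : ci β β' ≤ ci P γ := Subgroup.card_le_of_le (le_inf t1 t2)
    have hA' : ci β β' * 3 = Nat.card β := hA
    have hc := card_eq β P
    have hpos := ci_pos β β'
    omega
  have hS2 : 4 ≤ (Nb γ ∩ Nb P).ncard := by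
    have hsub : Nb γ ⊆ (Nb γ ∩ Nb P) ∪ (Far P \ {γ}) := by
      intro δ hδ
      have hδγ : δ ≠ γ := (adj_ne hδ).symm
      have hδP : δ ≠ P := by
        rintro rfl
        exact not_adj_of_far hγ' (adj_comm.mp hδ)
      rcases adj_or h22 P δ hδP.symm with h | h
      · left; exact ⟨hδ, h⟩
      · right; exact ⟨h, hδγ⟩
    have h1 := Set.ncard_le_ncard hsub (Set.toFinite _)
    have h2 := Set.ncard_union_le (Nb γ ∩ Nb P) (Far P \ {γ})
    have h3 : (Far P \ {γ}).ncard = 8 := by
      rw [Set.ncard_sdiff_singleton_of_mem hγ, hfar]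
    rw [h12 γ] at h1
    omega
  have hU : ∀ δ ∈ Nb P, ∃ β' ∈ Nb γ ∩ Nb P, δ ∈ orbit (P : Subgroup G) β' := by
    have hcount := ncard_orbit_union (H := (P : Subgroup G)) 3 _ (Nb γ ∩ Nb P) rfl
      (fun x hx => orbit_of_nb hx.2)
      (by
        rintro x hx y hy ⟨h, rfl⟩
        by_contra hne
        exact hS1 x hx _ hy (adj_smul_of_mem h22 hx.2 h.2 hne).1)
    have hsub : {z | ∃ x ∈ Nb γ ∩ Nb P, z ∈ orbit (P : Subgroup G) x} ⊆ Nb P := by
      rintro _ ⟨x, hx, ⟨h, rfl⟩⟩
      exact nb_smul_mem hx.2 h.2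
    have heq := Set.eq_of_subset_of_ncard_le hsub (by rw [hcount, h12 P]; omega) (Set.toFinite _)
    intro δ hδ
    rw [← heq] at hδ
    exact hδ
  have hS4 : ∀ β ∈ Nb γ ∩ Nb P, ∀ δ : Sylow 3 G, Adj P δ → Adj β δ →
      δ ∈ orbit (P : Subgroup G) β := by
    intro β hβ δ hPδ hβδ
    obtain ⟨β', hβ', ⟨y, rfl⟩⟩ := hU δ hPδ
    have hPβ : Adj P β := hβ.2
    have t : (P : Subgroup G) ⊓ β ≤ (((y : G) • β' : Sylow 3 G) : Subgroup G) :=
      triangle h22 hPβ hPδ hβδ
    have hle : (P : Subgroup G) ⊓ β ≤ β' := by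
      intro d hd
      have h1 := t (adj_conj_mem hPβ y.2 hd)
      rw [mem_smul_sylow] at h1
      have h2 : (y : G)⁻¹ * ((y : G) * d * (y : G)⁻¹) * (y : G) = d := by group
      rwa [h2] at h1
    by_cases hbb : β' = β
    · rw [hbb]; exact ⟨y, rfl⟩
    · exfalso
      have := adj_of_le h22 (Ne.symm hbb) ((P : Subgroup G) ⊓ β) (le_inf inf_le_right hle)
        (by rw [← card_eq P β]; exact hPβ)
      exact hS1 β hβ β' hβ' this.1
  have hS5 : ∀ β ∈ Nb γ ∩ Nb P, Far P ⊆ Nb β := by
    intro β hβ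
    have hsub : Nb β ⊆ ({P} ∪ (orbit (P : Subgroup G) β \ {β})) ∪ (Nb β ∩ Far P) := by
      intro δ hδ
      have hδβ : δ ≠ β := (adj_ne hδ).symm
      by_cases hδP : δ = P
      · left; left; exact hδP
      rcases adj_or h22 P δ (Ne.symm hδP) with h | h
      · left; right; exact ⟨hS4 β hβ δ h hδ, hδβ⟩
      · right; exact ⟨hδ, h⟩
    have h1 := Set.ncard_le_ncard hsub (Set.toFinite _)
    have h2 := Set.ncard_union_le ({P} ∪ (orbit (P : Subgroup G) β \ {β})) (Nb β ∩ Far P)
    have h3 := Set.ncard_union_le ({P} : Set (Sylow 3 G)) (orbit (P : Subgroup G) β \ {β})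
    have h4 : (orbit (P : Subgroup G) β \ {β}).ncard = 2 := by
      rw [Set.ncard_sdiff_singleton_of_mem (mem_orbit_self β), orbit_of_nb hβ.2]
    rw [Set.ncard_singleton] at h3
    rw [h12 β] at h1
    have h5 : Nb β ∩ Far P = Far P :=
      Set.eq_of_subset_of_ncard_le Set.inter_subset_right (by omega) (Set.toFinite _)
    rw [← h5]
    exact Set.inter_subset_left
  obtain ⟨β, hβ⟩ : (Nb γ ∩ Nb P).Nonempty := by
    rw [← Set.ncard_pos (Set.toFinite _)]; omega
  have hβP : β ≠ P := (adj_ne hβ.2).symm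
  obtain ⟨x, hx, hxβ⟩ := exists_moving P β hβP
  have h1 : x⁻¹ • γ ∈ Far P := far_smul_mem hγ (inv_mem hx)
  have h2 : Adj β (x⁻¹ • γ) := hS5 β hβ h1
  have h3 : Adj (x • β) γ := by
    have := (adj_smul x (P := β) (Q := x⁻¹ • γ)).mpr h2
    rwa [smul_inv_smul] at this
  have h4 := adj_smul_of_mem h22 hβ.2 hx hxβ
  exact hS1 β hβ (x • β) ⟨adj_comm.mp h3, h4.2.1⟩ h4.1

/-- Sylow 3-subgroups have order 3 -/
theorem card_three (h22 : Nat.card (Sylow 3 G) = 22) (hf : Faithful G) (P : Sylow 3 G) :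
    Nat.card P = 3 := by
  rcases nb_cases h22 P with h | h | h
  · exact (not_pattern_c h22 (fun Q => (ncard_nb_eq Q P).trans h)).elim
  · exact (not_pattern_b h22 (fun Q => (ncard_nb_eq Q P).trans h)).elim
  · apply card_three_of_all_adj h22 hf
    intro R Q hRQ
    have h1 : (Nb R).ncard = 21 := (ncard_nb_eq R P).trans h
    have h2 : Nb R = {R}ᶜ := by
      apply Set.eq_of_subset_of_ncard_le _ _ (Set.toFinite _)
      · intro S hS hS'
        rw [Set.mem_singleton_iff] at hS'
        subst hS'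
        exact self_not_mem_nb _ hS
      · rw [ncard_compl_singleton h22, h1]
    have h3 : Q ∈ ({R}ᶜ : Set (Sylow 3 G)) := fun h => hRQ h.symm
    rw [← h2] at h3
    exact h3

end Cfsg.Agent.Lib.Helper72.N3
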