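import Mathlib
import Cfsg.Agent.Lib.Helper99.SylAct
import Cfsg.Agent.Lib.Helper99.SylAct2
import Cfsg.Agent.Lib.Helper72.N3b

/-!
Towards "no finite group has exactly 22 Sylow 3-subgroups" (helper72).
Part c: general tools (signs of involutions in simple groups, fixed point counts,
inverting elements).
-/

set_option autoImplicit false
set_option linter.style.haveILetI false
set_option linter.unusedSectionVars false
set_option linter.unusedVariables false

namespace Cfsg.Agent.Lib.Helper72.N3
open Subgroup MulAction Cfsg.Agent.Lib.Helper99.SylAct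

universe u

/-- sign of an involution -/
lemma sign_involution {X : Type*} [Fintype X] [DecidableEq X] (σ : Equiv.Perm X)
    (hσ : σ ^ 2 = 1) : Equiv.Perm.sign σ = (-1) ^ (σ.support.card / 2) := by
  by_cases h1 : σ = 1
  · subst h1; simp
  · have hord : orderOf σ = 2 := orderOf_eq_prime hσ h1
    have hp : (orderOf σ).Prime := by rw [hord]; exact Nat.prime_two
    obtain ⟨n, hn⟩ := Equiv.Perm.cycleType_prime_order hp
    rw [hord] at hn
    have hsum := Equiv.Perm.sum_cycleType σ
    rw [hn, Multiset.sum_replicate, smul_eq_mul] at hsum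
    rw [Equiv.Perm.sign_of_cycleType, hn, Multiset.sum_replicate, Multiset.card_replicate,
      smul_eq_mul, ← hsum]
    have : (n + 1) * 2 / 2 = n + 1 := by omega
    rw [this, pow_add, mul_comm (n + 1) 2, pow_mul, Int.units_sq, one_pow, one_mul]

/-- support and fixed points -/
lemma card_support_toPerm {G : Type*} [Group G] {X : Type*} [MulAction G X] [Fintype X]
    [DecidableEq X] (g : G) :
    (MulAction.toPerm g : Equiv.Perm X).support.card + (fixedBy X g).ncard = Fintype.card X := by
  have h1 : (fixedBy X g).ncard = (Finset.univ.filter (fun x : X => g • x = x)).card := by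
    rw [Set.ncard_eq_toFinset_card _ (Set.toFinite _)]
    congr 1
    ext x
    simp
  have h2 : (MulAction.toPerm g : Equiv.Perm X).support =
      Finset.univ.filter (fun x : X => ¬ g • x = x) := by
    ext x
    simp [Equiv.Perm.mem_support]
  rw [h1, h2, add_comm]
  exact Finset.card_filter_add_card_filter_not _

/-- in a simple group of order `> 2` every element acts as an even permutation -/
lemma sign_trivial {G : Type*} [Group G] [Finite G] [IsSimpleGroup G] (hG : 2 < Nat.card G)
    {X : Type*} [MulAction G X] [Fintype X] [DecidableEq X] (g : G) :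
    Equiv.Perm.sign (MulAction.toPerm g : Equiv.Perm X) = 1 := by
  let φ : G →* ℤˣ := Equiv.Perm.sign.comp (MulAction.toPermHom G X)
  rcases (MonoidHom.normal_ker φ).eq_bot_or_eq_top with h | h
  · exfalso
    have hinj : Function.Injective φ := (MonoidHom.ker_eq_bot_iff φ).mp h
    have := Nat.card_le_card_of_injective φ hinj
    rw [Nat.card_eq_fintype_card (α := ℤˣ), Fintype.card_units_int] at this
    omega
  · have : g ∈ φ.ker := by rw [h]; trivial
    exact this

/-- an involution of a simple group cannot act as an odd permutation -/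
lemma involution_contra {G : Type*} [Group G] [Finite G] [IsSimpleGroup G] (hG : 2 < Nat.card G)
    {X : Type*} [MulAction G X] [Finite X] (t : G) (ht : t ^ 2 = 1) (f : ℕ)
    (hf : (fixedBy X t).ncard = f) (hodd : (Nat.card X - f) / 2 % 2 = 1) : False := by
  classical
  letI : Fintype X := Fintype.ofFinite X
  have h1 := sign_trivial hG (X := X) t
  have h2 : (MulAction.toPerm t : Equiv.Perm X) ^ 2 = 1 := by
    have := map_pow (MulAction.toPermHom G X) t 2
    rw [ht, map_one] at this
    exact this.symm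
  have h3 := card_support_toPerm (X := X) t
  rw [hf, ← Nat.card_eq_fintype_card] at h3
  rw [sign_involution _ h2] at h1
  have h4 : (MulAction.toPerm t : Equiv.Perm X).support.card = Nat.card X - f := by omega
  rw [h4] at h1
  have h5 : Odd ((Nat.card X - f) / 2) := Nat.odd_iff.mpr hodd
  rw [h5.neg_one_pow] at h1
  exact absurd h1 (by decide)

lemma mem_fixedBy_sylow {G : Type*} [Group G] {p : ℕ} {g : G} {R : Sylow p G} :
    R ∈ fixedBy (Sylow p G) g ↔ g ∈ normalizer (R : Set G) := by
  rw [MulAction.mem_fixedBy, Sylow.smul_eq_iff_mem_normalizer]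

/-- fixed points of an element of prime order -/
lemma fixedBy_mod_prime {G : Type*} [Group G] {X : Type*} [MulAction G X] [Finite X] {b : G}
    {r : ℕ} (hr : r.Prime) (hb : orderOf b = r) :
    (fixedBy X b).ncard % r = Nat.card X % r := by
  haveI : Fact r.Prime := ⟨hr⟩
  have hp : IsPGroup r (zpowers b) :=
    IsPGroup.of_card (n := 1) (by rw [Nat.card_zpowers, hb, pow_one])
  have h1 := hp.card_modEq_card_fixedPoints X
  have h2 : fixedPoints (zpowers b) X = fixedBy X b := by
    ext R
    rw [mem_fixedPoints, MulAction.mem_fixedBy]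
    constructor
    · intro h
      exact h ⟨b, mem_zpowers b⟩
    · rintro h ⟨y, hy⟩
      obtain ⟨k, rfl⟩ := mem_zpowers_iff.mp hy
      show (b ^ k) • R = R
      have hmem : b ∈ stabilizer G R := h
      exact zpow_mem hmem k
  rw [h2, Nat.card_coe_set_eq] at h1
  exact h1.symm

/-- a `P`-invariant set of Sylow subgroups not containing `P` has size divisible by `p` -/
lemma dvd_ncard_of_invariant {G : Type u} [Group G] [Finite G] {p : ℕ} [Fact p.Prime]
    (P : Sylow p G) (T : Set (Sylow p G))
    (hT : ∀ R ∈ T, ∀ x ∈ (P : Subgroup G), x • R ∈ T) (hP : P ∉ T) : p ∣ T.ncard := by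
  let T' : SubMulAction (P : Subgroup G) (Sylow p G) :=
    { carrier := T
      smul_mem' := fun x R hR => hT R hR x x.2 }
  have h1 := P.2.card_modEq_card_fixedPoints T'
  have h2 : Nat.card (fixedPoints (P : Subgroup G) T') = 0 := by
    rw [Nat.card_eq_zero]
    left
    constructor
    rintro ⟨⟨R, hR⟩, hfix⟩
    have hPR : (P : Subgroup G) ≤ normalizer (R : Set G) := by
      intro x hx
      rw [← Sylow.smul_eq_iff_mem_normalizer]
      have := hfix ⟨x, hx⟩
      exact congrArg Subtype.val this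
    have hle := le_sylow_of_le_normalizer P.2 R hPR
    have hPReq : R = P := Sylow.ext (P.3 R.2 hle)
    exact hP (hPReq ▸ hR)
  rw [h2] at h1
  have h3 : Nat.card T' = T.ncard := rfl
  rw [h3] at h1
  exact (Nat.modEq_zero_iff_dvd).mp h1

/-- the number of fixed points of an element of `C(P)` is `1` mod `p` -/
lemma fixedBy_mod_p {G : Type u} [Group G] [Finite G] {p : ℕ} [Fact p.Prime] (P : Sylow p G)
    {a : G} (haC : a ∈ centralizer (P : Set G)) : (fixedBy (Sylow p G) a).ncard % p = 1 := by
  have hp : p.Prime := Fact.out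
  have haP : a ∈ normalizer (P : Set G) := centralizer_le_normalizer _ haC
  have hPmem : P ∈ fixedBy (Sylow p G) a := mem_fixedBy_sylow.mpr haP
  have h1 : p ∣ (fixedBy (Sylow p G) a \ {P}).ncard := by
    apply dvd_ncard_of_invariant P
    · rintro R ⟨hR, hRP⟩ x hx
      refine ⟨?_, ?_⟩
      · rw [MulAction.mem_fixedBy] at hR ⊢
        have hcomm : a * x = x * a := (haC x hx).symm
        rw [smul_smul, hcomm, mul_smul, hR]
      · intro h
        apply hRP
        rw [Set.mem_singleton_iff] at h ⊢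
        have hxP : x • P = P := Sylow.smul_eq_iff_mem_normalizer.mpr (le_normalizer hx)
        rw [← hxP] at h
        exact smul_left_cancel x h
    · simp
  have h2 : (fixedBy (Sylow p G) a \ {P}).ncard = (fixedBy (Sylow p G) a).ncard - 1 :=
    Set.ncard_sdiff_singleton_of_mem hPmem
  have h3 : 0 < (fixedBy (Sylow p G) a).ncard := (Set.ncard_pos (Set.toFinite _)).mpr ⟨P, hPmem⟩
  obtain ⟨m, hm⟩ := h1
  have h4 : (fixedBy (Sylow p G) a).ncard = p * m + 1 := by omega
  rw [h4, Nat.mul_add_mod]
  exact Nat.mod_eq_of_lt hp.one_lt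

/-- an element normalizing but not centralizing a subgroup of prime order, whose square
centralizes it, inverts it -/
lemma inverts {G : Type*} [Group G] (H : Subgroup G) {q : ℕ} (hq : q.Prime)
    (hH : Nat.card H = q) {t : G} (htN : t ∈ normalizer (H : Set G))
    (htC : t ∉ centralizer (H : Set G)) (ht2 : t ^ 2 ∈ centralizer (H : Set G)) :
    ∀ h ∈ H, t * h * t⁻¹ = h⁻¹ := by
  haveI : Fact q.Prime := ⟨hq⟩
  haveI : Finite H := Nat.finite_of_card_ne_zero (by rw [hH]; exact hq.ne_zero)
  haveI : IsCyclic H := isCyclic_of_prime_card hH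
  have hcomm : ∀ a ∈ H, ∀ b ∈ H, a * b = b * a := by
    intro a ha b hb
    have := (IsCyclic.isMulCommutative (α := H)).is_comm.comm ⟨a, ha⟩ ⟨b, hb⟩
    exact congrArg Subtype.val this
  have hconj : ∀ h ∈ H, t * h * t⁻¹ ∈ H := fun h hh => (mem_normalizer_iff.mp htN h).mp hh
  have hD : H ⊓ centralizer ({t} : Set G) = ⊥ := by
    have hdvd := Subgroup.card_dvd_of_le (inf_le_left : H ⊓ centralizer ({t} : Set G) ≤ H)
    rw [hH] at hdvd
    rcases (Nat.dvd_prime hq).mp hdvd with h | h
    · exact Subgroup.eq_bot_of_card_eq _ h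
    · exfalso
      apply htC
      have heq : H ⊓ centralizer ({t} : Set G) = H :=
        Subgroup.eq_of_le_of_card_ge inf_le_left (by rw [h, hH])
      intro h' hh'
      have h1 : h' ∈ H ⊓ centralizer ({t} : Set G) := by rw [heq]; exact hh'
      have h2 := h1.2 t (Set.mem_singleton t)
      exact h2.symm
  intro h hh
  have hb : h * (t * h * t⁻¹) ∈ H ⊓ centralizer ({t} : Set G) := by
    refine ⟨mul_mem hh (hconj h hh), ?_⟩
    intro s hs
    rw [Set.mem_singleton_iff] at hs
    subst hs
    have e1 : h * s ^ 2 = s ^ 2 * h := ht2 h hh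
    have e2 : h * (s * h * s⁻¹) = (s * h * s⁻¹) * h := hcomm _ hh _ (hconj h hh)
    calc s * (h * (s * h * s⁻¹)) = s * ((s * h * s⁻¹) * h) := by rw [e2]
      _ = (s ^ 2 * h) * s⁻¹ * h := by rw [pow_two]; group
      _ = (h * s ^ 2) * s⁻¹ * h := by rw [e1]
      _ = h * (s * h * s⁻¹) * s := by rw [pow_two]; group
  rw [hD, mem_bot] at hb
  exact eq_inv_of_mul_eq_one_right hb

/-- `|N(H) : C(H)|` divides `q - 1` for a subgroup `H` of prime order `q` -/
lemma relIndex_dvd_pred {G : Type*} [Group G] [Finite G] (H : Subgroup G) {q : ℕ} (hq : q.Prime)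
    (hH : Nat.card H = q) :
    (centralizer (H : Set G)).relIndex (normalizer (H : Set G)) ∣ q - 1 := by
  haveI : Fact q.Prime := ⟨hq⟩
  have hcyc : IsCyclic H := isCyclic_of_prime_card hH
  have key := Subgroup.card_dvd_of_injective _
    (QuotientGroup.kerLift_injective H.normalizerMonoidHom)
  rw [normalizerMonoidHom_ker, ← index, ← relIndex] at key
  rw [hcyc.card_mulAut, hH, Nat.totient_prime hq] at key
  exact key

/-- a set partitioned into fibers of size `k` has cardinality divisible by `k` -/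
lemma dvd_ncard_of_fibers {X Y : Type*} [Finite X] (T : Set X) (φ : X → Y) (k : ℕ)
    (h : ∀ x ∈ T, {z | z ∈ T ∧ φ z = φ x}.ncard = k) : k ∣ T.ncard := by
  classical
  have hsum := Finset.card_eq_sum_card_image φ (Set.toFinite T).toFinset
  have hterm : ∀ b ∈ (Set.toFinite T).toFinset.image φ,
      ((Set.toFinite T).toFinset.filter (fun a => φ a = b)).card = k := by
    intro b hb
    rw [Finset.mem_image] at hb
    obtain ⟨x, hx, rfl⟩ := hb
    rw [Set.Finite.mem_toFinset] at hx
    rw [← h x hx, Set.ncard_eq_toFinset_card _ (Set.toFinite _)]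
    congr 1
    ext z
    simp [Set.Finite.mem_toFinset]
  rw [Finset.sum_congr rfl hterm, Finset.sum_const, smul_eq_mul,
    ← Set.ncard_eq_toFinset_card] at hsum
  exact ⟨_, by rw [hsum, mul_comm]⟩

/-- fixed points of an element inverting a subgroup of odd order that acts freely away from
one fixed point -/
lemma inv_fixed_count {G : Type*} [Group G] {X : Type*} [MulAction G X] [Finite X]
    (H : Subgroup G) [Finite H] (q : ℕ) (hq : Nat.card H = q) (hodd : q % 2 = 1) {t : G}
    (hinv : ∀ h ∈ H, t * h * t⁻¹ = h⁻¹) (x₀ : X) (ht0 : t • x₀ = x₀)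
    (hH0 : ∀ h ∈ H, h • x₀ = x₀)
    (hfree : ∀ x : X, x ≠ x₀ → ∀ h ∈ H, h • x = x → h = 1)
    (horb : ∀ x : X, x ≠ x₀ → t • x ∈ orbit H x) :
    q * ((fixedBy X t).ncard - 1) = Nat.card X - 1 := by
  obtain ⟨m, hm⟩ : ∃ m, q = 2 * m + 1 := ⟨q / 2, by omega⟩
  have hpowq : ∀ c ∈ H, c ^ q = 1 := by
    intro c hc
    have := pow_card_eq_one' (G := H) (x := ⟨c, hc⟩)
    rw [hq] at this
    exact congrArg Subtype.val this
  have hsq : ∀ c ∈ H, c ^ 2 = 1 → c = 1 := by
    intro c hc h2
    have h1 := hpowq c hc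
    rw [hm, pow_succ, pow_mul, h2, one_pow, one_mul] at h1
    exact h1
  have hk : ∀ x : X, x ≠ x₀ → (orbit H x).ncard = q := by
    intro x hx
    have hstab : stabilizer H x = ⊥ := by
      rw [eq_bot_iff]
      intro h hh
      rw [mem_bot]
      have h1 : (h : G) • x = x := hh
      exact Subtype.ext (hfree x hx h h.2 h1)
    rw [← MulAction.index_stabilizer, hstab, Subgroup.index_bot, hq]
  have htsmul : ∀ (c : G), c ∈ H → ∀ x : X, t • c • x = c⁻¹ • t • x := by
    intro c hc x
    rw [← hinv c hc, smul_smul, smul_smul]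
    congr 1
    group
  have hd : ∀ x ∈ fixedBy X t \ {x₀}, ∀ y ∈ fixedBy X t \ {x₀}, y ∈ orbit H x → y = x := by
    rintro x ⟨hx, hx0⟩ y ⟨hy, _⟩ ⟨c, rfl⟩
    rw [MulAction.mem_fixedBy] at hx hy
    have h1 : t • (c : G) • x = (c : G)⁻¹ • x := by rw [htsmul c c.2, hx]
    have hy' : t • (c : G) • x = (c : G) • x := hy
    rw [h1] at hy'
    have h2 : ((c : G) ^ 2) • x = x := by
      rw [pow_two, mul_smul, ← hy', smul_inv_smul]
    have h3 : (c : G) = 1 := hsq c c.2 (hfree x hx0 _ (pow_mem c.2 2) h2)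
    show (c : G) • x = x
    rw [h3, one_smul]
  have hU : {z | ∃ x ∈ fixedBy X t \ {x₀}, z ∈ orbit H x} = {x₀}ᶜ := by
    ext z
    constructor
    · rintro ⟨x, ⟨hx, hx0⟩, ⟨c, rfl⟩⟩ hz
      apply hx0
      rw [Set.mem_singleton_iff] at hz ⊢
      have h1 : (c : G) • x = x₀ := hz
      have h2 : (c : G)⁻¹ • x₀ = x₀ := hH0 _ (inv_mem c.2)
      rw [← h2, ← h1, inv_smul_smul]
    · intro hz
      have hz0 : z ≠ x₀ := hz
      obtain ⟨h₀, hh₀⟩ := horb z hz0
      have hh₀' : (h₀ : G) • z = t • z := hh₀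
      have hmem : (h₀ : G) ^ (m + 1) ∈ H := pow_mem h₀.2 _
      have hsq' : (h₀ : G) ^ (m + 1) * (h₀ : G) ^ (m + 1) = h₀ := by
        have h1 := hpowq h₀ h₀.2
        rw [← pow_add]
        have : m + 1 + (m + 1) = q + 1 := by omega
        rw [this, pow_succ, h1, one_mul]
      have hfix : t • ((h₀ : G) ^ (m + 1)) • z = ((h₀ : G) ^ (m + 1)) • z := by
        rw [htsmul _ hmem, ← hh₀']
        nth_rewrite 2 [← hsq']
        rw [mul_smul, inv_smul_smul]
      have hne : ((h₀ : G) ^ (m + 1)) • z ≠ x₀ := by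
        intro h1
        apply hz0
        have h2 : ((h₀ : G) ^ (m + 1))⁻¹ • x₀ = x₀ := hH0 _ (inv_mem hmem)
        rw [← h2, ← h1, inv_smul_smul]
      refine ⟨((h₀ : G) ^ (m + 1)) • z, ⟨hfix, hne⟩, ?_⟩
      refine ⟨⟨((h₀ : G) ^ (m + 1))⁻¹, inv_mem hmem⟩, ?_⟩
      show ((h₀ : G) ^ (m + 1))⁻¹ • ((h₀ : G) ^ (m + 1)) • z = z
      rw [inv_smul_smul]
  have hcount := ncard_orbit_union (H := H) q _ (fixedBy X t \ {x₀}) rfl
    (fun x hx => hk x hx.2) hd
  rw [hU, Set.ncard_compl ({x₀} : Set X), Set.ncard_singleton,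
    Set.ncard_sdiff_singleton_of_mem (MulAction.mem_fixedBy.mpr ht0)] at hcount
  exact hcount.symm

end Cfsg.Agent.Lib.Helper72.N3
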