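import Mathlib
import Cfsg.Agent.Lib.Helper99.SylAct
import Cfsg.Agent.Lib.Helper99.SylAct2
import Cfsg.Agent.Lib.Helper72.N3c

/-!
Towards "no finite group has exactly 22 Sylow 3-subgroups" (helper72).
Part d: a simple group with 22 Sylow 3-subgroups of order 3: orders of normalizers,
the Sylow 11-subgroup.
-/

set_option autoImplicit false
set_option linter.style.haveILetI false
set_option linter.unusedSectionVars false
set_option linter.unusedVariables false

namespace Cfsg.Agent.Lib.Helper72.N3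
open Subgroup MulAction Cfsg.Agent.Lib.Helper99.SylAct

universe u

variable {G : Type u} [Group G] [Finite G]

instance fact11 : Fact (Nat.Prime 11) := ⟨by norm_num⟩

lemma faithful_of_simple [IsSimpleGroup G] (h22 : Nat.card (Sylow 3 G) = 22) : Faithful G := by
  intro g hg
  have hker : (MulAction.toPermHom G (Sylow 3 G)).ker = ⊥ := by
    rcases (MonoidHom.normal_ker (MulAction.toPermHom G (Sylow 3 G))).eq_bot_or_eq_top with h | h
    · exact h
    · exfalso
      obtain ⟨P⟩ : Nonempty (Sylow 3 G) := inferInstance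
      obtain ⟨Q, hQ⟩ := exists_ne h22 P
      obtain ⟨x, rfl⟩ := MulAction.exists_smul_eq G P Q
      have hx : x ∈ (MulAction.toPermHom G (Sylow 3 G)).ker := by rw [h]; trivial
      rw [MonoidHom.mem_ker] at hx
      have h2 := congrArg (fun σ : Equiv.Perm (Sylow 3 G) => σ P) hx
      exact hQ h2
  have hmem : g ∈ (MulAction.toPermHom G (Sylow 3 G)).ker := by
    rw [MonoidHom.mem_ker]
    ext R
    simp only [MulAction.toPermHom_apply, MulAction.toPerm_apply, Equiv.Perm.coe_one, id_eq]
    rw [Sylow.smul_eq_iff_mem_normalizer.mpr (hg R)]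
  rwa [hker, mem_bot] at hmem

/-- the standing hypotheses of the endgame -/
structure Hyp (G : Type u) [Group G] : Prop where
  simple : IsSimpleGroup G
  h22 : Nat.card (Sylow 3 G) = 22
  hf : Faithful G
  h3 : ∀ P : Sylow 3 G, Nat.card P = 3

lemma Hyp.inf_eq_bot (H : Hyp G) (P Q : Sylow 3 G) (hPQ : P ≠ Q) :
    (P : Subgroup G) ⊓ Q = ⊥ := by
  have hdvd := Subgroup.card_dvd_of_le (inf_le_left : (P : Subgroup G) ⊓ Q ≤ P)
  rw [H.h3 P] at hdvd
  rcases (Nat.dvd_prime Nat.prime_three).mp hdvd with h | h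
  · exact Subgroup.eq_bot_of_card_eq _ h
  · exfalso
    apply hPQ
    have heq : (P : Subgroup G) ⊓ Q = P :=
      Subgroup.eq_of_le_of_card_ge inf_le_left (by rw [h, H.h3 P])
    exact (Sylow.ext (P.3 Q.2 (inf_eq_left.mp heq))).symm

lemma Hyp.pow_three (H : Hyp G) (P : Sylow 3 G) {y : G} (hy : y ∈ (P : Subgroup G)) :
    y ^ 3 = 1 := by
  have h := pow_card_eq_one' (G := (P : Subgroup G)) (x := ⟨y, hy⟩)
  rw [H.h3 P] at h
  exact congrArg Subtype.val h

lemma Hyp.le_centralizer (H : Hyp G) (P : Sylow 3 G) :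
    (P : Subgroup G) ≤ centralizer (P : Set G) := by
  haveI : IsCyclic (P : Subgroup G) := isCyclic_of_prime_card (H.h3 P)
  exact le_centralizer_iff_isMulCommutative.mpr IsCyclic.isMulCommutative

lemma Hyp.mem_of_pow_three (H : Hyp G) (P : Sylow 3 G) {g : G} (hg : g ^ 3 = 1)
    (hN : g ∈ normalizer (P : Set G)) : g ∈ (P : Subgroup G) :=
  mem_sylow_of_pow_eq_one P 1 (by rw [pow_one]; exact hg) hN

lemma Hyp.eq_one_of_mem (H : Hyp G) (P Q : Sylow 3 G) (hPQ : P ≠ Q) {x : G}
    (hx : x ∈ (P : Subgroup G)) (hxQ : x ∈ normalizer (Q : Set G)) : x = 1 := by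
  have h2 : x ∈ (Q : Subgroup G) := H.mem_of_pow_three Q (H.pow_three P hx) hxQ
  have h3 : x ∈ (P : Subgroup G) ⊓ Q := ⟨hx, h2⟩
  rwa [H.inf_eq_bot P Q hPQ, mem_bot] at h3

lemma Hyp.fx_lt (H : Hyp G) {a : G} (ha : a ≠ 1) : (fixedBy (Sylow 3 G) a).ncard < 22 := by
  have hle : (fixedBy (Sylow 3 G) a).ncard ≤ 22 := by
    rw [← H.h22, ← Set.ncard_univ]
    exact Set.ncard_le_ncard (Set.subset_univ _) (Set.toFinite _)
  rcases Nat.lt_or_ge (fixedBy (Sylow 3 G) a).ncard 22 with h | h
  · exact h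
  · exfalso
    apply ha
    have heq : (fixedBy (Sylow 3 G) a).ncard = Nat.card (Sylow 3 G) := by rw [H.h22]; omega
    have huniv := (Set.eq_univ_iff_ncard (fixedBy (Sylow 3 G) a)).mpr heq
    apply H.hf
    intro R
    have : R ∈ fixedBy (Sylow 3 G) a := by rw [huniv]; trivial
    exact mem_fixedBy_sylow.mp this

lemma Hyp.relIndex_eq_two (H : Hyp G) (P : Sylow 3 G) :
    (centralizer (P : Set G)).relIndex (normalizer (P : Set G)) = 2 := by
  haveI := H.simple
  have h1 : (centralizer (P : Set G)).relIndex (normalizer (P : Set G)) ∣ 3 - 1 :=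
    relIndex_dvd_pred (P : Subgroup G) Nat.prime_three (H.h3 P)
  have h2 : (centralizer (P : Set G)).relIndex (normalizer (P : Set G)) ≠ 1 := by
    intro h
    rw [Subgroup.relIndex_eq_one] at h
    rcases burnside_of_simple (fun M hM => hM.eq_bot_or_eq_top) P h with hb | ht
    · have := H.h3 P
      rw [hb, Subgroup.card_bot] at this
      omega
    · have h5 := Sylow.card_eq_index_normalizer P
      have h6 : normalizer (P : Set G) = ⊤ := top_le_iff.mp (ht ▸ le_normalizer)
      rw [h6, Subgroup.index_top, H.h22] at h5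
      omega
  have h3 : (centralizer (P : Set G)).relIndex (normalizer (P : Set G)) ≤ 2 :=
    Nat.le_of_dvd (by norm_num) h1
  have h4 : (centralizer (P : Set G)).relIndex (normalizer (P : Set G)) ≠ 0 := by
    intro h0
    rw [h0] at h1
    omega
  omega

lemma Hyp.card_normalizer (H : Hyp G) (P : Sylow 3 G) :
    Nat.card (normalizer (P : Set G)) = 2 * Nat.card (centralizer (P : Set G)) := by
  have h := card_mul_relIndex' (centralizer_le_normalizer (P : Set G))
  rw [H.relIndex_eq_two P] at h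
  omega

lemma Hyp.card_G (H : Hyp G) (P : Sylow 3 G) :
    Nat.card G = 44 * Nat.card (centralizer (P : Set G)) := by
  have h1 := Sylow.card_eq_index_normalizer P
  rw [H.h22] at h1
  have h2 := Subgroup.card_mul_index (normalizer (P : Set G))
  rw [← h1, H.card_normalizer P] at h2
  omega

lemma Hyp.two_lt (H : Hyp G) : 2 < Nat.card G := by
  obtain ⟨P⟩ : Nonempty (Sylow 3 G) := inferInstance
  have h1 := H.card_G P
  have h2 : 0 < Nat.card (centralizer (P : Set G)) := Nat.card_pos
  omega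

lemma Hyp.three_dvd (H : Hyp G) (P : Sylow 3 G) :
    3 ∣ Nat.card (centralizer (P : Set G)) := by
  have := Subgroup.card_dvd_of_le (H.le_centralizer P)
  rwa [H.h3 P] at this

lemma Hyp.not_nine_dvd_card (H : Hyp G) : ¬ 9 ∣ Nat.card G := by
  obtain ⟨P⟩ : Nonempty (Sylow 3 G) := inferInstance
  have h1 := P.not_dvd_index
  have h2 := Subgroup.card_mul_index (P : Subgroup G)
  rw [H.h3 P] at h2
  intro h9
  apply h1
  rw [← h2] at h9
  omega

lemma Hyp.not_nine_dvd (H : Hyp G) (P : Sylow 3 G) :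
    ¬ 9 ∣ Nat.card (centralizer (P : Set G)) := by
  intro h
  apply H.not_nine_dvd_card
  rw [H.card_G P]
  exact Dvd.dvd.mul_left h 44

lemma Hyp.not_eleven_dvd (H : Hyp G) (P : Sylow 3 G) :
    ¬ 11 ∣ Nat.card (centralizer (P : Set G)) := by
  intro h
  obtain ⟨z, hz⟩ := exists_prime_orderOf_dvd_card' 11 h
  have hz' : orderOf (z : G) = 11 := by rw [Subgroup.orderOf_coe, hz]
  have h1 := fixedBy_mod_p P z.2
  have h2 := fixedBy_mod_prime (X := Sylow 3 G) (by norm_num : Nat.Prime 11) hz'
  rw [H.h22] at h2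
  have h3 : (fixedBy (Sylow 3 G) (z : G)).ncard < 22 := by
    apply H.fx_lt
    intro h1'
    rw [h1', orderOf_one] at hz'
    omega
  omega

lemma Hyp.card_sylow11 (H : Hyp G) (A : Sylow 11 G) : Nat.card A = 11 := by
  obtain ⟨P⟩ : Nonempty (Sylow 3 G) := inferInstance
  have h1 := H.card_G P
  have h2 := H.not_eleven_dvd P
  have := card_sylow_eq_pow A 1 (by rw [h1]; omega) (by rw [h1]; omega)
  simpa using this

lemma Hyp.not_121_dvd (H : Hyp G) : ¬ 121 ∣ Nat.card G := by
  obtain ⟨P⟩ : Nonempty (Sylow 3 G) := inferInstance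
  have h1 := H.card_G P
  have h2 := H.not_eleven_dvd P
  rw [h1]; omega

lemma Hyp.sylow11_inf_normalizer (H : Hyp G) (A : Sylow 11 G) (R : Sylow 3 G) :
    (A : Subgroup G) ⊓ normalizer (R : Set G) = ⊥ := by
  rw [eq_bot_iff]
  rintro a ⟨haA, haN⟩
  rw [mem_bot]
  by_contra hne
  have h11 : a ^ 11 = 1 := by
    have h := pow_card_eq_one' (G := (A : Subgroup G)) (x := ⟨a, haA⟩)
    rw [H.card_sylow11 A] at h
    exact congrArg Subtype.val h
  have hord : orderOf a = 11 := orderOf_eq_prime h11 hne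
  have hdvd : orderOf (⟨a, haN⟩ : normalizer (R : Set G)) ∣ Nat.card (normalizer (R : Set G)) :=
    orderOf_dvd_natCard _
  rw [← Subgroup.orderOf_coe] at hdvd
  simp only at hdvd
  rw [hord, H.card_normalizer R] at hdvd
  have := H.not_eleven_dvd R
  omega

lemma Hyp.orbit_sylow11 (H : Hyp G) (A : Sylow 11 G) (R : Sylow 3 G) :
    (orbit (A : Subgroup G) R).ncard = 11 := by
  rw [ncard_orbit_subgroup, ← Subgroup.inf_relIndex_right]
  have h1 := card_mul_relIndex' (inf_le_right : normalizer (R : Set G) ⊓ (A : Subgroup G) ≤ A)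
  rw [inf_comm, H.sylow11_inf_normalizer A R, Subgroup.card_bot, H.card_sylow11 A, one_mul] at h1
  rw [inf_comm, H.sylow11_inf_normalizer A R]
  exact h1

lemma Hyp.sylow11_le_centralizer (H : Hyp G) (A : Sylow 11 G) :
    (A : Subgroup G) ≤ centralizer (A : Set G) := by
  haveI : IsCyclic (A : Subgroup G) := isCyclic_of_prime_card (H.card_sylow11 A)
  exact le_centralizer_iff_isMulCommutative.mpr IsCyclic.isMulCommutative

lemma Hyp.card_centralizer11 (H : Hyp G) (A : Sylow 11 G) :
    Nat.card (centralizer (A : Set G)) = 11 := by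
  haveI := H.simple
  obtain ⟨m, hm⟩ : 11 ∣ Nat.card (centralizer (A : Set G)) := by
    have := Subgroup.card_dvd_of_le (H.sylow11_le_centralizer A)
    rwa [H.card_sylow11 A] at this
  by_cases hm1 : m = 1
  · rw [hm, hm1]
  exfalso
  obtain ⟨r, hr, hrm⟩ := Nat.exists_prime_and_dvd hm1
  have hrC : r ∣ Nat.card (centralizer (A : Set G)) := by rw [hm]; exact Dvd.dvd.mul_left hrm 11
  have hr11 : r ≠ 11 := by
    rintro rfl
    apply H.not_121_dvd
    have h1 : 121 ∣ Nat.card (centralizer (A : Set G)) := by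
      rw [hm]
      obtain ⟨k, rfl⟩ := hrm
      exact ⟨k, by ring⟩
    exact h1.trans (Subgroup.card_subgroup_dvd_card _)
  haveI : Fact r.Prime := ⟨hr⟩
  obtain ⟨g, hg⟩ := exists_prime_orderOf_dvd_card' r hrC
  have hg' : orderOf (g : G) = r := by rw [Subgroup.orderOf_coe, hg]
  have hg1 : (g : G) ≠ 1 := by
    intro h1
    rw [h1, orderOf_one] at hg'
    exact hr.one_lt.ne hg'
  have h11 : 11 ∣ (fixedBy (Sylow 3 G) (g : G)).ncard := by
    apply dvd_ncard_of_orbits (H := (A : Subgroup G)) 11 _ (fixedBy (Sylow 3 G) (g : G)) rfl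
    · intro R hR a
      rw [MulAction.mem_fixedBy] at hR ⊢
      have hcomm : (a : G) * (g : G) = (g : G) * (a : G) := g.2 (a : G) a.2
      show (g : G) • ((a : G) • R) = (a : G) • R
      rw [smul_smul, ← hcomm, mul_smul, hR]
    · intro R _
      exact H.orbit_sylow11 A R
  have hmod := fixedBy_mod_prime (X := Sylow 3 G) hr hg'
  rw [H.h22] at hmod
  have hlt := H.fx_lt hg1
  obtain ⟨j, hj⟩ := h11
  have hj' : j = 0 ∨ j = 1 := by omega
  rcases hj' with rfl | rfl
  · -- no fixed points: `r` divides 22, so `r = 2`, an odd involution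
    rw [hj] at hmod
    have hr22 : r ∣ 22 := by
      have : 22 % r = 0 := by rw [← hmod]; simp
      exact Nat.dvd_of_mod_eq_zero this
    have hr2 : r = 2 := by
      have h22' : (22 : ℕ) = 2 * 11 := by norm_num
      rw [h22'] at hr22
      rcases (Nat.Prime.dvd_mul hr).mp hr22 with h | h
      · exact (Nat.prime_dvd_prime_iff_eq hr Nat.prime_two).mp h
      · exact absurd ((Nat.prime_dvd_prime_iff_eq hr (by norm_num)).mp h) hr11
    have hg2 : (g : G) ^ 2 = 1 := by rw [← hr2, ← hg', pow_orderOf_eq_one]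
    exact involution_contra H.two_lt (X := Sylow 3 G) (g : G) hg2 0 (by rw [hj])
      (by rw [H.h22])
  · rw [hj] at hmod
    have hr11' : r ∣ 11 := by
      have h1 : (11 : ℕ) ≡ 22 [MOD r] := hmod
      have := (Nat.modEq_iff_dvd' (by norm_num : 11 ≤ 22)).mp h1
      simpa using this
    exact hr11 ((Nat.prime_dvd_prime_iff_eq hr (by norm_num)).mp hr11')

lemma Hyp.not_five_dvd_normalizer11 (H : Hyp G) (A : Sylow 11 G) :
    ¬ 5 ∣ Nat.card (normalizer (A : Set G)) := by
  intro h5
  haveI : Fact (Nat.Prime 5) := ⟨by norm_num⟩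
  obtain ⟨f, hf⟩ := exists_prime_orderOf_dvd_card' 5 h5
  have hf' : orderOf (f : G) = 5 := by rw [Subgroup.orderOf_coe, hf]
  have hf1 : (f : G) ≠ 1 := by
    intro h1
    rw [h1, orderOf_one] at hf'
    omega
  have hmod := fixedBy_mod_prime (X := Sylow 3 G) (by norm_num : Nat.Prime 5) hf'
  rw [H.h22] at hmod
  have hlt := H.fx_lt hf1
  obtain ⟨R, hR⟩ : (fixedBy (Sylow 3 G) (f : G)).Nonempty := by
    rw [← Set.ncard_pos (Set.toFinite _)]; omega
  have hfR : (f : G) ∈ normalizer (R : Set G) := mem_fixedBy_sylow.mp hR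
  have hfC : (f : G) ∈ centralizer (R : Set G) := by
    have hle := le_centralizer_of_coprime (R : Subgroup G) (zpowers (f : G))
      (isCyclic_of_prime_card (H.h3 R)) (zpowers_le.mpr hfR)
      (by rw [Nat.card_zpowers, hf', H.h3 R, Nat.totient_prime Nat.prime_three]; decide)
    exact hle (mem_zpowers _)
  have hmod3 := fixedBy_mod_p R hfC
  have h7 : (fixedBy (Sylow 3 G) (f : G)).ncard = 7 := by omega
  have hfCA : (f : G) ∉ centralizer (A : Set G) := by
    intro hmem
    have hdvd : orderOf (⟨(f : G), hmem⟩ : centralizer (A : Set G)) ∣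
        Nat.card (centralizer (A : Set G)) := orderOf_dvd_natCard _
    rw [← Subgroup.orderOf_coe] at hdvd
    simp only at hdvd
    rw [hf', H.card_centralizer11 A] at hdvd
    omega
  have hD : (A : Subgroup G) ⊓ centralizer ({(f : G)} : Set G) = ⊥ := by
    have hdvd := Subgroup.card_dvd_of_le
      (inf_le_left : (A : Subgroup G) ⊓ centralizer ({(f : G)} : Set G) ≤ A)
    rw [H.card_sylow11 A] at hdvd
    rcases (Nat.dvd_prime (by norm_num : Nat.Prime 11)).mp hdvd with h | h
    · exact Subgroup.eq_bot_of_card_eq _ h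
    · exfalso
      apply hfCA
      have heq : (A : Subgroup G) ⊓ centralizer ({(f : G)} : Set G) = A :=
        Subgroup.eq_of_le_of_card_ge inf_le_left (by rw [h, H.card_sylow11 A])
      intro a ha
      have h1 : a ∈ (A : Subgroup G) ⊓ centralizer ({(f : G)} : Set G) := by rw [heq]; exact ha
      have h2 := h1.2 (f : G) (Set.mem_singleton _)
      exact h2.symm
  have hd : ∀ R₁ ∈ fixedBy (Sylow 3 G) (f : G), ∀ R₂ ∈ fixedBy (Sylow 3 G) (f : G),
      R₂ ∈ orbit (A : Subgroup G) R₁ → R₂ = R₁ := by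
    rintro R₁ hR₁ _ hR₂ ⟨b, rfl⟩
    rw [MulAction.mem_fixedBy] at hR₁
    have hR₂' : (f : G) • (b : G) • R₁ = (b : G) • R₁ := hR₂
    have hconj : (f : G) * (b : G) * (f : G)⁻¹ ∈ (A : Subgroup G) :=
      (mem_normalizer_iff.mp f.2 (b : G)).mp b.2
    have hfinv : (f : G)⁻¹ • R₁ = R₁ := by
      nth_rewrite 1 [← hR₁]
      rw [inv_smul_smul]
    have hc : ((b : G)⁻¹ * ((f : G) * (b : G) * (f : G)⁻¹)) • R₁ = R₁ := by
      rw [mul_smul, mul_smul, mul_smul, hfinv, hR₂', inv_smul_smul]
    have hc1 : (b : G)⁻¹ * ((f : G) * (b : G) * (f : G)⁻¹) ∈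
        (A : Subgroup G) ⊓ normalizer (R₁ : Set G) :=
      Subgroup.mem_inf.mpr ⟨mul_mem (inv_mem b.2) hconj, Sylow.smul_eq_iff_mem_normalizer.mp hc⟩
    rw [H.sylow11_inf_normalizer A R₁, mem_bot] at hc1
    have hcomm : (f : G) * (b : G) = (b : G) * (f : G) := by
      have : (f : G) * (b : G) * (f : G)⁻¹ = (b : G) := by
        have := congrArg (fun z => (b : G) * z) hc1
        simpa using this
      calc (f : G) * (b : G) = ((f : G) * (b : G) * (f : G)⁻¹) * (f : G) := by group
        _ = (b : G) * (f : G) := by rw [this]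
    have hb : (b : G) ∈ (A : Subgroup G) ⊓ centralizer ({(f : G)} : Set G) := by
      refine ⟨b.2, ?_⟩
      intro s hs
      rw [Set.mem_singleton_iff] at hs
      subst hs
      exact hcomm
    rw [hD, mem_bot] at hb
    show (b : G) • R₁ = R₁
    rw [hb, one_smul]
  have hcount := ncard_orbit_union (H := (A : Subgroup G)) 11 _
    (fixedBy (Sylow 3 G) (f : G)) rfl (fun R _ => H.orbit_sylow11 A R) hd
  have hle : {z | ∃ x ∈ fixedBy (Sylow 3 G) (f : G), z ∈ orbit (A : Subgroup G) x}.ncard ≤ 22 := by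
    rw [← H.h22, ← Set.ncard_univ]
    exact Set.ncard_le_ncard (Set.subset_univ _) (Set.toFinite _)
  rw [hcount, h7] at hle
  omega

lemma Hyp.card_normalizer11 (H : Hyp G) (A : Sylow 11 G) :
    Nat.card (normalizer (A : Set G)) = 22 := by
  haveI := H.simple
  have h1 : (centralizer (A : Set G)).relIndex (normalizer (A : Set G)) ∣ 11 - 1 :=
    relIndex_dvd_pred (A : Subgroup G) (by norm_num : Nat.Prime 11) (H.card_sylow11 A)
  have h2 := card_mul_relIndex' (centralizer_le_normalizer (A : Set G))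
  rw [H.card_centralizer11 A] at h2
  have h5 := H.not_five_dvd_normalizer11 A
  rw [← h2] at h5 ⊢
  have hne1 : (centralizer (A : Set G)).relIndex (normalizer (A : Set G)) ≠ 1 := by
    intro h
    rw [Subgroup.relIndex_eq_one] at h
    rcases burnside_of_simple (fun M hM => hM.eq_bot_or_eq_top) A h with hb | ht
    · have := H.card_sylow11 A
      rw [hb, Subgroup.card_bot] at this
      omega
    · have h6 := H.card_sylow11 A
      rw [ht, Subgroup.card_top] at h6
      obtain ⟨P⟩ : Nonempty (Sylow 3 G) := inferInstance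
      have := H.card_G P
      omega
  generalize (centralizer (A : Set G)).relIndex (normalizer (A : Set G)) = r at h1 h5 hne1 ⊢
  have hle : r ≤ 10 := Nat.le_of_dvd (by norm_num) h1
  interval_cases r <;> omega

lemma Hyp.mod_eleven (H : Hyp G) (P : Sylow 3 G) :
    (2 * Nat.card (centralizer (P : Set G))) % 11 = 1 := by
  obtain ⟨A⟩ : Nonempty (Sylow 11 G) := inferInstance
  have h1 := Sylow.card_eq_index_normalizer A
  have h2 := Subgroup.card_mul_index (normalizer (A : Set G))
  rw [H.card_normalizer11 A, H.card_G P] at h2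
  have h3 : (normalizer (A : Set G)).index = 2 * Nat.card (centralizer (P : Set G)) := by omega
  have h4 := card_sylow_modEq_one 11 G
  rw [h1, h3] at h4
  exact h4

end Cfsg.Agent.Lib.Helper72.N3
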