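import Mathlib
import Cfsg.Agent.Lib.Helper99.SylAct
import Cfsg.Agent.Lib.Helper99.SylAct2
import Cfsg.Agent.Lib.Helper72.N3d

/-!
Towards "no finite group has exactly 22 Sylow 3-subgroups" (helper72).
Part e: `N(P)/P` acts faithfully on the seven `P`-orbits, so `|C(P)|` divides `7560`.
-/

set_option autoImplicit false
set_option linter.style.haveILetI false
set_option linter.unusedSectionVars false
set_option linter.unusedVariables false

namespace Cfsg.Agent.Lib.Helper72.N3
open Subgroup MulAction Cfsg.Agent.Lib.Helper99.SylAct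
open scoped Pointwise

universe u

variable {G : Type u} [Group G] [Finite G]

lemma smul_orbit_eq (P : Sylow 3 G) (n : normalizer (P : Set G)) (R : Sylow 3 G) :
    n • orbit (P : Subgroup G) R = orbit (P : Subgroup G) ((n : G) • R) := by
  ext z
  constructor
  · rintro ⟨_, ⟨h, rfl⟩, rfl⟩
    refine ⟨⟨(n : G) * h * (n : G)⁻¹, (mem_normalizer_iff.mp n.2 h).mp h.2⟩, ?_⟩
    show ((n : G) * h * (n : G)⁻¹) • ((n : G) • R) = (n : G) • ((h : G) • R)
    rw [smul_smul, smul_smul]
    congr 1
    group
  · rintro ⟨h, rfl⟩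
    have hmem : (n : G)⁻¹ * h * (n : G) ∈ (P : Subgroup G) := by
      have := (mem_normalizer_iff.mp (inv_mem n.2) h).mp h.2
      rwa [inv_inv] at this
    refine ⟨((n : G)⁻¹ * h * (n : G)) • R, ⟨⟨_, hmem⟩, rfl⟩, ?_⟩
    show (n : G) • (((n : G)⁻¹ * h * (n : G)) • R) = (h : G) • ((n : G) • R)
    rw [smul_smul, smul_smul]
    congr 1
    group

/-- the `P`-orbits of the Sylow subgroups other than `P`, as an `N(P)`-set -/
def orbSub (P : Sylow 3 G) : SubMulAction (normalizer (P : Set G)) (Set (Sylow 3 G)) where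
  carrier := {s | ∃ R : Sylow 3 G, R ≠ P ∧ s = orbit (P : Subgroup G) R}
  smul_mem' := by
    rintro n s ⟨R, hR, rfl⟩
    refine ⟨(n : G) • R, ?_, smul_orbit_eq P n R⟩
    intro h
    apply hR
    have hn : (n : G) • P = P := Sylow.smul_eq_iff_mem_normalizer.mpr n.2
    exact smul_left_cancel _ (h.trans hn.symm)

lemma Hyp.orbit_three (H : Hyp G) (P R : Sylow 3 G) (hR : R ≠ P) :
    (orbit (P : Subgroup G) R).ncard = 3 := by
  have h1 := ci_mul_orbit P R
  have h2 : ci P R = 1 := by
    unfold ci
    rw [H.inf_eq_bot P R (Ne.symm hR), Subgroup.card_bot]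
  rw [h2, H.h3 P, one_mul] at h1
  exact h1

lemma Hyp.card_orbSub_le (H : Hyp G) (P : Sylow 3 G) : Nat.card (orbSub P) ≤ 7 := by
  classical
  letI : Fintype (Sylow 3 G) := Fintype.ofFinite _
  have hcard : Nat.card (orbSub P) = (orbSub P).carrier.ncard := rfl
  have h1 := Finset.mul_card_image_le_card
    (f := fun R : Sylow 3 G => orbit (P : Subgroup G) R) (Finset.univ.erase P) 3 (by
      intro b hb
      obtain ⟨R, hR, rfl⟩ := Finset.mem_image.mp hb
      rw [Finset.mem_erase] at hR
      have hsub : (Set.toFinite (orbit (P : Subgroup G) R)).toFinset ⊆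
          (Finset.univ.erase P).filter
            (fun a => orbit (P : Subgroup G) a = orbit (P : Subgroup G) R) := by
        intro a ha
        rw [Set.Finite.mem_toFinset] at ha
        rw [Finset.mem_filter, Finset.mem_erase]
        refine ⟨⟨?_, Finset.mem_univ _⟩, MulAction.orbit_eq_iff.mpr ha⟩
        rintro rfl
        exact not_mem_orbit _ a R le_normalizer (Ne.symm hR.1) ha
      have h2 := Finset.card_le_card hsub
      rw [← Set.ncard_eq_toFinset_card, H.orbit_three P R hR.1] at h2
      exact h2)
  rw [Finset.card_erase_of_mem (Finset.mem_univ _), Finset.card_univ, ← Nat.card_eq_fintype_card,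
    H.h22] at h1
  have h3 : (orbSub P).carrier =
      ↑((Finset.univ.erase P).image (fun R : Sylow 3 G => orbit (P : Subgroup G) R)) := by
    ext s
    simp only [Finset.coe_image, Set.mem_image, Finset.mem_coe, Finset.mem_erase,
      Finset.mem_univ, and_true]
    constructor
    · rintro ⟨R, hR, rfl⟩
      exact ⟨R, hR, rfl⟩
    · rintro ⟨R, hR, rfl⟩
      exact ⟨R, hR, rfl⟩
  rw [hcard, h3, Set.ncard_coe_finset]
  omega

/-- the kernel of the action of `N(P)` on the `P`-orbits lies in `P` -/
lemma Hyp.ker_le (H : Hyp G) (P : Sylow 3 G) (n : normalizer (P : Set G))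
    (hn : n ∈ (MulAction.toPermHom (normalizer (P : Set G)) (orbSub P)).ker) :
    (n : G) ∈ (P : Subgroup G) := by
  haveI := H.simple
  have hstep : ∀ R : Sylow 3 G, R ≠ P → (n : G) • R ∈ orbit (P : Subgroup G) R := by
    intro R hR
    rw [MonoidHom.mem_ker] at hn
    have h1 := congrArg (fun σ : Equiv.Perm (orbSub P) =>
      ((σ ⟨orbit (P : Subgroup G) R, R, hR, rfl⟩ : orbSub P) : Set (Sylow 3 G))) hn
    have h2 : n • orbit (P : Subgroup G) R = orbit (P : Subgroup G) R := h1
    rw [← h2]
    exact Set.smul_mem_smul_set (mem_orbit_self R)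
  have hnP : (n : G) • P = P := Sylow.smul_eq_iff_mem_normalizer.mpr n.2
  by_cases hC : (n : G) ∈ centralizer (P : Set G)
  · -- centralizing elements of the kernel have cube 1
    have hg3 : (n : G) ^ 3 = 1 := by
      apply H.hf
      intro R
      rw [← Sylow.smul_eq_iff_mem_normalizer]
      by_cases hR : R = P
      · rw [hR]
        exact Sylow.smul_eq_iff_mem_normalizer.mpr (pow_mem n.2 3)
      · obtain ⟨y, hy⟩ := hstep R hR
        have hy' : (y : G) • R = (n : G) • R := hy
        have hpow : ∀ k : ℕ, (n : G) ^ k • R = (y : G) ^ k • R := by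
          intro k
          induction k with
          | zero => simp
          | succ k ih =>
            have hc : (n : G) ^ k * (y : G) = (y : G) * (n : G) ^ k :=
              ((pow_mem hC k) (y : G) y.2).symm
            rw [pow_succ, mul_smul, ← hy', smul_smul, hc, mul_smul, ih, smul_smul, ← pow_succ']
        rw [hpow 3, H.pow_three P y.2, one_smul]
    exact H.mem_of_pow_three P hg3 n.2
  · exfalso
    have hsq : (n : G) ^ 2 ∈ centralizer (P : Set G) := by
      have hidx : ((centralizer (P : Set G)).subgroupOf (normalizer (P : Set G))).index = 2 :=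
        H.relIndex_eq_two P
      have := Subgroup.sq_mem_of_index_two hidx n
      rw [mem_subgroupOf] at this
      exact this
    have hinv : ∀ h ∈ (P : Subgroup G), (n : G) * h * (n : G)⁻¹ = h⁻¹ :=
      inverts (P : Subgroup G) Nat.prime_three (H.h3 P) n.2 hC hsq
    have hcount := inv_fixed_count (X := Sylow 3 G) (P : Subgroup G) 3 (H.h3 P) (by norm_num)
      hinv P hnP (fun h hh => smul_self P hh)
      (fun R hR h hh hfix => H.eq_one_of_mem P R (Ne.symm hR) hh
        (Sylow.smul_eq_iff_mem_normalizer.mp hfix))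
      hstep
    rw [H.h22] at hcount
    have hg2 : (n : G) ^ 2 = 1 := by
      apply H.hf
      intro R
      rw [← Sylow.smul_eq_iff_mem_normalizer]
      by_cases hR : R = P
      · rw [hR]
        exact Sylow.smul_eq_iff_mem_normalizer.mpr (pow_mem n.2 2)
      · obtain ⟨y, hy⟩ := hstep R hR
        have hy' : (y : G) • R = (n : G) • R := hy
        have h1 : (n : G) • (y : G) • R = (y : G)⁻¹ • (n : G) • R := by
          rw [← hinv y y.2, smul_smul, smul_smul]
          congr 1
          group
        rw [pow_two, mul_smul, ← hy', h1, ← hy', inv_smul_smul]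
    exact involution_contra H.two_lt (X := Sylow 3 G) (n : G) hg2 8 (by omega) (by rw [H.h22])

/-- `|C(P)|` divides `7560` -/
lemma Hyp.dvd_7560 (H : Hyp G) (P : Sylow 3 G) :
    Nat.card (centralizer (P : Set G)) ∣ 7560 := by
  set φ := MulAction.toPermHom (normalizer (P : Set G)) (orbSub P) with hφ
  have h1 := Subgroup.card_eq_card_quotient_mul_card_subgroup φ.ker
  have h2 : Nat.card (normalizer (P : Set G) ⧸ φ.ker) ∣ Nat.card (Equiv.Perm (orbSub P)) :=
    Subgroup.card_dvd_of_injective (QuotientGroup.kerLift φ) (QuotientGroup.kerLift_injective φ)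
  rw [Nat.card_perm] at h2
  have h3 : (Nat.card (orbSub P)).factorial ∣ Nat.factorial 7 :=
    Nat.factorial_dvd_factorial (H.card_orbSub_le P)
  have h4 : Nat.card φ.ker ∣ 3 := by
    have hle : φ.ker ≤ (P : Subgroup G).subgroupOf (normalizer (P : Set G)) := by
      intro n hn
      rw [mem_subgroupOf]
      exact H.ker_le P n hn
    have hc : Nat.card ((P : Subgroup G).subgroupOf (normalizer (P : Set G))) = 3 :=
      (Nat.card_congr (Subgroup.subgroupOfEquivOfLe (le_normalizer :
        (P : Subgroup G) ≤ normalizer (P : Set G))).toEquiv).trans (H.h3 P)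
    have hd := Subgroup.card_dvd_of_le hle
    rw [hc] at hd
    exact hd
  have h5 : Nat.card (normalizer (P : Set G)) ∣ Nat.factorial 7 * 3 := by
    rw [h1]
    exact Nat.mul_dvd_mul (h2.trans h3) h4
  rw [H.card_normalizer P] at h5
  have h6 : Nat.factorial 7 * 3 = 2 * 7560 := by decide
  rw [h6] at h5
  exact Nat.dvd_of_mul_dvd_mul_left (by norm_num) h5

end Cfsg.Agent.Lib.Helper72.N3
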