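import Mathlib
import Cfsg.Agent.Lib.Helper99.SylAct
import Cfsg.Agent.Lib.Helper99.SylAct2
import Cfsg.Agent.Lib.Helper72.N3e

/-!
Towards "no finite group has exactly 22 Sylow 3-subgroups" (helper72).
Part f: the two remaining orders (`|C(P)| = 105` and `|C(P)| = 6`), and the theorem for
simple groups.
-/

set_option autoImplicit false
set_option linter.style.haveILetI false
set_option linter.unusedSectionVars false
set_option linter.unusedVariables false

namespace Cfsg.Agent.Lib.Helper72.N3
open Subgroup MulAction Cfsg.Agent.Lib.Helper99.SylAct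

universe u

variable {G : Type u} [Group G] [Finite G]

/-- `|C(P)| = 105` is impossible -/
lemma Hyp.not_105 (H : Hyp G) (P : Sylow 3 G) :
    Nat.card (centralizer (P : Set G)) ≠ 105 := by
  intro h105
  haveI : Fact (Nat.Prime 5) := ⟨by norm_num⟩
  haveI : Fact (Nat.Prime 7) := ⟨by norm_num⟩
  -- elements of order 7 in `C(P)` fix only `P`
  have h7 : ∀ g ∈ centralizer (P : Set G), orderOf g = 7 → ∀ R : Sylow 3 G,
      g ∈ normalizer (R : Set G) → R = P := by
    intro g hg hord R hR
    have h1 := fixedBy_mod_p P hg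
    have h2 := fixedBy_mod_prime (X := Sylow 3 G) (by norm_num : Nat.Prime 7) hord
    rw [H.h22] at h2
    have h3 : (fixedBy (Sylow 3 G) g).ncard < 22 := by
      apply H.fx_lt
      intro h1'
      rw [h1', orderOf_one] at hord
      omega
    have h4 : (fixedBy (Sylow 3 G) g).ncard = 1 := by omega
    obtain ⟨a, ha⟩ := Set.ncard_eq_one.mp h4
    have hP : P ∈ fixedBy (Sylow 3 G) g := mem_fixedBy_sylow.mpr (centralizer_le_normalizer _ hg)
    have hR' : R ∈ fixedBy (Sylow 3 G) g := mem_fixedBy_sylow.mpr hR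
    rw [ha, Set.mem_singleton_iff] at hP hR'
    rw [hP, hR']
  have hS5 : ∀ R : Sylow 3 G, R ≠ P →
      Nat.card (centralizer (P : Set G) ⊓ normalizer (R : Set G) : Subgroup G) = 5 := by
    intro R hR
    have hdvd : Nat.card (centralizer (P : Set G) ⊓ normalizer (R : Set G) : Subgroup G) ∣ 105 := by
      rw [← h105]
      exact Subgroup.card_dvd_of_le inf_le_left
    have h3 : ¬ 3 ∣ Nat.card (centralizer (P : Set G) ⊓ normalizer (R : Set G) : Subgroup G) := by
      intro h
      obtain ⟨z, hz⟩ := exists_prime_orderOf_dvd_card' 3 h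
      have hz' : orderOf (z : G) = 3 := by rw [Subgroup.orderOf_coe, hz]
      have hz3 : (z : G) ^ 3 = 1 := by
        have h0 := pow_orderOf_eq_one (z : G)
        rw [hz'] at h0
        exact h0
      have hzP : (z : G) ∈ (P : Subgroup G) :=
        H.mem_of_pow_three P hz3 (centralizer_le_normalizer _ z.2.1)
      have hz1 : (z : G) = 1 := H.eq_one_of_mem P R (Ne.symm hR) hzP z.2.2
      rw [hz1, orderOf_one] at hz'
      omega
    have h7' : ¬ 7 ∣ Nat.card (centralizer (P : Set G) ⊓ normalizer (R : Set G) : Subgroup G) := by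
      intro h
      obtain ⟨z, hz⟩ := exists_prime_orderOf_dvd_card' 7 h
      have hz' : orderOf (z : G) = 7 := by rw [Subgroup.orderOf_coe, hz]
      exact hR (h7 (z : G) z.2.1 hz' R z.2.2)
    have hge : 5 ≤ Nat.card (centralizer (P : Set G) ⊓ normalizer (R : Set G) : Subgroup G) := by
      have h1 := ncard_orbit_subgroup (centralizer (P : Set G)) R
      have h2 := card_mul_relIndex'
        (inf_le_right : normalizer (R : Set G) ⊓ centralizer (P : Set G) ≤ centralizer (P : Set G))
      rw [Subgroup.inf_relIndex_right, ← h1, h105, inf_comm] at h2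
      have h4 : (orbit (centralizer (P : Set G)) R).ncard ≤ 21 := by
        have hsub : orbit (centralizer (P : Set G)) R ⊆ ({P} : Set (Sylow 3 G))ᶜ := by
          intro S hS hS'
          rw [Set.mem_singleton_iff] at hS'
          subst hS'
          exact not_mem_orbit _ S R (centralizer_le_normalizer _) (Ne.symm hR) hS
        have := Set.ncard_le_ncard hsub (Set.toFinite _)
        rwa [ncard_compl_singleton H.h22] at this
      nlinarith
    generalize Nat.card (centralizer (P : Set G) ⊓ normalizer (R : Set G) : Subgroup G) = c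
      at hdvd h3 h7' hge ⊢
    have hle : c ≤ 105 := Nat.le_of_dvd (by norm_num) hdvd
    interval_cases c <;> omega
  have hfib : ∀ R ∈ ({P} : Set (Sylow 3 G))ᶜ,
      {z | z ∈ ({P} : Set (Sylow 3 G))ᶜ ∧
        (centralizer (P : Set G) ⊓ normalizer (z : Set G) : Subgroup G) =
          centralizer (P : Set G) ⊓ normalizer (R : Set G)}.ncard = 6 := by
    intro R hR
    have hR' : R ≠ P := hR
    have hc := hS5 R hR'
    obtain ⟨f, hf⟩ := exists_prime_orderOf_dvd_card' 5 (by rw [hc] :
      5 ∣ Nat.card (centralizer (P : Set G) ⊓ normalizer (R : Set G) : Subgroup G))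
    have hf' : orderOf (f : G) = 5 := by rw [Subgroup.orderOf_coe, hf]
    have hf1 : (f : G) ≠ 1 := by
      intro h1
      rw [h1, orderOf_one] at hf'
      omega
    have hzp : zpowers (f : G) = centralizer (P : Set G) ⊓ normalizer (R : Set G) := by
      apply Subgroup.eq_of_le_of_card_ge (zpowers_le.mpr f.2)
      rw [Nat.card_zpowers, hf', hc]
    have h1 := fixedBy_mod_p P f.2.1
    have h2 := fixedBy_mod_prime (X := Sylow 3 G) (by norm_num : Nat.Prime 5) hf'
    rw [H.h22] at h2
    have h3 := H.fx_lt hf1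
    have h4 : (fixedBy (Sylow 3 G) (f : G)).ncard = 7 := by omega
    have hset : {z | z ∈ ({P} : Set (Sylow 3 G))ᶜ ∧
        (centralizer (P : Set G) ⊓ normalizer (z : Set G) : Subgroup G) =
          centralizer (P : Set G) ⊓ normalizer (R : Set G)} = fixedBy (Sylow 3 G) (f : G) \ {P} := by
      ext z
      constructor
      · rintro ⟨hz, hzS⟩
        refine ⟨?_, hz⟩
        rw [mem_fixedBy_sylow]
        have : (f : G) ∈ (centralizer (P : Set G) ⊓ normalizer (z : Set G) : Subgroup G) := by
          rw [hzS]; exact f.2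
        exact this.2
      · rintro ⟨hz, hzP⟩
        refine ⟨hzP, ?_⟩
        have hzP' : z ≠ P := hzP
        have hfz : (f : G) ∈ (centralizer (P : Set G) ⊓ normalizer (z : Set G) : Subgroup G) :=
          Subgroup.mem_inf.mpr ⟨f.2.1, mem_fixedBy_sylow.mp hz⟩
        symm
        apply Subgroup.eq_of_le_of_card_ge
        · rw [← hzp]
          exact zpowers_le.mpr hfz
        · rw [hS5 z hzP', hc]
    rw [hset, Set.ncard_sdiff_singleton_of_mem
      (mem_fixedBy_sylow.mpr (centralizer_le_normalizer _ f.2.1)), h4]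
  have hdvd := dvd_ncard_of_fibers (({P} : Set (Sylow 3 G))ᶜ)
    (fun z : Sylow 3 G => (centralizer (P : Set G) ⊓ normalizer (z : Set G) : Subgroup G)) 6 hfib
  rw [ncard_compl_singleton H.h22] at hdvd
  omega

/-- the orbit of a point with trivial stabilizer -/
lemma ncard_orbit_of_free {X : Type*} [MulAction G X] [Finite X] (K : Subgroup G) (x : X)
    (hfree : ∀ h ∈ K, h • x = x → h = 1) : (orbit K x).ncard = Nat.card K := by
  have hstab : stabilizer K x = ⊥ := by
    rw [eq_bot_iff]
    intro h hh
    rw [mem_bot]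
    have h1 : (h : G) • x = x := hh
    exact Subtype.ext (hfree h h.2 h1)
  rw [← MulAction.index_stabilizer, hstab, Subgroup.index_bot]

/-- `|C(P)| = 6` is impossible -/
lemma Hyp.not_6 (H : Hyp G) (P : Sylow 3 G) :
    Nat.card (centralizer (P : Set G)) ≠ 6 := by
  intro h6
  haveI := H.simple
  obtain ⟨A⟩ : Nonempty (Sylow 11 G) := inferInstance
  have hA11 := H.card_sylow11 A
  have h12 : Nat.card (Sylow 11 G) = 12 := by
    have h1 := Sylow.card_eq_index_normalizer A
    have h2 := Subgroup.card_mul_index (normalizer (A : Set G))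
    rw [H.card_normalizer11 A, H.card_G P, h6] at h2
    omega
  obtain ⟨t, ht⟩ := exists_prime_orderOf_dvd_card' 2 (by rw [H.card_normalizer11 A]; norm_num :
    2 ∣ Nat.card (normalizer (A : Set G)))
  have ht' : orderOf (t : G) = 2 := by rw [Subgroup.orderOf_coe, ht]
  have ht2 : (t : G) ^ 2 = 1 := by rw [← ht', pow_orderOf_eq_one]
  have htC : (t : G) ∉ centralizer (A : Set G) := by
    intro hmem
    have hdvd : orderOf (⟨(t : G), hmem⟩ : centralizer (A : Set G)) ∣
        Nat.card (centralizer (A : Set G)) := orderOf_dvd_natCard _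
    rw [← Subgroup.orderOf_coe] at hdvd
    simp only at hdvd
    rw [ht', H.card_centralizer11 A] at hdvd
    omega
  have hinv : ∀ h ∈ (A : Subgroup G), (t : G) * h * (t : G)⁻¹ = h⁻¹ :=
    inverts (A : Subgroup G) (by norm_num : Nat.Prime 11) hA11 t.2 htC
      (by rw [ht2]; exact one_mem _)
  have hTI : ∀ A' : Sylow 11 G, A' ≠ A → (A : Subgroup G) ⊓ A' = ⊥ := by
    intro A' hA'
    have hdvd := Subgroup.card_dvd_of_le (inf_le_left : (A : Subgroup G) ⊓ A' ≤ A)
    rw [hA11] at hdvd
    rcases (Nat.dvd_prime (by norm_num : Nat.Prime 11)).mp hdvd with h | h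
    · exact Subgroup.eq_bot_of_card_eq _ h
    · exfalso
      apply hA'
      have heq : (A : Subgroup G) ⊓ A' = A :=
        Subgroup.eq_of_le_of_card_ge inf_le_left (by rw [h, hA11])
      exact Sylow.ext (A.3 A'.2 (inf_eq_left.mp heq))
  have hfree : ∀ A' : Sylow 11 G, A' ≠ A → ∀ h ∈ (A : Subgroup G), h • A' = A' → h = 1 := by
    intro A' hA' h hh hfix
    have h11 : h ^ 11 = 1 := by
      have := pow_card_eq_one' (G := (A : Subgroup G)) (x := ⟨h, hh⟩)
      rw [hA11] at this
      exact congrArg Subtype.val this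
    have hmem : h ∈ (A' : Subgroup G) :=
      mem_sylow_of_pow_eq_one A' 1 (by rw [pow_one]; exact h11)
        (Sylow.smul_eq_iff_mem_normalizer.mp hfix)
    have : h ∈ (A : Subgroup G) ⊓ A' := ⟨hh, hmem⟩
    rwa [hTI A' hA', mem_bot] at this
  have htA : (t : G) • A = A := Sylow.smul_eq_iff_mem_normalizer.mpr t.2
  have hcompl : ({A} : Set (Sylow 11 G))ᶜ.ncard = 11 := by
    rw [Set.ncard_compl ({A} : Set (Sylow 11 G)), Set.ncard_singleton, h12]
  have horb : ∀ A' : Sylow 11 G, A' ≠ A → (t : G) • A' ∈ orbit (A : Subgroup G) A' := by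
    intro A' hA'
    have hsub : orbit (A : Subgroup G) A' ⊆ ({A} : Set (Sylow 11 G))ᶜ := by
      intro S hS hS'
      rw [Set.mem_singleton_iff] at hS'
      subst hS'
      exact not_mem_orbit _ S A' le_normalizer (Ne.symm hA') hS
    have heq : orbit (A : Subgroup G) A' = ({A} : Set (Sylow 11 G))ᶜ :=
      Set.eq_of_subset_of_ncard_le hsub
        (by rw [hcompl, ncard_orbit_of_free (A : Subgroup G) A' (hfree A' hA'), hA11])
        (Set.toFinite _)
    rw [heq]
    intro hmem
    rw [Set.mem_singleton_iff] at hmem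
    apply hA'
    have : (t : G) • A' = (t : G) • A := hmem.trans htA.symm
    exact smul_left_cancel _ this
  have hcount := inv_fixed_count (X := Sylow 11 G) (A : Subgroup G) 11 hA11 (by norm_num)
    hinv A htA (fun h hh => smul_self A hh) hfree horb
  rw [h12] at hcount
  exact involution_contra H.two_lt (X := Sylow 11 G) (t : G) ht2 2 (by omega) (by rw [h12])

/-- a finite simple group does not have exactly 22 Sylow 3-subgroups -/
theorem simple_card_sylow_three_ne [IsSimpleGroup G] : Nat.card (Sylow 3 G) ≠ 22 := by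
  intro h22
  have hf := faithful_of_simple h22
  have H : Hyp G := ⟨inferInstance, h22, hf, card_three h22 hf⟩
  obtain ⟨P⟩ : Nonempty (Sylow 3 G) := inferInstance
  have h1 := H.dvd_7560 P
  have h2 := H.three_dvd P
  have h3 := H.not_nine_dvd P
  have h4 := H.mod_eleven P
  have h5 := H.not_105 P
  have h6 := H.not_6 P
  obtain ⟨k, hk⟩ := h2
  rw [hk] at h1 h3 h4 h5 h6
  have hk3 : ¬ 3 ∣ k := fun h => h3 (by obtain ⟨j, rfl⟩ := h; exact ⟨j, by ring⟩)
  have hk1 : k ∣ 2520 :=
    Nat.dvd_of_mul_dvd_mul_left (by norm_num : 0 < 3) (by norm_num; exact h1)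
  have hk2 : k ∣ 280 := by
    have hcop : Nat.Coprime k 9 := by
      have h9 : (9 : ℕ) = 3 ^ 2 := by norm_num
      rw [h9]
      exact Nat.Coprime.pow_right 2
        ((Nat.Prime.coprime_iff_not_dvd Nat.prime_three).mpr hk3).symm
    have h2520 : (2520 : ℕ) = 9 * 280 := by norm_num
    rw [h2520] at hk1
    exact hcop.dvd_of_dvd_mul_left hk1
  have hle : k ≤ 280 := Nat.le_of_dvd (by norm_num) hk2
  interval_cases k <;> omega

end Cfsg.Agent.Lib.Helper72.N3
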