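import Mathlib
import Cfsg.Agent.Lib.Helper24.NatStmt

/-!
Piece [DECQ] of S3009: quadratic + irreducible + nontrivial gives `M = Wp ⊕ Wm`.
-/

set_option autoImplicit false

namespace Cfsg.Agent.Lib.Helper72.NatDECQ

open Cfsg.Agent.Lib.Helper24.NatStmt

universe u

theorem main : Cfsg.Agent.Lib.Helper24.NatStmt.DecQ.{u} := by
  intro hGen hQM F _ M _ _ hirr hnt hq
  have hqm := hQM F M hq
  -- fixed points
  let Fx : AddSubgroup M :=
    { carrier := {m | ∀ g : SL2 F, g • m = m}
      zero_mem' := fun g => smul_zero _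
      add_mem' := fun {a b} ha hb g => by rw [smul_add, ha g, hb g]
      neg_mem' := fun {a} ha g => by rw [smul_neg, ha g] }
  have hFxinv : ∀ (g : SL2 F), ∀ m ∈ Fx, g • m ∈ Fx := by
    intro g m hm
    have e : g • m = m := hm g
    rw [e]
    exact hm
  have hFx : Fx = ⊥ := by
    rcases hirr Fx hFxinv with h | h
    · exact h
    · exfalso
      obtain ⟨g, m, hgm⟩ := hnt
      have hm : m ∈ Fx := by rw [h]; trivial
      exact hgm (hm g)
  refine ⟨?_, ?_⟩
  · rw [eq_bot_iff]
    intro m hm
    obtain ⟨hp, hmm⟩ := hm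
    have hmF : m ∈ Fx := by
      intro g
      have hg := hGen F g
      induction hg using Subgroup.closure_induction with
      | mem y hy =>
        rcases hy with ⟨x, rfl⟩ | ⟨x, rfl⟩
        · exact hp x
        · exact hmm x
      | one => exact one_smul _ m
      | mul a b _ _ ha hb => rw [mul_smul, hb, ha]
      | inv a _ ha =>
        rw [inv_smul_eq_iff]
        exact ha.symm
    rw [hFx] at hmF
    exact hmF
  · have hua : ∀ (x : F) (m : M), m ∈ Wp F M ⊔ Wm F M → ua x • m ∈ Wp F M ⊔ Wm F M := by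
      intro x m hm
      have e : ua x • m = m + dX x m := by unfold dX; abel
      rw [e]
      exact (Wp F M ⊔ Wm F M).add_mem hm ((le_sup_left : Wp F M ≤ Wp F M ⊔ Wm F M) (hq x m))
    have hub : ∀ (x : F) (m : M), m ∈ Wp F M ⊔ Wm F M → ub x • m ∈ Wp F M ⊔ Wm F M := by
      intro x m hm
      have e : ub x • m = m + dY x m := by unfold dY; abel
      rw [e]
      exact (Wp F M ⊔ Wm F M).add_mem hm ((le_sup_right : Wm F M ≤ Wp F M ⊔ Wm F M) (hqm x m))
    have hN : ∀ (g : SL2 F), (∀ m ∈ Wp F M ⊔ Wm F M, g • m ∈ Wp F M ⊔ Wm F M) ∧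
        (∀ m ∈ Wp F M ⊔ Wm F M, g⁻¹ • m ∈ Wp F M ⊔ Wm F M) := by
      intro g
      have hg := hGen F g
      induction hg using Subgroup.closure_induction with
      | mem y hy =>
        rcases hy with ⟨x, rfl⟩ | ⟨x, rfl⟩
        · refine ⟨fun m hm => hua x m hm, fun m hm => ?_⟩
          rw [ua_inv]
          exact hua (-x) m hm
        · refine ⟨fun m hm => hub x m hm, fun m hm => ?_⟩
          rw [ub_inv]
          exact hub (-x) m hm
      | one =>
        refine ⟨fun m hm => ?_, fun m hm => ?_⟩
        · rw [one_smul]; exact hm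
        · rw [inv_one, one_smul]; exact hm
      | mul a b _ _ ha hb =>
        refine ⟨fun m hm => ?_, fun m hm => ?_⟩
        · rw [mul_smul]; exact ha.1 _ (hb.1 m hm)
        · rw [mul_inv_rev, mul_smul]; exact hb.2 _ (ha.2 m hm)
      | inv a _ ha =>
        refine ⟨ha.2, ?_⟩
        rw [inv_inv]
        exact ha.1
    rcases hirr (Wp F M ⊔ Wm F M) (fun g => (hN g).1) with h | h
    · exfalso
      have hWp : Wp F M = ⊥ := by
        rw [eq_bot_iff, ← h]
        exact le_sup_left
      have hall : ∀ m : M, m ∈ Wp F M := by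
        intro m x
        have h1 : dX x m ∈ Wp F M := hq x m
        rw [hWp, AddSubgroup.mem_bot] at h1
        unfold dX at h1
        exact sub_eq_zero.1 h1
      obtain ⟨g, m, hgm⟩ := hnt
      have hm0 : m = 0 := by
        have := hall m
        rw [hWp, AddSubgroup.mem_bot] at this
        exact this
      rw [hm0, smul_zero] at hgm
      exact hgm rfl
    · exact h

end Cfsg.Agent.Lib.Helper72.NatDECQ
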