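import Mathlib
import Cfsg.Agent.Lib.Helper24.NatStmt

/-!
Piece [NAT1] of S3009: the Weyl elements on `Wp ⊕ Wm`.
-/

set_option autoImplicit false

namespace Cfsg.Agent.Lib.Helper72.NatNAT1

open Cfsg.Agent.Lib.Helper24.NatStmt

universe u

variable {F : Type} [Field F] {M : Type u} [AddCommGroup M] [DistribMulAction (SL2 F) M]

theorem ua_smul (x : F) (m : M) : ua x • m = m + dX x m := by
  unfold dX
  abel

theorem ub_smul (x : F) (m : M) : ub x • m = m + dY x m := by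
  unfold dY
  abel

theorem dX_of_mem {m : M} (hm : m ∈ Wp F M) (x : F) : dX x m = 0 := by
  unfold dX
  rw [hm x, sub_self]

theorem dY_of_mem {m : M} (hm : m ∈ Wm F M) (x : F) : dY x m = 0 := by
  unfold dY
  rw [hm x, sub_self]

theorem dX_add (x : F) (a b : M) : dX x (a + b) = dX x a + dX x b := by
  unfold dX
  rw [smul_add]
  abel

theorem dY_add (x : F) (a b : M) : dY x (a + b) = dY x a + dY x b := by
  unfold dY
  rw [smul_add]
  abel

theorem dX_neg (x : F) (a : M) : dX x (-a) = - dX x a := by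
  unfold dX
  rw [smul_neg]
  abel

theorem dY_neg (x : F) (a : M) : dY x (-a) = - dY x a := by
  unfold dY
  rw [smul_neg]
  abel

theorem dX_zero_right (x : F) : dX x (0 : M) = 0 := by
  unfold dX
  rw [smul_zero, sub_zero]

theorem dY_zero_right (x : F) : dY x (0 : M) = 0 := by
  unfold dY
  rw [smul_zero, sub_zero]

theorem dX_zero_left (m : M) : dX (0 : F) m = 0 := by
  unfold dX
  rw [ua_zero, one_smul, sub_self]

theorem dY_zero_left (m : M) : dY (0 : F) m = 0 := by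
  unfold dY
  rw [ub_zero, one_smul, sub_self]

theorem uw_smul_mem_Wm {x : F} (hx : x ≠ 0) {m : M} (hm : m ∈ Wp F M) : uw x • m ∈ Wm F M := by
  intro y
  have e : ub y * uw x = uw x * ua (-(y * x ^ 2)) := by
    rw [uw_mul_ua hx]
    congr 2
    field_simp
  rw [← mul_smul, e, mul_smul, hm _]

theorem uw_smul_mem_Wp {x : F} (hx : x ≠ 0) {m : M} (hm : m ∈ Wm F M) : uw x • m ∈ Wp F M := by
  intro y
  have e : ua y * uw x = uw x * ub (-(y / x ^ 2)) := by
    rw [uw_mul_ub hx]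
    congr 2
    field_simp
  rw [← mul_smul, e, mul_smul, hm _]

theorem main : Cfsg.Agent.Lib.Helper24.NatStmt.Nat1.{u} := by
  intro F _ M _ _ hdec hq hqm x hx
  have key1 : ∀ m ∈ Wp F M, dX x (dY (-x⁻¹) m) = -m ∧ uw x • m = dY (-x⁻¹) m := by
    intro m hm
    have h1 : uw x • m = (m + dX x (dY (-x⁻¹) m)) + dY (-x⁻¹) m := by
      unfold uw
      rw [mul_smul, mul_smul, hm x, ub_smul, smul_add, hm x, ua_smul]
      abel
    have hA : m + dX x (dY (-x⁻¹) m) ∈ Wp F M := (Wp F M).add_mem hm (hq _ _)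
    have hB : dY (-x⁻¹) m ∈ Wm F M := hqm _ _
    have hW : uw x • m ∈ Wm F M := uw_smul_mem_Wm hx hm
    have hA' : m + dX x (dY (-x⁻¹) m) ∈ Wm F M := by
      have e : m + dX x (dY (-x⁻¹) m) = uw x • m - dY (-x⁻¹) m := by
        rw [h1]
        abel
      rw [e]
      exact (Wm F M).sub_mem hW hB
    have h0 : m + dX x (dY (-x⁻¹) m) = 0 := by
      have h2 : m + dX x (dY (-x⁻¹) m) ∈ Wp F M ⊓ Wm F M := AddSubgroup.mem_inf.2 ⟨hA, hA'⟩
      rw [hdec.1] at h2
      exact AddSubgroup.mem_bot.1 h2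
    refine ⟨?_, ?_⟩
    · exact eq_neg_of_add_eq_zero_right h0
    · rw [h1, h0, zero_add]
  have key2 : ∀ m ∈ Wm F M, dY (-x⁻¹) (dX x m) = -m ∧ uw x • m = dX x m := by
    intro m hm
    have hXm : dX x m ∈ Wp F M := hq _ _
    have hYX : dY (-x⁻¹) (dX x m) ∈ Wm F M := hqm _ _
    have hXYX : dX x (dY (-x⁻¹) (dX x m)) = - dX x m := (key1 _ hXm).1
    have h1 : uw x • m = (m + dY (-x⁻¹) (dX x m)) + dX x m := by
      unfold uw
      rw [mul_smul, mul_smul, ua_smul x m, smul_add, hm (-x⁻¹), ub_smul _ (dX x m), smul_add,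
        smul_add, ua_smul x m, hXm x, ua_smul x (dY (-x⁻¹) (dX x m)), hXYX]
      abel
    have hA : m + dY (-x⁻¹) (dX x m) ∈ Wm F M := (Wm F M).add_mem hm hYX
    have hW : uw x • m ∈ Wp F M := uw_smul_mem_Wp hx hm
    have hA' : m + dY (-x⁻¹) (dX x m) ∈ Wp F M := by
      have e : m + dY (-x⁻¹) (dX x m) = uw x • m - dX x m := by
        rw [h1]
        abel
      rw [e]
      exact (Wp F M).sub_mem hW hXm
    have h0 : m + dY (-x⁻¹) (dX x m) = 0 := by
      have h2 : m + dY (-x⁻¹) (dX x m) ∈ Wp F M ⊓ Wm F M := AddSubgroup.mem_inf.2 ⟨hA', hA⟩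
      rw [hdec.1] at h2
      exact AddSubgroup.mem_bot.1 h2
    refine ⟨?_, ?_⟩
    · exact eq_neg_of_add_eq_zero_right h0
    · rw [h1, h0, zero_add]
  exact ⟨fun m hm => (key1 m hm).1, fun m hm => (key2 m hm).1, fun m hm => (key1 m hm).2,
    fun m hm => (key2 m hm).2⟩

end Cfsg.Agent.Lib.Helper72.NatNAT1
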