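import Mathlib
import Cfsg.Agent.Lib.Helper24.NatStmt
import Cfsg.Agent.Lib.Helper72.NatNAT1

/-!
Piece [NAT2] of S3009: `phi` is a ring homomorphism `F → End(Wp)` and `dY x = theta ∘ phi x`
on `Wp`.
-/

set_option autoImplicit false

namespace Cfsg.Agent.Lib.Helper72.NatNAT2

open Cfsg.Agent.Lib.Helper24.NatStmt Cfsg.Agent.Lib.Helper72.NatNAT1

universe u

theorem main : Cfsg.Agent.Lib.Helper24.NatStmt.Nat2.{u} := by
  intro F _ M _ _ hdec hq hqm h1
  have hN1 := h1 1 one_ne_zero
  rw [inv_one] at hN1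
  obtain ⟨a1, a2, a3, a4⟩ := hN1
  have hthetaWm : ∀ m : M, theta F m ∈ Wm F M := fun m => (Wm F M).neg_mem (hqm _ _)
  have hphiWp : ∀ (x : F) (m : M), phi x m ∈ Wp F M := fun x m => (Wp F M).neg_mem (hq _ _)
  have hphi0 : ∀ m : M, phi (0 : F) m = 0 := by
    intro m
    unfold phi
    rw [dX_zero_left, neg_zero]
  -- `theta m = (uw 1)⁻¹ • m` on `Wp`
  have htheta : ∀ m ∈ Wp F M, theta F m = (uw (1 : F))⁻¹ • m := by
    intro m hm
    have hY : dY (-1 : F) m ∈ Wm F M := hqm _ _
    have e : uw (1 : F) • theta F m = m := by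
      unfold theta
      rw [smul_neg, a4 _ hY, a1 m hm, neg_neg]
    calc theta F m = (uw (1 : F))⁻¹ • (uw (1 : F) • theta F m) := (inv_smul_smul _ _).symm
      _ = (uw (1 : F))⁻¹ • m := by rw [e]
  -- `uh x • m = phi x m` on `Wp`
  have huh : ∀ x : F, x ≠ 0 → ∀ m ∈ Wp F M, uh x • m = phi x m := by
    intro x hx m hm
    have e4 := (h1 x hx).2.2.2 (theta F m) (hthetaWm m)
    unfold uh
    rw [mul_smul, ← htheta m hm, e4]
    unfold theta phi
    rw [dX_neg]
  refine ⟨?_, ?_, ?_, ?_⟩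
  · intro m hm
    unfold phi
    rw [a1 m hm, neg_neg]
  · intro x y m hm
    have hadd : ∀ n : M, dX (x + y) n = dX x n + dX y n := by
      intro n
      have h2 : ua x • dX y n = dX y n := hq y n x
      unfold dX at h2 ⊢
      rw [ua_add, mul_smul]
      have e : ua x • ua y • n = ua x • (ua y • n - n) + ua x • n := by
        rw [← smul_add, sub_add_cancel]
      rw [e, h2]
      abel
    unfold phi
    rw [hadd, neg_add]
  · intro x y m hm
    by_cases hx : x = 0
    · rw [hx, zero_mul, hphi0, hphi0]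
    by_cases hy : y = 0
    · rw [hy, mul_zero, hphi0]
      unfold phi
      rw [dY_zero_right, dX_zero_right, neg_zero]
    rw [← huh (x * y) (mul_ne_zero hx hy) m hm, uh_mul hx hy, mul_smul, huh y hy m hm,
      huh x hx _ (hphiWp y m)]
  · intro x m hm
    by_cases hx : x = 0
    · rw [hx, dY_zero_left, hphi0]
      unfold theta
      rw [dY_zero_right, neg_zero]
    · have hz : -x⁻¹ ≠ 0 := neg_ne_zero.2 (inv_ne_zero hx)
      have e3 := (h1 (-x⁻¹) hz).2.2.1 m hm
      have ez : -(-x⁻¹)⁻¹ = x := by rw [inv_neg, inv_inv, neg_neg]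
      rw [ez] at e3
      have emat : (uw (1 : F))⁻¹ * uh x = uw (-x⁻¹) := by
        rw [inv_mul_eq_iff_eq_mul]
        apply Subtype.ext
        rw [Matrix.SpecialLinearGroup.coe_mul, uh_coe hx, uw_coe one_ne_zero, uw_coe hz]
        ext i j
        fin_cases i <;> fin_cases j <;> simp [Matrix.mul_apply, Fin.sum_univ_two]
      rw [← e3, ← emat, mul_smul, huh x hx m hm, htheta _ (hphiWp x m)]

end Cfsg.Agent.Lib.Helper72.NatNAT2
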