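import Mathlib
import Cfsg.Agent.Lib.Helper17.CentFix
import Cfsg.Agent.Lib.Helper17.FixedPoints
import Cfsg.Agent.Lib.Helper17.FixCount
import Cfsg.Agent.Lib.Helper58.Kazarin

/-!
# Small counting tools for "no simple group of order n" arguments (helper72)
-/

set_option autoImplicit false

namespace Cfsg.Agent.Lib.Helper72.OrdTools

open Subgroup MulAction
open Cfsg.Agent.Lib.Helper17.Sylow Cfsg.Agent.Lib.Helper17.Sylow2
open Cfsg.Agent.Lib.Helper17.FixedPoints

variable {G : Type*} [Group G] [Finite G]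

/-- If `P ≤ C` is centralized by `C` and `|P|` is coprime to `m`, then the number of
solutions of `s ^ m = 1` in `C`, times `|P|`, is at most `|C|`. -/
theorem ncard_pow_eq_one_mul_le (C P : Subgroup G) (hPC : P ≤ C)
    (hcent : ∀ s ∈ C, ∀ x ∈ P, s * x = x * s) (m : ℕ) (hm : (Nat.card P).Coprime m) :
    {s : G | s ∈ C ∧ s ^ m = 1}.ncard * Nat.card P ≤ Nat.card C := by
  classical
  have hinj : Function.Injective
      (fun z : {s : G | s ∈ C ∧ s ^ m = 1} × P =>
        (⟨(z.1 : G) * (z.2 : G), C.mul_mem z.1.2.1 (hPC z.2.2)⟩ : C)) := by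
    rintro ⟨⟨s, hs, hsm⟩, ⟨x, hx⟩⟩ ⟨⟨s', hs', hsm'⟩, ⟨x', hx'⟩⟩ h
    have h1 : s * x = s' * x' := congrArg Subtype.val h
    have hzP : x' * x⁻¹ ∈ P := P.mul_mem hx' (P.inv_mem hx)
    have hs_eq : s = s' * (x' * x⁻¹) := by
      rw [← mul_assoc, ← h1, mul_assoc, mul_inv_cancel, mul_one]
    have hcomm : Commute s' (x' * x⁻¹) := hcent s' hs' _ hzP
    have hzm : (x' * x⁻¹) ^ m = 1 := by
      have h2 := hsm
      rw [hs_eq, hcomm.mul_pow, hsm', one_mul] at h2
      exact h2
    have hz1 : x' * x⁻¹ = 1 := by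
      have h2 := orderOf_dvd_of_pow_eq_one hzm
      have h3 : orderOf (x' * x⁻¹) ∣ Nat.card P := orderOf_dvd_card_of_mem hzP
      have h4 := Nat.dvd_gcd h3 h2
      rw [Nat.Coprime] at hm
      rw [hm] at h4
      exact orderOf_eq_one_iff.mp (Nat.dvd_one.mp h4)
    have hxx : x' = x := by rwa [mul_inv_eq_one] at hz1
    have hss : s = s' := by rw [hs_eq, hz1, mul_one]
    subst hxx
    subst hss
    rfl
  have h5 := Nat.card_le_card_of_injective _ hinj
  rw [Nat.card_prod, Nat.card_coe_set_eq] at h5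
  exact h5

/-- `s ^ |N(H) : C(H)| ∈ C(H)` for `s ∈ N(H)`. -/
theorem pow_mem_centralizer (H : Subgroup G) (r : ℕ)
    (hr : Nat.card (centralizer (H : Set G)) * r = Nat.card (normalizer (H : Set G)))
    (s : G) (hs : s ∈ normalizer (H : Set G)) : s ^ r ∈ centralizer (H : Set G) := by
  have h1 := card_mul_relIndex (centralizer_le_normalizer (H : Set G))
  have hrel : (centralizer (H : Set G)).relIndex (normalizer (H : Set G)) = r := by
    have hpos : 0 < Nat.card (centralizer (H : Set G)) := Nat.card_pos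
    rw [← hr] at h1
    exact Nat.eq_of_mul_eq_mul_left hpos h1
  have h2 := Subgroup.pow_index_mem
    ((centralizer (H : Set G)).subgroupOf (normalizer (H : Set G))) ⟨s, hs⟩
  rw [← hrel]
  rw [Subgroup.mem_subgroupOf] at h2
  simpa [Subgroup.relIndex] using h2

/-- The conjugates of `u` (of order `m`) inside `N(H)` all lie in `C(H)` when `|N(H):C(H)| = r`
is invertible mod `m`; so their number is less than the number of solutions of `s ^ m = 1` in
`C(H)`. -/
theorem ncard_conj_add_one_le (H : Subgroup G) (u : G) (m r a : ℕ) (hu : orderOf u = m)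
    (hm : 1 < m)
    (hr : Nat.card (centralizer (H : Set G)) * r = Nat.card (normalizer (H : Set G)))
    (ha : r * a % m = 1) :
    {s : G | s ∈ normalizer (H : Set G) ∧ ∃ g : G, g * u * g⁻¹ = s}.ncard + 1
      ≤ {s : G | s ∈ centralizer (H : Set G) ∧ s ^ m = 1}.ncard := by
  classical
  have hB1 : (1 : G) ∈ {s : G | s ∈ centralizer (H : Set G) ∧ s ^ m = 1} :=
    ⟨one_mem _, one_pow m⟩
  have hAB : {s : G | s ∈ normalizer (H : Set G) ∧ ∃ g : G, g * u * g⁻¹ = s}
      ⊆ {s : G | s ∈ centralizer (H : Set G) ∧ s ^ m = 1} \ {1} := by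
    rintro s ⟨hsN, g, rfl⟩
    have hpow : (g * u * g⁻¹) ^ m = 1 := by
      rw [conj_pow, ← hu, pow_orderOf_eq_one, mul_one, mul_inv_cancel]
    refine ⟨⟨?_, hpow⟩, ?_⟩
    · have h1 := pow_mem_centralizer H r hr _ hsN
      have h2 : (g * u * g⁻¹) ^ (r * a) = g * u * g⁻¹ := by
        have h3 : r * a = m * (r * a / m) + 1 := by
          have := Nat.div_add_mod (r * a) m
          omega
        rw [h3, pow_succ, pow_mul, hpow, one_pow, one_mul]
      rw [← h2, pow_mul]
      exact pow_mem h1 a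
    · intro h1
      rw [Set.mem_singleton_iff] at h1
      have h2 : u = 1 := by
        have h3 := congrArg (fun x => g⁻¹ * x * g) h1
        simpa [mul_assoc] using h3
      rw [h2, orderOf_one] at hu
      omega
  have h1 := Set.ncard_le_ncard hAB (Set.toFinite _)
  have h2 := Set.ncard_sdiff_singleton_add_one hB1
    (Set.toFinite {s : G | s ∈ centralizer (H : Set G) ∧ s ^ m = 1})
  omega

/-- Kazarin: in a non-commutative simple group no nonidentity element has a conjugacy class of
prime power size. -/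
theorem false_of_index_prime_pow [IsSimpleGroup G] (hG : ¬ IsMulCommutative G) (p : ℕ)
    (hp : p.Prime) (x : G) (hx1 : x ≠ 1) (a : ℕ)
    (hidx : (centralizer ({x} : Set G)).index = p ^ a) : False := by
  have hsol := Cfsg.Agent.Lib.Helper58.Kazarin.solvable_of_index p hp (orderOf x) x a rfl hidx
  have htop : normalClosure ({x} : Set G) = ⊤ := by
    rcases (normalClosure_normal (s := ({x} : Set G))).eq_bot_or_eq_top with hb | ht
    · exfalso
      have h1 : x ∈ normalClosure ({x} : Set G) := subset_normalClosure (Set.mem_singleton x)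
      rw [hb, mem_bot] at h1
      exact hx1 h1
    · exact ht
  rw [htop] at hsol
  have hsolG : Group.IsSolvable G := by
    haveI := hsol
    exact Group.isSolvable_of_surjective (f := (⊤ : Subgroup G).subtype)
      (fun g => ⟨⟨g, mem_top g⟩, rfl⟩)
  exact hG (isMulCommutative_iff.mpr (IsSimpleGroup.comm_iff_isSolvable.mpr hsolG))

omit [Finite G] in
/-- `C_G(⟨u⟩) = C_G(u)`. -/
theorem centralizer_zpowers (u : G) :
    centralizer ((zpowers u : Subgroup G) : Set G) = centralizer ({u} : Set G) := by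
  ext x
  rw [mem_centralizer_iff, mem_centralizer_iff]
  constructor
  · intro h y hy
    rw [Set.mem_singleton_iff] at hy
    subst hy
    exact h y (mem_zpowers y)
  · intro h y hy
    obtain ⟨k, rfl⟩ := Subgroup.mem_zpowers_iff.mp hy
    have hc : Commute u x := h u (Set.mem_singleton u)
    exact (hc.zpow_left k).eq

omit [Finite G] in
/-- An involution of `N(P) \ C(P)` inverts a generator of `P` (`|P| = p` prime). -/
theorem invol_inverts {p : ℕ} [Fact p.Prime] (P : Subgroup G) (x₀ : G)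
    (hx₀ : zpowers x₀ = P) (ho : orderOf x₀ = p) (s : G)
    (hs : s ∈ normalizer (P : Set G)) (hs2 : s * s = 1)
    (hsC : s ∉ centralizer (P : Set G)) : s * x₀ * s⁻¹ = x₀⁻¹ := by
  have hp : p.Prime := Fact.out
  have hsinv : s⁻¹ = s := inv_eq_of_mul_eq_one_left hs2
  have hmem : s * x₀ * s⁻¹ ∈ zpowers x₀ := by
    rw [hx₀]
    exact (mem_normalizer_iff.mp hs x₀).mp (by rw [← hx₀]; exact mem_zpowers x₀)
  obtain ⟨j, hj⟩ := Subgroup.mem_zpowers_iff.mp hmem
  have h1 : s * (s * x₀ * s⁻¹) * s⁻¹ = x₀ := by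
    rw [hsinv]
    calc s * (s * x₀ * s) * s = (s * s) * x₀ * (s * s) := by group
      _ = x₀ := by rw [hs2, one_mul, mul_one]
  have h2 : s * (x₀ ^ j) * s⁻¹ = (s * x₀ * s⁻¹) ^ j := by
    rw [conj_zpow]
  have h3 : x₀ ^ (j * j) = x₀ := by
    rw [zpow_mul, hj, ← h2, hj, h1]
  have h4 : x₀ ^ (j * j - 1) = 1 := by
    rw [zpow_sub, h3, zpow_one, mul_inv_cancel]
  have h5 : (p : ℤ) ∣ j * j - 1 := by
    rw [← ho]
    exact orderOf_dvd_iff_zpow_eq_one.mpr h4
  have h6 : (p : ℤ) ∣ (j - 1) * (j + 1) := by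
    have : (j - 1) * (j + 1) = j * j - 1 := by ring
    rw [this]
    exact h5
  have hpp : Prime (p : ℤ) := Nat.prime_iff_prime_int.mp hp
  rcases hpp.dvd_or_dvd h6 with h7 | h7
  · exfalso
    apply hsC
    have h8 : x₀ ^ (j - 1) = 1 := by
      rw [← ho] at h7
      exact orderOf_dvd_iff_zpow_eq_one.mp h7
    have h9 : x₀ ^ j = x₀ := by
      have : j = (j - 1) + 1 := by ring
      rw [this, zpow_add, h8, one_mul, zpow_one]
    rw [h9] at hj
    have hc : Commute s x₀ := by
      have : s * x₀ = x₀ * s := by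
        have h10 := congrArg (fun y => y * s) hj
        simp only [inv_mul_cancel_right] at h10
        exact h10.symm
      exact this
    rw [mem_centralizer_iff]
    intro y hy
    rw [SetLike.mem_coe, ← hx₀] at hy
    obtain ⟨k, rfl⟩ := Subgroup.mem_zpowers_iff.mp hy
    exact ((hc.zpow_right k).eq).symm
  · have h8 : x₀ ^ (j + 1) = 1 := by
      rw [← ho] at h7
      exact orderOf_dvd_iff_zpow_eq_one.mp h7
    have h9 : x₀ ^ j = x₀⁻¹ := by
      have : j = (j + 1) + (-1) := by ring
      rw [this, zpow_add, h8, one_mul, zpow_neg, zpow_one]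
    rw [← hj, h9]

/-- Two involutions of `N(P) \ C(P)` have product in `C(P)` (`|P| = p` prime). -/
theorem invol_mul_mem {p : ℕ} [Fact p.Prime] (P : Subgroup G) (hP : Nat.card P = p) (s s' : G)
    (hs : s ∈ normalizer (P : Set G)) (hs2 : s * s = 1) (hsC : s ∉ centralizer (P : Set G))
    (hs' : s' ∈ normalizer (P : Set G)) (hs2' : s' * s' = 1)
    (hsC' : s' ∉ centralizer (P : Set G)) : s * s' ∈ centralizer (P : Set G) := by
  have hp : p.Prime := Fact.out
  obtain ⟨x₀, hx₀P, ho⟩ := exists_mem_orderOf_eq_prime P p (by rw [hP])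
  have hx₀ : zpowers x₀ = P := by
    apply Subgroup.eq_of_le_of_card_ge (zpowers_le.mpr hx₀P)
    rw [Nat.card_zpowers, ho, hP]
  have h1 := invol_inverts P x₀ hx₀ ho s hs hs2 hsC
  have h2 := invol_inverts P x₀ hx₀ ho s' hs' hs2' hsC'
  have h3 : (s * s') * x₀ * (s * s')⁻¹ = x₀ := by
    calc (s * s') * x₀ * (s * s')⁻¹ = s * (s' * x₀ * s'⁻¹) * s⁻¹ := by group
      _ = s * x₀⁻¹ * s⁻¹ := by rw [h2]
      _ = (s * x₀ * s⁻¹)⁻¹ := by group
      _ = x₀ := by rw [h1, inv_inv]
  have hc : Commute (s * s') x₀ := by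
    have h4 := congrArg (fun y => y * (s * s')) h3
    simp only [inv_mul_cancel_right] at h4
    exact h4
  rw [mem_centralizer_iff]
  intro y hy
  rw [SetLike.mem_coe, ← hx₀] at hy
  obtain ⟨k, rfl⟩ := Subgroup.mem_zpowers_iff.mp hy
  exact ((hc.zpow_right k).eq).symm

/-- The involutions of `N(P)` outside `C(P)` lie in one coset of `C(P)`. -/
theorem ncard_invol_le {p : ℕ} [Fact p.Prime] (P : Subgroup G) (hP : Nat.card P = p) :
    {s : G | s ∈ normalizer (P : Set G) ∧ s ∉ centralizer (P : Set G) ∧ s * s = 1}.ncard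
      ≤ Nat.card (centralizer (P : Set G)) := by
  classical
  rcases Set.eq_empty_or_nonempty
    {s : G | s ∈ normalizer (P : Set G) ∧ s ∉ centralizer (P : Set G) ∧ s * s = 1} with h0 | h0
  · rw [h0, Set.ncard_empty]
    exact Nat.zero_le _
  · obtain ⟨s₀, hs₀N, hs₀C, hs₀2⟩ := h0
    have hinj : Function.Injective
        (fun s : {s : G | s ∈ normalizer (P : Set G) ∧ s ∉ centralizer (P : Set G) ∧ s * s = 1} =>
          (⟨s₀ * (s : G), invol_mul_mem P hP s₀ s hs₀N hs₀2 hs₀C s.2.1 s.2.2.2 s.2.2.1⟩ :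
            centralizer (P : Set G))) := by
      intro s s' h
      have h1 : s₀ * (s : G) = s₀ * (s' : G) := congrArg Subtype.val h
      exact Subtype.ext (mul_left_cancel h1)
    have h5 := Nat.card_le_card_of_injective _ hinj
    rw [Nat.card_coe_set_eq] at h5
    exact h5

end Cfsg.Agent.Lib.Helper72.OrdTools
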