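import Mathlib
import Cfsg.Agent.Lib.Helper72.OrdTools

set_option autoImplicit false

namespace Cfsg.Agent.Lib.Helper72.O4200

open Subgroup MulAction
open Cfsg.Agent.Lib.Helper17.Sylow Cfsg.Agent.Lib.Helper17.Sylow2
open Cfsg.Agent.Lib.Helper17.CentFix Cfsg.Agent.Lib.Helper17.Commuting
open Cfsg.Agent.Lib.Helper17.FixCount Cfsg.Agent.Lib.Helper17.FixedPoints
open Cfsg.Agent.Lib.Helper72.OrdTools

theorem key7 : ∀ n ∈ Nat.divisors 600, n % 7 = 1 → n ≠ 1 →
    n = 8 ∨ n = 15 ∨ n = 50 ∨ n = 120 := by
  decide +kernel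

theorem keyr6 : ∀ r ∈ Nat.divisors 6, r = 1 ∨ r = 2 ∨ r = 3 ∨ r = 6 := by
  decide

theorem keyA : ∀ z ∈ Nat.divisors 2100, ∀ k ∈ Finset.range 6, ∀ F ∈ ({8, 29} : Finset ℕ),
    84 * F ≠ z * k := by
  decide +kernel

theorem keyB : ∀ z ∈ Nat.divisors 4200, ∀ k ∈ Finset.range 4, 84 * 22 ≠ z * k := by
  decide +kernel

theorem keyC : ∀ z ∈ Nat.divisors 4200, ∀ k ∈ Finset.range 16, 84 * 22 = z * k → z = 168 := by
  decide +kernel

/-- The conjugates of an involution `t` inside `N(P)` (`|P| = p` prime): those in `C(P)` are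
involutions of `C(P)`, the others lie in one coset of `C(P)`. -/
theorem ncard_conj_invol_le {G : Type*} [Group G] [Finite G] {p : ℕ} [Fact p.Prime]
    (P : Subgroup G) (hP : Nat.card P = p) (t : G) (ht : orderOf t = 2) :
    {s : G | s ∈ normalizer (P : Set G) ∧ ∃ g : G, g * t * g⁻¹ = s}.ncard + 1
      ≤ {s : G | s ∈ centralizer (P : Set G) ∧ s ^ 2 = 1}.ncard
        + Nat.card (centralizer (P : Set G)) := by
  classical
  have ht2 : t ^ 2 = 1 := by rw [← ht]; exact pow_orderOf_eq_one t
  have ht1 : t ≠ 1 := by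
    rintro rfl
    rw [orderOf_one] at ht
    omega
  have hB1 : (1 : G) ∈ {s : G | s ∈ centralizer (P : Set G) ∧ s ^ 2 = 1} :=
    ⟨one_mem _, one_pow 2⟩
  have hsub : {s : G | s ∈ normalizer (P : Set G) ∧ ∃ g : G, g * t * g⁻¹ = s}
      ⊆ ({s : G | s ∈ centralizer (P : Set G) ∧ s ^ 2 = 1} \ {1})
        ∪ {s : G | s ∈ normalizer (P : Set G) ∧ s ∉ centralizer (P : Set G) ∧ s * s = 1} := by
    rintro s ⟨hsN, g, rfl⟩
    have hpow : (g * t * g⁻¹) ^ 2 = 1 := by
      rw [conj_pow, ht2, mul_one, mul_inv_cancel]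
    have hne : g * t * g⁻¹ ≠ 1 := by
      intro h1
      apply ht1
      have h3 := congrArg (fun x => g⁻¹ * x * g) h1
      simpa [mul_assoc] using h3
    by_cases hsC : g * t * g⁻¹ ∈ centralizer (P : Set G)
    · left
      exact ⟨⟨hsC, hpow⟩, hne⟩
    · right
      refine ⟨hsN, hsC, ?_⟩
      rw [← pow_two]
      exact hpow
  have h1 := Set.ncard_le_ncard hsub (Set.toFinite _)
  have h2 := Set.ncard_union_le
    ({s : G | s ∈ centralizer (P : Set G) ∧ s ^ 2 = 1} \ {1})
    {s : G | s ∈ normalizer (P : Set G) ∧ s ∉ centralizer (P : Set G) ∧ s * s = 1}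
  have h3 := Set.ncard_sdiff_singleton_add_one hB1
    (Set.toFinite {s : G | s ∈ centralizer (P : Set G) ∧ s ^ 2 = 1})
  have h4 := ncard_invol_le P hP
  omega

/-- No finite simple group has order 4200 = 2^3 * 3 * 5^2 * 7. -/
theorem no_simple {G : Type*} [Group G] [Finite G] [IsSimpleGroup G] : Nat.card G ≠ 4200 := by
  intro h
  have hG : ¬ IsMulCommutative G := not_comm_of_not_prime (by rw [h]; norm_num)
  have : Fact (Nat.Prime 7) := ⟨by norm_num⟩
  have : Fact (Nat.Prime 5) := ⟨by norm_num⟩
  have : Fact (Nat.Prime 3) := ⟨by norm_num⟩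
  have : Fact (Nat.Prime 2) := ⟨by norm_num⟩
  have h7 : 7 ∣ Nat.card G := by rw [h]; norm_num
  have hd : Nat.card (Sylow 7 G) ∣ 600 :=
    card_sylow_dvd (k := 1) (h.trans (by norm_num)) (by norm_num)
  have hm := card_sylow_mod (G := G) 7
  have hne := card_sylow_ne_one hG h7
  have hfac := two_mul_card_dvd_factorial_card_sylow hG h7
  obtain ⟨P⟩ : Nonempty (Sylow 7 G) := inferInstance
  have hP : Nat.card (P : Subgroup G) = 7 := by
    simpa using card_sylow_subgroup (k := 1) (m := 600) (h.trans (by norm_num)) (by norm_num) P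
  have hNn := card_normalizer_mul_card_sylow P
  rw [h] at hNn
  have hidx : (normalizer ((P : Subgroup G) : Set G)).index = Nat.card (Sylow 7 G) :=
    (P.card_eq_index_normalizer).symm
  obtain ⟨r, hr1, hr6, hCr, hC7⟩ := sylow_prime_centralizer hG P hP
  have hr := keyr6 r (Nat.mem_divisors.mpr ⟨hr6, by norm_num⟩)
  obtain ⟨c, hc⟩ := hC7
  have hntop := normalizer_sylow_ne_top hG h7 P
  have hcentP : ∀ s ∈ centralizer ((P : Subgroup G) : Set G), ∀ x ∈ (P : Subgroup G),
      s * x = x * s := fun s hs x hx => ((mem_centralizer_iff.mp hs) x hx).symm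
  have hPC := le_centralizer_of_card_prime (P : Subgroup G) hP
  rcases key7 _ (Nat.mem_divisors.mpr ⟨hd, by norm_num⟩) hm hne with hn | hn | hn | hn
  · -- n = 8
    rw [hn, h] at hfac
    revert hfac
    decide
  · -- n = 15, |N| = 280, |C| = 140
    rw [hn] at hNn
    have hC5 : 5 ∣ Nat.card (centralizer ((P : Subgroup G) : Set G)) := by
      rcases hr with rfl | rfl | rfl | rfl <;> omega
    obtain ⟨u, huC, hu⟩ :=
      exists_mem_orderOf_eq_prime (centralizer ((P : Subgroup G) : Set G)) 5 hC5
    have h1 := card_fixedBy_mod_of_mem_centralizer P hP u huC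
    have hu5 : u ^ (5 ^ 1) = 1 := by rw [pow_one, ← hu]; exact pow_orderOf_eq_one u
    have h2 := card_modEq_card_fixedBy
      (X := G ⧸ normalizer ((P : Subgroup G) : Set G)) u hu5
    have hu1 : u ≠ 1 := by
      rintro rfl
      rw [orderOf_one] at hu
      omega
    have h3 := card_fixedBy_lt_index _ hntop u hu1
    have hX : Nat.card (G ⧸ normalizer ((P : Subgroup G) : Set G)) = 15 := hidx.trans hn
    rw [hidx, hn] at h3
    rw [hX, Nat.ModEq] at h2
    omega
  · -- n = 50, |N| = 84
    rw [hn] at hNn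
    have hN : Nat.card (normalizer ((P : Subgroup G) : Set G)) = 84 := by omega
    have hX : Nat.card (G ⧸ normalizer ((P : Subgroup G) : Set G)) = 50 := hidx.trans hn
    rcases hr with rfl | rfl | rfl | rfl
    · exact hr1 rfl
    · -- r = 2, |C| = 42: element of order 3
      have hC : Nat.card (centralizer ((P : Subgroup G) : Set G)) = 42 := by omega
      obtain ⟨u, huC, hu⟩ :=
        exists_mem_orderOf_eq_prime (centralizer ((P : Subgroup G) : Set G)) 3
          (by rw [hC]; norm_num)
      have h1 := card_fixedBy_mod_of_mem_centralizer P hP u huC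
      have hu3 : u ^ (3 ^ 1) = 1 := by rw [pow_one, ← hu]; exact pow_orderOf_eq_one u
      have h2 := card_modEq_card_fixedBy
        (X := G ⧸ normalizer ((P : Subgroup G) : Set G)) u hu3
      have hu1 : u ≠ 1 := by
        rintro rfl
        rw [orderOf_one] at hu
        omega
      have h3 := card_fixedBy_lt_index _ hntop u hu1
      rw [hidx, hn] at h3
      rw [hX, Nat.ModEq] at h2
      have hfc := card_mul_card_fixedBy (normalizer ((P : Subgroup G) : Set G)) u
      rw [hN] at hfc
      have hk := ncard_conj_add_one_le (P : Subgroup G) u 3 2 2 hu (by norm_num) hCr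
        (by norm_num)
      have hB := ncard_pow_eq_one_mul_le (centralizer ((P : Subgroup G) : Set G))
        (P : Subgroup G) hPC hcentP 3 (by rw [hP]; norm_num)
      rw [hP, hC] at hB
      -- the Sylow 3-subgroup generated by u
      obtain ⟨Q0⟩ : Nonempty (Sylow 3 G) := inferInstance
      have hQ0 : Nat.card (Q0 : Subgroup G) = 3 := by
        simpa using card_sylow_subgroup (k := 1) (m := 1400) (h.trans (by norm_num))
          (by norm_num) Q0
      obtain ⟨Q, hQ⟩ := exists_sylow_eq_zpowers Q0 hQ0 u hu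
      have hQc : Nat.card (Q : Subgroup G) = 3 := by rw [hQ, Nat.card_zpowers, hu]
      obtain ⟨r3, hr31, hr32, hCr3, -⟩ := sylow_prime_centralizer hG Q hQc
      have hr3 : r3 = 2 := by
        have h4 : r3 ∣ 2 := hr32
        rcases (Nat.dvd_prime Nat.prime_two).mp h4 with h5 | h5
        · exact absurd h5 hr31
        · exact h5
      subst hr3
      have hNQ : Nat.card (normalizer ((Q : Subgroup G) : Set G)) ∣ 4200 := by
        rw [← h]; exact card_subgroup_dvd_card _
      rw [← hCr3, hQ, centralizer_zpowers] at hNQ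
      have hz : Nat.card (centralizer ({u} : Set G)) ∣ 2100 := by
        obtain ⟨e, he⟩ := hNQ
        refine ⟨e, ?_⟩
        have h6 : 2 * 2100 = 2 * (Nat.card (centralizer ({u} : Set G)) * e) := by
          rw [show 2 * 2100 = 4200 by norm_num, he]
          ring
        exact Nat.eq_of_mul_eq_mul_left (by norm_num) h6
      generalize Nat.card (fixedBy (G ⧸ normalizer ((P : Subgroup G) : Set G)) u) = F at *
      generalize {s : G | s ∈ normalizer ((P : Subgroup G) : Set G) ∧
        ∃ g : G, g * u * g⁻¹ = s}.ncard = k at *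
      generalize {s : G | s ∈ centralizer ((P : Subgroup G) : Set G) ∧ s ^ 3 = 1}.ncard = B at *
      have hk6 : k < 6 := by omega
      have hFv : F = 8 ∨ F = 29 := by omega
      exact keyA _ (Nat.mem_divisors.mpr ⟨hz, by norm_num⟩) k (Finset.mem_range.mpr hk6) F
        (by rcases hFv with rfl | rfl <;> simp) hfc
    · -- r = 3, |C| = 28: involution
      have hC : Nat.card (centralizer ((P : Subgroup G) : Set G)) = 28 := by omega
      obtain ⟨t, htC, ht⟩ :=
        exists_mem_orderOf_eq_prime (centralizer ((P : Subgroup G) : Set G)) 2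
          (by rw [hC]; norm_num)
      obtain ⟨k', hf1, hf2, hf3⟩ := involution_fix_data hG P hP t ht htC
      rw [hidx, hn] at hf2 hf3
      have hfc := card_mul_card_fixedBy (normalizer ((P : Subgroup G) : Set G)) t
      rw [hN] at hfc
      have hk := ncard_conj_add_one_le (P : Subgroup G) t 2 3 1 ht (by norm_num) hCr
        (by norm_num)
      have hB := ncard_pow_eq_one_mul_le (centralizer ((P : Subgroup G) : Set G))
        (P : Subgroup G) hPC hcentP 2 (by rw [hP]; norm_num)
      rw [hP, hC] at hB
      have hz : Nat.card (centralizer ({t} : Set G)) ∣ 4200 := by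
        rw [← h]; exact card_subgroup_dvd_card _
      generalize Nat.card (fixedBy (G ⧸ normalizer ((P : Subgroup G) : Set G)) t) = F at *
      generalize {s : G | s ∈ normalizer ((P : Subgroup G) : Set G) ∧
        ∃ g : G, g * t * g⁻¹ = s}.ncard = k at *
      generalize {s : G | s ∈ centralizer ((P : Subgroup G) : Set G) ∧ s ^ 2 = 1}.ncard = B at *
      have hk4 : k < 4 := by omega
      have hF : F = 22 := by omega
      subst hF
      exact keyB _ (Nat.mem_divisors.mpr ⟨hz, by norm_num⟩) k (Finset.mem_range.mpr hk4) hfc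
    · -- r = 6, |C| = 14: involution, Kazarin
      have hC : Nat.card (centralizer ((P : Subgroup G) : Set G)) = 14 := by omega
      obtain ⟨t, htC, ht⟩ :=
        exists_mem_orderOf_eq_prime (centralizer ((P : Subgroup G) : Set G)) 2
          (by rw [hC]; norm_num)
      have ht1 : t ≠ 1 := by
        rintro rfl
        rw [orderOf_one] at ht
        omega
      obtain ⟨k', hf1, hf2, hf3⟩ := involution_fix_data hG P hP t ht htC
      rw [hidx, hn] at hf2 hf3
      have hfc := card_mul_card_fixedBy (normalizer ((P : Subgroup G) : Set G)) t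
      rw [hN] at hfc
      have hk := ncard_conj_invol_le (P : Subgroup G) hP t ht
      have hB := ncard_pow_eq_one_mul_le (centralizer ((P : Subgroup G) : Set G))
        (P : Subgroup G) hPC hcentP 2 (by rw [hP]; norm_num)
      rw [hP, hC] at hB
      rw [hC] at hk
      have hz : Nat.card (centralizer ({t} : Set G)) ∣ 4200 := by
        rw [← h]; exact card_subgroup_dvd_card _
      have hz168 : Nat.card (centralizer ({t} : Set G)) = 168 := by
        generalize Nat.card (fixedBy (G ⧸ normalizer ((P : Subgroup G) : Set G)) t) = F at *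
        generalize {s : G | s ∈ normalizer ((P : Subgroup G) : Set G) ∧
          ∃ g : G, g * t * g⁻¹ = s}.ncard = k at *
        generalize {s : G | s ∈ centralizer ((P : Subgroup G) : Set G) ∧ s ^ 2 = 1}.ncard
          = B at *
        have hk16 : k < 16 := by omega
        have hF : F = 22 := by omega
        subst hF
        exact keyC _ (Nat.mem_divisors.mpr ⟨hz, by norm_num⟩) k (Finset.mem_range.mpr hk16) hfc
      have hidx25 : (centralizer ({t} : Set G)).index = 5 ^ 2 := by
        have h5 := (centralizer ({t} : Set G)).card_mul_index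
        rw [hz168, h] at h5
        omega
      exact false_of_index_prime_pow hG 5 (by norm_num) t ht1 2 hidx25
  · -- n = 120, |N| = 35
    rw [hn] at hNn
    rcases hr with rfl | rfl | rfl | rfl <;> omega

end Cfsg.Agent.Lib.Helper72.O4200
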