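import Mathlib
import Cfsg.Agent.Lib.Helper17.CentFix
import Cfsg.Agent.Lib.Helper17.FixedPoints
import Cfsg.Agent.Lib.Helper82.DegFive

set_option autoImplicit false

namespace Cfsg.Agent.Lib.Helper72.O4760

open Subgroup MulAction
open Cfsg.Agent.Lib.Helper17.Sylow Cfsg.Agent.Lib.Helper17.Sylow2

theorem key5 : ∀ n ∈ Nat.divisors 952, n % 5 = 1 → n ≠ 1 → n = 56 ∨ n = 136 ∨ n = 476 := by
  decide +kernel

theorem keyr4 : ∀ r ∈ Nat.divisors 4, r = 1 ∨ r = 2 ∨ r = 4 := by
  decide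

theorem keyD : ∀ D ∈ Nat.divisors 4760, ∀ d ∈ Nat.divisors 4760, D ≠ 1 →
    ¬ ((D % 5 = 1 ∧ d = D + 1) ∨ (D % 5 = 4 ∧ D = d + 1)) := by
  decide +kernel

/-- No finite simple group has order 4760 = 2^3 * 5 * 7 * 17. -/
theorem no_simple {G : Type*} [Group G] [Finite G] [IsSimpleGroup G] : Nat.card G ≠ 4760 := by
  intro h
  have hG : ¬ IsMulCommutative G := not_comm_of_not_prime (by rw [h]; norm_num)
  have : Fact (Nat.Prime 5) := ⟨by norm_num⟩
  have h5 : 5 ∣ Nat.card G := by rw [h]; norm_num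
  have hd : Nat.card (Sylow 5 G) ∣ 952 :=
    card_sylow_dvd (k := 1) (h.trans (by norm_num)) (by norm_num)
  have hm := card_sylow_mod (G := G) 5
  have hne := card_sylow_ne_one hG h5
  obtain ⟨P⟩ : Nonempty (Sylow 5 G) := inferInstance
  have hP : Nat.card (P : Subgroup G) = 5 := by
    simpa using card_sylow_subgroup (k := 1) (m := 952) (h.trans (by norm_num)) (by norm_num) P
  have hNn := card_normalizer_mul_card_sylow P
  rw [h] at hNn
  obtain ⟨r, hr1, hr4, hCr, hC5⟩ := sylow_prime_centralizer hG P hP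
  have hr := keyr4 r (Nat.mem_divisors.mpr ⟨hr4, by norm_num⟩)
  obtain ⟨c, hc⟩ := hC5
  rcases key5 _ (Nat.mem_divisors.mpr ⟨hd, by norm_num⟩) hm hne with hn | hn | hn
  · rw [hn] at hNn
    rcases hr with rfl | rfl | rfl <;> omega
  · rw [hn] at hNn
    rcases hr with rfl | rfl | rfl <;> omega
  · rw [hn] at hNn
    have hN : Nat.card (normalizer ((P : Subgroup G) : Set G)) = 5 * 2 := by omega
    have hC : Nat.card (centralizer ((P : Subgroup G) : Set G)) = 5 := by
      rcases hr with rfl | rfl | rfl <;> omega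
    obtain ⟨D, d, hD, hd', hD1, hDd⟩ :=
      Cfsg.Agent.Lib.Helper82.DegFive.degrees_five hG (P : Subgroup G) hP hC hN
    rw [h] at hD hd'
    exact keyD D (Nat.mem_divisors.mpr ⟨hD, by norm_num⟩) d
      (Nat.mem_divisors.mpr ⟨hd', by norm_num⟩) hD1 hDd

end Cfsg.Agent.Lib.Helper72.O4760
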