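import Mathlib
import Cfsg.Agent.Lib.Helper72.OrdTools

set_option autoImplicit false

namespace Cfsg.Agent.Lib.Helper72.O5148

open Subgroup MulAction
open Cfsg.Agent.Lib.Helper17.Sylow Cfsg.Agent.Lib.Helper17.Sylow2
open Cfsg.Agent.Lib.Helper17.CentFix Cfsg.Agent.Lib.Helper17.Commuting
open Cfsg.Agent.Lib.Helper17.FixCount
open Cfsg.Agent.Lib.Helper72.OrdTools

theorem key11 : ∀ n ∈ Nat.divisors 468, n % 11 = 1 → n ≠ 1 → n = 12 ∨ n = 78 := by
  decide +kernel

theorem keyr10 : ∀ r ∈ Nat.divisors 10, r = 1 ∨ r = 2 ∨ r = 5 ∨ r = 10 := by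
  decide

theorem keyz : ∀ z ∈ Nat.divisors 5148, ∀ k ∈ Finset.range 3, ∀ F ∈ ({12, 45} : Finset ℕ),
    66 * F = z * k → z = 396 := by
  decide +kernel

/-- No finite simple group has order 5148 = 2^2 * 3^2 * 11 * 13. -/
theorem no_simple {G : Type*} [Group G] [Finite G] [IsSimpleGroup G] : Nat.card G ≠ 5148 := by
  intro h
  have hG : ¬ IsMulCommutative G := not_comm_of_not_prime (by rw [h]; norm_num)
  have : Fact (Nat.Prime 11) := ⟨by norm_num⟩
  have : Fact (Nat.Prime 3) := ⟨by norm_num⟩
  have h11 : 11 ∣ Nat.card G := by rw [h]; norm_num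
  have hd : Nat.card (Sylow 11 G) ∣ 468 :=
    card_sylow_dvd (k := 1) (h.trans (by norm_num)) (by norm_num)
  have hm := card_sylow_mod (G := G) 11
  have hne := card_sylow_ne_one hG h11
  obtain ⟨P⟩ : Nonempty (Sylow 11 G) := inferInstance
  have hP : Nat.card (P : Subgroup G) = 11 := by
    simpa using card_sylow_subgroup (k := 1) (m := 468) (h.trans (by norm_num)) (by norm_num) P
  have hNn := card_normalizer_mul_card_sylow P
  rw [h] at hNn
  have hidx : (normalizer ((P : Subgroup G) : Set G)).index = Nat.card (Sylow 11 G) :=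
    (P.card_eq_index_normalizer).symm
  obtain ⟨r, hr1, hr10, hCr, hC11⟩ := sylow_prime_centralizer hG P hP
  have hr := keyr10 r (Nat.mem_divisors.mpr ⟨hr10, by norm_num⟩)
  obtain ⟨c, hc⟩ := hC11
  rcases key11 _ (Nat.mem_divisors.mpr ⟨hd, by norm_num⟩) hm hne with hn | hn
  · rw [hn] at hNn
    rcases hr with rfl | rfl | rfl | rfl <;> omega
  · rw [hn] at hNn
    have hN : Nat.card (normalizer ((P : Subgroup G) : Set G)) = 66 := by omega
    have hr2 : r = 2 := by rcases hr with rfl | rfl | rfl | rfl <;> omega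
    subst hr2
    have hC : Nat.card (centralizer ((P : Subgroup G) : Set G)) = 33 := by omega
    have hC3 : 3 ∣ Nat.card (centralizer ((P : Subgroup G) : Set G)) := by rw [hC]; norm_num
    obtain ⟨u, huC, hu⟩ :=
      exists_mem_orderOf_eq_prime (centralizer ((P : Subgroup G) : Set G)) 3 hC3
    have h1 := card_fixedBy_mod_of_mem_centralizer P hP u huC
    have hu3 : u ^ (3 ^ 1) = 1 := by rw [pow_one, ← hu]; exact pow_orderOf_eq_one u
    have h2 := card_modEq_card_fixedBy
      (X := G ⧸ normalizer ((P : Subgroup G) : Set G)) u hu3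
    have hu1 : u ≠ 1 := by
      rintro rfl
      rw [orderOf_one] at hu
      omega
    have h3 := card_fixedBy_lt_index _ (normalizer_sylow_ne_top hG h11 P) u hu1
    have hX : Nat.card (G ⧸ normalizer ((P : Subgroup G) : Set G)) = 78 := hidx.trans hn
    rw [hidx, hn] at h3
    rw [hX, Nat.ModEq] at h2
    have hfc := card_mul_card_fixedBy (normalizer ((P : Subgroup G) : Set G)) u
    rw [hN] at hfc
    have hk := ncard_conj_add_one_le (P : Subgroup G) u 3 2 2 hu (by norm_num) hCr (by norm_num)
    have hB := ncard_pow_eq_one_mul_le (centralizer ((P : Subgroup G) : Set G)) (P : Subgroup G)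
      (le_centralizer_of_card_prime (P : Subgroup G) hP)
      (fun s hs x hx => ((mem_centralizer_iff.mp hs) x hx).symm) 3 (by rw [hP]; norm_num)
    rw [hP, hC] at hB
    have hz : Nat.card (centralizer ({u} : Set G)) ∣ 5148 := by
      rw [← h]; exact card_subgroup_dvd_card _
    generalize Nat.card (fixedBy (G ⧸ normalizer ((P : Subgroup G) : Set G)) u) = F at *
    generalize {s : G | s ∈ normalizer ((P : Subgroup G) : Set G) ∧ ∃ g : G, g * u * g⁻¹ = s}.ncard
      = k at *
    generalize {s : G | s ∈ centralizer ((P : Subgroup G) : Set G) ∧ s ^ 3 = 1}.ncard = B at *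
    have hk2 : k < 3 := by omega
    have hFv : F = 12 ∨ F = 45 := by omega
    have hz396 : Nat.card (centralizer ({u} : Set G)) = 396 :=
      keyz _ (Nat.mem_divisors.mpr ⟨hz, by norm_num⟩) k (Finset.mem_range.mpr hk2) F
        (by rcases hFv with rfl | rfl <;> simp) hfc
    have hidx13 : (centralizer ({u} : Set G)).index = 13 ^ 1 := by
      have h5 := (centralizer ({u} : Set G)).card_mul_index
      rw [hz396, h] at h5
      omega
    exact false_of_index_prime_pow hG 13 (by norm_num) u hu1 1 hidx13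

end Cfsg.Agent.Lib.Helper72.O5148
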