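import Mathlib
import Cfsg.Agent.Lib.Helper16.SNStmt
import Cfsg.Agent.Lib.Helper17.Commuting
import Cfsg.Agent.Lib.Helper2.NC

/-!
Piece [IMG17] of S3641: a 17-subgroup normalizing a Sylow 2- or 3-subgroup acts trivially on the
18 Sylow 17-subgroups.
-/

set_option autoImplicit false

namespace Cfsg.Agent.Lib.Helper72.SNIMG17

open Cfsg.Agent.Lib.Helper16.SNStmt MulAction

universe u

/-- On 18 points, an `r`-element (`r = 2, 3`) commuting with a nonidentity 17-element is
trivial. -/
theorem perm_key {Ω : Type*} [Finite Ω] (hΩ : Nat.card Ω = 18) (y c : Equiv.Perm Ω)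
    (hy1 : y ≠ 1) (k : ℕ) (hy : y ^ (17 ^ k) = 1) (hcy : Commute c y)
    (r a : ℕ) (hr : r = 2 ∨ r = 3) (hc : c ^ (r ^ a) = 1) : c = 1 := by
  haveI : Fact (Nat.Prime 17) := ⟨by norm_num⟩
  haveI : Fact (Nat.Prime r) := ⟨by rcases hr with rfl | rfl <;> norm_num⟩
  have h1 : Nat.card Ω ≡ Nat.card (fixedBy Ω y) [MOD 17] :=
    Cfsg.Agent.Lib.Helper17.Commuting.card_modEq_card_fixedBy y hy
  have hle : ∀ g : Equiv.Perm Ω, Nat.card (fixedBy Ω g) ≤ 18 := by
    intro g
    rw [← hΩ]
    exact Nat.card_le_card_of_injective Subtype.val Subtype.val_injective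
  have huniv : ∀ g : Equiv.Perm Ω, Nat.card (fixedBy Ω g) = 18 → g = 1 := by
    intro g hg
    have hu : fixedBy Ω g = Set.univ := by
      apply Set.eq_of_subset_of_ncard_le (Set.subset_univ _)
      rw [Set.ncard_univ, ← Nat.card_coe_set_eq, hg, hΩ]
    ext x
    have hx : x ∈ fixedBy Ω g := by rw [hu]; trivial
    simpa using hx
  have hFy : Nat.card (fixedBy Ω y) = 1 := by
    have h2 := hle y
    have h3 : Nat.card (fixedBy Ω y) ≠ 18 := fun h => hy1 (huniv y h)
    rw [hΩ] at h1
    unfold Nat.ModEq at h1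
    omega
  have h2 : Nat.card (fixedBy Ω c) ≡ Nat.card {x : Ω // c • x = x ∧ y • x = x} [MOD 17] :=
    Cfsg.Agent.Lib.Helper17.Commuting.card_fixedBy_modEq_of_commute c y hcy hy
  have h3 : Nat.card {x : Ω // c • x = x ∧ y • x = x} ≤ 1 := by
    rw [Cfsg.Agent.Lib.Helper17.Commuting.card_common_comm, ← hFy]
    exact Cfsg.Agent.Lib.Helper17.Commuting.card_common_le_left y c
  have h4 : Nat.card Ω ≡ Nat.card (fixedBy Ω c) [MOD r] :=
    Cfsg.Agent.Lib.Helper17.Commuting.card_modEq_card_fixedBy c hc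
  have h5 : Nat.card (fixedBy Ω y) ≡ Nat.card {x : Ω // y • x = x ∧ c • x = x} [MOD r] :=
    Cfsg.Agent.Lib.Helper17.Commuting.card_fixedBy_modEq_of_commute y c hcy.symm hc
  rw [← Cfsg.Agent.Lib.Helper17.Commuting.card_common_comm, hFy] at h5
  apply huniv
  have h6 := hle c
  rw [hΩ] at h4
  unfold Nat.ModEq at h2 h4 h5
  rcases hr with rfl | rfl <;> omega

theorem main : Cfsg.Agent.Lib.Helper16.SNStmt.Img17.{u} := by
  intro G _ _ h18 d hd hrange r _ hr R Q hQ hQR q hq
  haveI : Fact (Nat.Prime 17) := ⟨by norm_num⟩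
  rw [MonoidHom.mem_ker]
  by_contra hne
  have hqN : q ∈ Subgroup.normalizer ((R : Subgroup G) : Set G) := hQR hq
  obtain ⟨k, hk⟩ := hQ ⟨q, hq⟩
  have hqk : q ^ (17 ^ k) = 1 := by
    have := congrArg Subtype.val hk
    simpa using this
  have hy : (act G q) ^ (17 ^ k) = 1 := by rw [← map_pow, hqk, map_one]
  -- the image of `R`
  have hRp : IsPGroup r ((R : Subgroup G).map (act G)) := R.2.map (act G)
  have hnorm : act G q ∈ Subgroup.normalizer (((R : Subgroup G).map (act G) : Subgroup _) : Set _) := by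
    rw [Subgroup.mem_normalizer_iff]
    intro h
    constructor
    · rintro ⟨t, ht, rfl⟩
      refine ⟨q * t * q⁻¹, (Subgroup.mem_normalizer_iff.1 hqN t).1 ht, ?_⟩
      rw [map_mul, map_mul, map_inv]
    · rintro ⟨t, ht, hte⟩
      refine ⟨q⁻¹ * t * q, ?_, ?_⟩
      · have h1 := (Subgroup.mem_normalizer_iff.1 hqN (q⁻¹ * t * q)).2
        apply h1
        have e : q * (q⁻¹ * t * q) * q⁻¹ = t := by group
        rw [e]
        exact ht
      · rw [map_mul, map_mul, map_inv, hte]
        group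
  obtain ⟨k', -, hk'⟩ := (Nat.dvd_prime_pow (by norm_num : Nat.Prime 17)).1
    (orderOf_dvd_of_pow_eq_one hy)
  have hmod := Cfsg.Agent.Lib.Helper2.NC.card_modEq_card_inf_centralizer
    ((R : Subgroup G).map (act G)) (act G q) hnorm 17 k' hk'
  have hbot : ((R : Subgroup G).map (act G) ⊓ Subgroup.centralizer {act G q} : Subgroup _) = ⊥ := by
    rw [eq_bot_iff]
    rintro c ⟨hc1, hc2⟩
    rw [Subgroup.mem_bot]
    obtain ⟨a, ha⟩ := hRp ⟨c, hc1⟩
    have hca : c ^ (r ^ a) = 1 := by
      have := congrArg Subtype.val ha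
      simpa using this
    have hcomm : Commute c (act G q) := by
      have hc3 : c ∈ Subgroup.centralizer {act G q} := hc2
      rw [Subgroup.mem_centralizer_iff] at hc3
      exact (hc3 _ rfl).symm
    exact perm_key h18 (act G q) c hne k hy hcomm r a hr hca
  rw [hbot, Subgroup.card_bot] at hmod
  -- the order of the image of `R`
  obtain ⟨a, ha⟩ := IsPGroup.iff_card.1 hRp
  have hdvd : Nat.card ((R : Subgroup G).map (act G)) ∣ 18 * 17 * d := by
    rw [← hrange]
    exact Subgroup.card_dvd_of_le (Subgroup.map_le_range _ _)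
  have ha0 : a ≠ 0 := by
    rintro rfl
    rw [pow_zero] at ha
    have hRb : (R : Subgroup G).map (act G) = ⊥ := Subgroup.card_eq_one.1 ha
    have hRker : (R : Subgroup G) ≤ (act G).ker := by
      rw [← Subgroup.map_eq_bot_iff]
      exact hRb
    have h1 : (act G).ker.index ∣ (R : Subgroup G).index := Subgroup.index_dvd_of_le hRker
    rw [Subgroup.index_ker, hrange] at h1
    have h2 : r ∣ 18 * 17 * d := by
      rcases hr with rfl | rfl
      · exact Dvd.dvd.mul_right (Dvd.dvd.mul_right (by norm_num) _) _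
      · exact Dvd.dvd.mul_right (Dvd.dvd.mul_right (by norm_num) _) _
    exact R.not_dvd_index (h2.trans h1)
  rw [ha] at hmod hdvd
  have hr2 : 2 ≤ r := by rcases hr with rfl | rfl <;> norm_num
  have ha12 : a ≤ 12 := by
    by_contra hcon
    have h1 : r ^ a ≤ 18 * 17 * d := Nat.le_of_dvd (by rcases hd with rfl | rfl <;> norm_num) hdvd
    have h2 : 2 ^ 13 ≤ r ^ a :=
      calc 2 ^ 13 ≤ 2 ^ a := Nat.pow_le_pow_right (by norm_num) (by omega)
        _ ≤ r ^ a := Nat.pow_le_pow_left hr2 a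
    rcases hd with rfl | rfl <;> omega
  rcases hr with rfl | rfl <;> rcases hd with rfl | rfl <;> interval_cases a <;>
    first
    | exact absurd rfl ha0
    | exact absurd hmod (by decide)
    | exact absurd hdvd (by decide)

end Cfsg.Agent.Lib.Helper72.SNIMG17
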