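import Mathlib
import Cfsg.Agent.Lib.Helper38.Sp4Stmt

/-!
Piece [C4] of S5320: if `2` is not a square, `Cst = {±1, ±w0}`.
-/

set_option autoImplicit false

namespace Cfsg.Agent.Lib.Helper72.Sp4C4

open Matrix Cfsg.Agent.H85.PSL2Inv Cfsg.Agent.Lib.Helper42.SL2Odd

open Cfsg.Agent.Lib.Helper38.Sp4Stmt hiding w0

universe u

variable {F : Type u} [Field F]

local notation "SL2F" => Matrix.SpecialLinearGroup (Fin 2) F

/-- the `2`-elements of `C(w0)` form a subgroup -/
def K2 (F : Type u) [Field F] : Subgroup (Matrix.SpecialLinearGroup (Fin 2) F) where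
  carrier := {g | g * w0 = w0 * g ∧ ∃ k : ℕ, g ^ (2 ^ k) = 1}
  one_mem' := ⟨by rw [one_mul, mul_one], 0, one_pow _⟩
  mul_mem' := by
    rintro a b ⟨ha, k, hk⟩ ⟨hb, l, hl⟩
    refine ⟨?_, k + l, ?_⟩
    · rw [mul_assoc, hb, ← mul_assoc, ha, mul_assoc]
    · have hc : Commute a b := comm_of_comm_w0 ha hb
      rw [hc.mul_pow]
      have e1 : a ^ (2 ^ (k + l)) = 1 := by rw [pow_add, pow_mul, hk, one_pow]
      have e2 : b ^ (2 ^ (k + l)) = 1 := by rw [pow_add, mul_comm, pow_mul, hl, one_pow]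
      rw [e1, e2, one_mul]
  inv_mem' := by
    rintro a ⟨ha, k, hk⟩
    refine ⟨?_, k, ?_⟩
    · calc a⁻¹ * w0 = a⁻¹ * (w0 * a) * a⁻¹ := by group
        _ = a⁻¹ * (a * w0) * a⁻¹ := by rw [ha]
        _ = w0 * a⁻¹ := by group
    · rw [inv_pow, hk, inv_one]

theorem Cst_le_K2 : Cst F ≤ K2 F := by
  unfold Cst
  rw [Subgroup.closure_le]
  intro g hg
  exact hg

theorem gen_cases (h2 : (2 : F) ≠ 0) (hns : ¬ IsSquare (2 : F)) :
    ∀ (k : ℕ) (g : SL2F), g * w0 = w0 * g → g ^ (2 ^ k) = 1 →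
      g = 1 ∨ g = -1 ∨ g = w0 ∨ g = -w0 := by
  intro k
  induction k with
  | zero =>
    intro g _ hk
    left
    simpa using hk
  | succ k ih =>
    intro g hg hk
    have hgg : (g * g) * w0 = w0 * (g * g) := by
      rw [mul_assoc, hg, ← mul_assoc, hg, mul_assoc]
    have hk' : (g * g) ^ (2 ^ k) = 1 := by
      rw [← pow_two, ← pow_mul, ← pow_succ']
      exact hk
    have key : ∀ (_ : (g * g : SL2F) 0 0 = 0), False := by
      intro h00
      obtain ⟨a00, -, -, -⟩ := mul_entries g g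
      obtain ⟨e1, e2⟩ := (comm_w0_iff g).mp hg
      have hd := det_eq g
      rw [a00] at h00
      rw [e2] at h00 hd
      rw [← e1] at hd
      have h3 : 2 * (g 0 0 * g 0 0) = 1 := by linear_combination h00 + hd
      have hp : g 0 0 ≠ 0 := by
        intro h0
        rw [h0] at h3
        simp at h3
      apply hns
      refine ⟨(g 0 0)⁻¹, ?_⟩
      field_simp
      linear_combination h3
    rcases ih (g * g) hgg hk' with h | h | h | h
    · rcases eq_one_or_neg_of_sq h2 h with h' | h'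
      · exact Or.inl h'
      · exact Or.inr (Or.inl h')
    · rcases cent_sq_neg_one h2 hg h with h' | h'
      · exact Or.inr (Or.inr (Or.inl h'))
      · exact Or.inr (Or.inr (Or.inr h'))
    · exfalso
      apply key
      rw [h]
      exact w0_00
    · exfalso
      apply key
      rw [h, neg_entries, w0_00, neg_zero]

theorem main : Cfsg.Agent.Lib.Helper38.Sp4Stmt.C4.{u} := by
  intro F _ h2 hns g hg
  obtain ⟨hc, k, hk⟩ := Cst_le_K2 hg
  exact gen_cases h2 hns k g hc hk

end Cfsg.Agent.Lib.Helper72.Sp4C4
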