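import Mathlib
import Cfsg.Agent.Lib.Helper38.Sp4Stmt

/-!
Piece [Q8A] of S5320: in the quaternion case conjugation in `Qst` is multiplication by `±1` and
squares are `±1`.
-/

set_option autoImplicit false

namespace Cfsg.Agent.Lib.Helper72.Sp4Q8A

open Matrix Cfsg.Agent.H85.PSL2Inv Cfsg.Agent.Lib.Helper42.SL2Odd

open Cfsg.Agent.Lib.Helper38.Sp4Stmt hiding w0

universe u

variable {F : Type u} [Field F]

local notation "SL2F" => Matrix.SpecialLinearGroup (Fin 2) F

/-- the elements commuting with `c` up to sign -/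
def SC (c : SL2F) : Subgroup SL2F where
  carrier := {a | c * a = a * c ∨ c * a = -(a * c)}
  one_mem' := Or.inl (by rw [one_mul, mul_one])
  mul_mem' := by
    rintro a b (ha | ha) (hb | hb)
    · left
      rw [← mul_assoc, ha, mul_assoc, hb, mul_assoc]
    · right
      rw [← mul_assoc, ha, mul_assoc, hb, mul_neg, mul_assoc]
    · right
      rw [← mul_assoc, ha, neg_mul, mul_assoc, hb, mul_assoc]
    · left
      rw [← mul_assoc, ha, neg_mul, mul_assoc, hb, mul_neg, neg_neg, mul_assoc]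
  inv_mem' := by
    rintro a (ha | ha)
    · left
      calc c * a⁻¹ = a⁻¹ * (a * c) * a⁻¹ := by group
        _ = a⁻¹ * (c * a) * a⁻¹ := by rw [ha]
        _ = a⁻¹ * c := by group
    · right
      have e : a⁻¹ * c = -(c * a⁻¹) := by
        calc a⁻¹ * c = a⁻¹ * (c * a) * a⁻¹ := by group
          _ = a⁻¹ * (-(a * c)) * a⁻¹ := by rw [ha]
          _ = -(a⁻¹ * (a * c) * a⁻¹) := by rw [mul_neg, neg_mul]
          _ = -(c * a⁻¹) := by
            congr 1
            group
      rw [e, neg_neg]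

theorem mem_SC {a c : SL2F} : a ∈ SC c ↔ (c * a = a * c ∨ c * a = -(a * c)) := Iff.rfl

theorem SC_symm {a c : SL2F} (h : a ∈ SC c) : c ∈ SC a := by
  rcases h with h | h
  · exact Or.inl h.symm
  · right
    rw [h, neg_neg]

theorem yy_00 (x y : F) (h : x ^ 2 + y ^ 2 = -1) : (yy x y h : SL2F) 0 0 = x := rfl
theorem yy_01 (x y : F) (h : x ^ 2 + y ^ 2 = -1) : (yy x y h : SL2F) 0 1 = y := rfl
theorem yy_10 (x y : F) (h : x ^ 2 + y ^ 2 = -1) : (yy x y h : SL2F) 1 0 = y := rfl
theorem yy_11 (x y : F) (h : x ^ 2 + y ^ 2 = -1) : (yy x y h : SL2F) 1 1 = -x := rfl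

theorem yy_sq (x y : F) (h : x ^ 2 + y ^ 2 = -1) : yy x y h * yy x y h = -1 := by
  apply sq_of_trace_zero
  rw [yy_00, yy_11, add_neg_cancel]

theorem w0_sq : (w0 : SL2F) * w0 = -1 := by
  apply sq_of_trace_zero
  rw [w0_00, w0_11, add_zero]

theorem yy_anti (x y : F) (h : x ^ 2 + y ^ 2 = -1) : yy x y h * w0 = -(w0 * yy x y h) := by
  rw [anti_w0_iff]
  refine ⟨?_, ?_⟩
  · rw [yy_00, yy_11, neg_neg]
  · rw [yy_01, yy_10]

theorem w0_mem_SC_yy (x y : F) (h : x ^ 2 + y ^ 2 = -1) : (w0 : SL2F) ∈ SC (yy x y h) :=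
  Or.inr (yy_anti x y h)

theorem neg_one_mem_SC (c : SL2F) : (-1 : SL2F) ∈ SC c :=
  Or.inl (by rw [mul_neg, mul_one, neg_mul, one_mul])

theorem neg_mem_SC {a c : SL2F} (h : a ∈ SC c) : -a ∈ SC c := by
  have e : -a = -1 * a := by rw [neg_mul, one_mul]
  rw [e]
  exact (SC c).mul_mem (neg_one_mem_SC c) h

/-- `Qst` lies in `SC c` as soon as `w0` and `yy` do -/
theorem Qst_le_SC (x y : F) (h : x ^ 2 + y ^ 2 = -1)
    (hC4 : ∀ g ∈ Cst F, g = 1 ∨ g = -1 ∨ g = w0 ∨ g = -w0) (c : SL2F)
    (h1 : (w0 : SL2F) ∈ SC c) (h2 : yy x y h ∈ SC c) : Qst x y h ≤ SC c := by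
  unfold Qst
  rw [Subgroup.closure_le]
  rintro g (hg | hg)
  · rcases hC4 g hg with e | e | e | e
    · rw [e]; exact (SC c).one_mem
    · rw [e]; exact neg_one_mem_SC c
    · rw [e]; exact h1
    · rw [e]; exact neg_mem_SC h1
  · rw [hg]; exact h2

theorem main : Cfsg.Agent.Lib.Helper38.Sp4Stmt.Q8A.{u} := by
  intro F _ x y h h2 hC4
  have hw : Qst x y h ≤ SC (w0 : Matrix.SpecialLinearGroup (Fin 2) F) :=
    Qst_le_SC x y h hC4 _ (Or.inl rfl) (SC_symm (w0_mem_SC_yy x y h))
  have hy : Qst x y h ≤ SC (yy x y h) :=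
    Qst_le_SC x y h hC4 _ (w0_mem_SC_yy x y h) (Or.inl rfl)
  have hall : ∀ a ∈ Qst x y h, ∀ c ∈ Qst x y h, c * a = a * c ∨ c * a = -(a * c) := by
    intro a ha c hc
    exact Qst_le_SC x y h hC4 c (SC_symm (hw hc)) (SC_symm (hy hc)) ha
  refine ⟨?_, ?_⟩
  · intro a ha c hc
    rcases hall a ha c hc with e | e
    · left
      rw [e, mul_inv_cancel_right]
    · right
      rw [e, neg_mul, mul_inv_cancel_right, neg_mul, one_mul]
  · intro c hc
    have hc' := hc
    unfold Qst at hc
    induction hc using Subgroup.closure_induction with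
    | mem g hg =>
      rcases hg with hg | hg
      · rcases hC4 g hg with e | e | e | e
        · left; rw [e, mul_one]
        · left; rw [e, neg_mul, mul_neg, neg_neg, mul_one]
        · right; rw [e]; exact w0_sq
        · right; rw [e, neg_mul, mul_neg, neg_neg]; exact w0_sq
      · right; rw [hg]; exact yy_sq x y h
    | one => left; rw [mul_one]
    | mul a b ha hb iha ihb =>
      have ha' : a ∈ Qst x y h := ha
      have hb' : b ∈ Qst x y h := hb
      have e1 : a * b * (a * b) = a * (b * a) * b := by group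
      rw [e1]
      rcases hall a ha' b hb' with e | e
      · rw [e]
        have e2 : a * (a * b) * b = (a * a) * (b * b) := by group
        rw [e2]
        rcases iha ha' with e3 | e3 <;> rcases ihb hb' with e4 | e4
        · left; rw [e3, e4, mul_one]
        · right; rw [e3, e4, one_mul]
        · right; rw [e3, e4, mul_one]
        · left; rw [e3, e4, neg_mul, mul_neg, neg_neg, mul_one]
      · rw [e]
        have e2 : a * (-(a * b)) * b = -((a * a) * (b * b)) := by
          rw [mul_neg, neg_mul]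
          congr 1
          group
        rw [e2]
        rcases iha ha' with e3 | e3 <;> rcases ihb hb' with e4 | e4
        · right; rw [e3, e4, mul_one]
        · left; rw [e3, e4, one_mul, neg_neg]
        · left; rw [e3, e4, mul_one, neg_neg]
        · right; rw [e3, e4, neg_mul, mul_neg, neg_neg, mul_one]
    | inv a ha iha =>
      have ha' : a ∈ Qst x y h := ha
      have e1 : a⁻¹ * a⁻¹ = (a * a)⁻¹ := by group
      rw [e1]
      rcases iha ha' with e3 | e3
      · left; rw [e3, inv_one]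
      · right
        rw [e3, inv_eq_iff_mul_eq_one, neg_mul, mul_neg, neg_neg, mul_one]

end Cfsg.Agent.Lib.Helper72.Sp4Q8A
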